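import Mathlib
import Cfsg.Agent.H800.Co.C7_mg
import Cfsg.Prelude.Def_TwoFusion
import Cfsg.Prelude.Def_FusionSystem
import Cfsg.Agent.H956.Co1P.Main
import Mathlib.LinearAlgebra.SymplecticGroup
import Cfsg.Agent.LieClassical.SympCount
import Cfsg.Agent.H776.Co.Lin_m3
import Cfsg.Agent.Lib.CoprimeHyperplane
import Mathlib.LinearAlgebra.Matrix.GeneralLinearGroup.Card
import Cfsg.Agent.H752.Mp
import Cfsg.Agent.H802.FusNorm
import Mathlib.GroupTheory.SpecificGroups.Cyclic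
import Mathlib.Tactic.Group
import Mathlib.Tactic.LinearCombination
import Cfsg.Agent.FastGrp
import Cfsg.Agent.Prune
set_option linter.all false

section
prune_inst 0x7f00000000000000000000000000000000000000000000000000000000000000000000000000000000000000000000000000000000000000000000000000000000000000000000000000000000000000003fffffffffffffffffffffffffffbeffbdffffffff

section
prune_inst 0xfebcf9afbc2ddfffff7e7ffffddffdfbf8ffffffdffbfbffedf9ff3fdf6bfffbc5fbaf7fef50ff8ef6e0bc30f87b53f9ffeeffee6bdc7ffffd5ff45ffbff9fedffbd8c7196b8341ffc6ffffbf07f8e7f000000000000000000000000000041004200000000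

-- part: H410/Co1/Sys
section
prune_inst 0x4300000282200000000000000002040400000000040000100200c0208000003000008000a900610112028a0400a800001000019001800002000820040040000042330e61074bc0011000040f807180c00000000000000000000000000000000000000000
set_option linter.all false
open scoped Cfsg.Agent.FastGrp

/-!
A finite group `K` with an extraspecial Sylow 3-subgroup `S` of order 27 in which the subgroup `U2` of order 9 is strongly
closed (auxiliary results for `Cfsg.Agent.H410.Co1.Move`).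
-/

set_option autoImplicit false
set_option linter.style.longLine false

namespace Cfsg.Agent.H410.Co1

open Subgroup

variable {K : Type*} [Group K]

/-- the situation -/
structure Sys (S : Sylow 3 K) (U1 U2 : Subgroup K) (z : K) : Prop where
  cardS : Nat.card S = 27
  le1 : U1 ≤ S
  le2 : U2 ≤ S
  card1 : Nat.card U1 = 9
  card2 : Nat.card U2 = 9
  inf : U1 ⊓ U2 = zpowers z
  z_ne : z ≠ 1
  z3 : z ^ 3 = 1
  z_comm : ∀ x ∈ S, x * z = z * x
  center : ∀ x ∈ S, (∀ y ∈ S, x * y = y * x) → x ∈ zpowers z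
  scl : ∀ x ∈ U2, ∀ g : K, g * x * g⁻¹ ∈ S → g * x * g⁻¹ ∈ U2
  type : ∀ g : K, ∀ x ∈ U1, g * x * g⁻¹ ∈ S → g * x * g⁻¹ ∈ U1 ∨ g * x * g⁻¹ ∈ U2
  sig : ∀ R : Subgroup K, (∀ t ∈ S, ∀ r ∈ R, t * r * t⁻¹ ∈ R) → ¬ 3 ∣ Nat.card R → R = ⊥

instance fact3 : Fact (Nat.Prime 3) := ⟨Nat.prime_three⟩

/-- commutators of a group of order 27 lie in a subgroup of order 9 -/
theorem comm_mem [Finite K] {S V : Subgroup K} (hS : Nat.card S = 27) (hVS : V ≤ S) (hV : Nat.card V = 9)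
    {x y : K} (hx : x ∈ S) (hy : y ∈ S) : x * y * x⁻¹ * y⁻¹ ∈ V := by
  have hcardV : Nat.card (V.subgroupOf S) = 9 := by
    rw [← hV]; exact Nat.card_congr (subgroupOfEquivOfLe hVS).toEquiv
  have hidx : (V.subgroupOf S).index = 3 := by
    have h := (V.subgroupOf S).card_mul_index
    rw [hcardV, hS] at h; omega
  have hmf : Nat.minFac 27 = 3 := by norm_num
  have hn : (V.subgroupOf S).Normal := by
    apply normal_of_index_eq_minFac_card
    rw [hidx, hS, hmf]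
  have hc : IsCyclic (S ⧸ V.subgroupOf S) := by
    apply isCyclic_of_prime_card (p := 3)
    rw [← hidx]; rfl
  let _ : CommGroup (S ⧸ V.subgroupOf S) := IsCyclic.commGroup
  have h1 : (QuotientGroup.mk' (V.subgroupOf S)) (⟨x, hx⟩ * ⟨y, hy⟩ * ⟨x, hx⟩⁻¹ * ⟨y, hy⟩⁻¹) = 1 := by
    rw [map_mul, map_mul, map_mul, map_inv, map_inv]
    rw [mul_comm ((QuotientGroup.mk' (V.subgroupOf S)) ⟨x, hx⟩) ((QuotientGroup.mk' (V.subgroupOf S)) ⟨y, hy⟩)]
    group
  have h2 : (⟨x, hx⟩ * ⟨y, hy⟩ * ⟨x, hx⟩⁻¹ * ⟨y, hy⟩⁻¹ : S) ∈ V.subgroupOf S := by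
    rw [← QuotientGroup.ker_mk' (V.subgroupOf S)]; exact h1
  rw [mem_subgroupOf] at h2
  simpa using h2

theorem conj_mem_of_card [Finite K] {S V : Subgroup K} (hS : Nat.card S = 27) (hVS : V ≤ S) (hV : Nat.card V = 9)
    {x v : K} (hx : x ∈ S) (hv : v ∈ V) : x * v * x⁻¹ ∈ V := by
  have h := comm_mem hS hVS hV hx (hVS hv)
  have h2 := V.mul_mem h hv
  rwa [inv_mul_cancel_right] at h2

theorem comm_of_card {V : Subgroup K} (hV : Nat.card V = 9) {x y : K} (hx : x ∈ V) (hy : y ∈ V) : x * y = y * x := by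
  have h : IsMulCommutative V := IsPGroup.isMulCommutative_of_card_eq_prime_sq (p := 3) (by rw [hV]; norm_num)
  exact congrArg Subtype.val (h.is_comm.comm (⟨x, hx⟩ : V) ⟨y, hy⟩)

namespace Sys

variable {S : Sylow 3 K} {U1 U2 : Subgroup K} {z : K}

theorem card_z (h : Sys S U1 U2 z) : Nat.card (zpowers z) = 3 := by
  rw [Nat.card_zpowers]
  exact orderOf_eq_prime h.z3 h.z_ne

theorem z_mem1 (h : Sys S U1 U2 z) : zpowers z ≤ U1 := by
  rw [← h.inf]; exact inf_le_left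

theorem z_mem2 (h : Sys S U1 U2 z) : zpowers z ≤ U2 := by
  rw [← h.inf]; exact inf_le_right

/-- elements of order 3-power normalising `S` are in `S` -/
theorem mem_of_pow {x : K} (hx : x ∈ normalizer (S : Set K)) {n : ℕ} (hn : orderOf x = 3 ^ n) : x ∈ S := by
  have hp : IsPGroup 3 (zpowers x) := by
    apply IsPGroup.of_card (n := n)
    rw [Nat.card_zpowers, hn]
  have h1 := hp.inf_normalizer_sylow S
  have h2 : x ∈ zpowers x ⊓ normalizer (S : Set K) := ⟨mem_zpowers x, hx⟩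
  rw [h1] at h2
  exact h2.2

/-- an element that centralises `S` is in `⟨z⟩` -/
theorem centralizer_S [Finite K] (h : Sys S U1 U2 z) {x : K} (hx : ∀ y ∈ S, x * y = y * x) : x ∈ zpowers z := by
  apply h.center x _ hx
  have hxn : ∀ k : ℕ, ∀ y ∈ S, x ^ k * y = y * x ^ k := fun k y hy => (Commute.pow_left (hx y hy) k)
  obtain ⟨n, m, hm, hnm⟩ := Nat.exists_eq_pow_mul_and_not_dvd (n := orderOf x) (orderOf_pos x).ne' 3 (by norm_num)
  have h1 : zpowers (x ^ 3 ^ n) = ⊥ := by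
    apply h.sig
    · intro t ht r hr
      obtain ⟨k, rfl⟩ := mem_zpowers_iff.1 hr
      have h2 : Commute ((x ^ 3 ^ n) ^ k) t := Commute.zpow_left (hxn _ t ht) k
      rw [← h2.eq, mul_inv_cancel_right]
      exact hr
    · rw [Nat.card_zpowers, orderOf_pow, hnm]
      rw [Nat.gcd_eq_right (Dvd.intro _ rfl), Nat.mul_div_cancel_left _ (by positivity)]
      exact hm
  rw [zpowers_eq_bot] at h1
  obtain ⟨k, hk, hk2⟩ := (Nat.dvd_prime_pow Nat.prime_three).1 (orderOf_dvd_of_pow_eq_one h1)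
  refine mem_of_pow (S := S) ?_ hk2
  show x ∈ normalizer ((S : Subgroup K) : Set K)
  rw [mem_normalizer_iff]
  intro y
  constructor
  · intro hy
    rw [hx y hy, mul_inv_cancel_right]; exact hy
  · intro hy
    have h3 := hx _ hy
    have h4 : x * (x * y * x⁻¹) * x⁻¹ = x * y * x⁻¹ := by rw [h3, mul_inv_cancel_right]
    have h5 : x * y * x⁻¹ = y := by
      have h6 := mul_right_cancel h4
      exact mul_left_cancel h6
    rw [← h5]; exact hy

/-- every 3-subgroup that is commutative has order at most 9 -/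
theorem card_comm_le [Finite K] (h : Sys S U1 U2 z) {W : Subgroup K} (hW : IsPGroup 3 W) (hc : ∀ x ∈ W, ∀ y ∈ W, x * y = y * x) :
    Nat.card W ≤ 9 := by
  obtain ⟨Q, hQ⟩ := hW.exists_le_sylow
  obtain ⟨g, hg⟩ := MulAction.exists_smul_eq K S Q
  by_contra hlt
  push Not at hlt
  have hcQ : Nat.card Q = 27 := by rw [← h.cardS]; exact Nat.card_congr (Sylow.equiv Q S).toEquiv
  obtain ⟨n, hn⟩ := IsPGroup.iff_card.1 hW
  have hd : Nat.card W ∣ 27 := by rw [← hcQ]; exact card_dvd_of_le hQ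
  have h27 : Nat.card W = 27 := by
    have h1 : 3 ^ n ∣ 3 ^ 3 := by rw [← hn]; exact hd
    have h2 : n ≤ 3 := (Nat.pow_dvd_pow_iff_le_right (by norm_num)).1 h1
    interval_cases n <;> simp_all
  have hWQ : W = Q := by
    apply eq_of_le_of_card_ge hQ
    rw [h27]; exact hcQ.le
  -- so `S` is commutative
  have hS : ∀ x ∈ S, ∀ y ∈ S, x * y = y * x := by
    intro x hx y hy
    have hm : ∀ x ∈ S, g * x * g⁻¹ ∈ W := by
      intro x hx
      rw [hWQ, ← hg]
      exact Subgroup.smul_mem_pointwise_smul x (MulAut.conj g) (S : Subgroup K) hx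
    have h3 := hc _ (hm x hx) _ (hm y hy)
    have h4 : g * (x * y) * g⁻¹ = g * (y * x) * g⁻¹ := by
      calc g * (x * y) * g⁻¹ = g * x * g⁻¹ * (g * y * g⁻¹) := by group
        _ = _ := h3
        _ = _ := by group
    exact mul_left_cancel (mul_right_cancel h4)
  have h5 : (S : Subgroup K) ≤ zpowers z := fun x hx => h.center x hx (hS x hx)
  have h6 := card_le_of_le h5
  rw [h.card_z] at h6
  have h7 := h.cardS
  have h8 : Nat.card (S : Subgroup K) = 27 := h7
  omega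

/-- `C(V) = V` for `V ≤ S` of order 9 -/
theorem centralizer_V [Finite K] (h : Sys S U1 U2 z) {V : Subgroup K} (hVS : V ≤ S) (hV : Nat.card V = 9) {x : K}
    (hx : ∀ v ∈ V, x * v = v * x) : x ∈ V := by
  have hVp : IsPGroup 3 V := S.isPGroup'.to_le hVS
  have hVc : ∀ x ∈ V, ∀ y ∈ V, x * y = y * x := fun x hx y hy => comm_of_card hV hx hy
  have hVC : V ≤ centralizer (V : Set K) := by
    intro v hv
    rw [mem_centralizer_iff]
    intro w hw
    exact hVc w hw v hv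
  -- `3`-elements of the centralizer are in `V`
  have h3 : ∀ x : K, (∀ v ∈ V, x * v = v * x) → ∀ n : ℕ, orderOf x = 3 ^ n → x ∈ V := by
    intro x hx n hn
    have hp : IsPGroup 3 (zpowers x) := by
      apply IsPGroup.of_card (n := n)
      rw [Nat.card_zpowers, hn]
    have hcomm : ∀ a ∈ zpowers x, ∀ v ∈ V, a * v = v * a := by
      intro a ha v hv
      obtain ⟨k, rfl⟩ := mem_zpowers_iff.1 ha
      exact Commute.zpow_left (hx v hv) k
    have hle : zpowers x ≤ normalizer (V : Set K) := by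
      intro a ha
      rw [mem_normalizer_iff]
      intro v
      constructor
      · intro hv
        rw [hcomm a ha v hv, mul_inv_cancel_right]; exact hv
      · intro hv
        have h3 := hcomm a ha _ hv
        have h4 : a * (a * v * a⁻¹) * a⁻¹ = a * v * a⁻¹ := by rw [h3, mul_inv_cancel_right]
        have h5 : a * v * a⁻¹ = v := by
          have h6 := mul_right_cancel h4
          exact mul_left_cancel h6
        rw [← h5]; exact hv
    have hsup : IsPGroup 3 ↥(zpowers x ⊔ V) := hp.to_sup_of_normal_right' hVp hle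
    have hsc : ∀ a ∈ zpowers x ⊔ V, ∀ b ∈ zpowers x ⊔ V, a * b = b * a := by
      have hle1 : zpowers x ⊔ V ≤ centralizer ((zpowers x ⊔ V : Subgroup K) : Set K) := by
        rw [sup_le_iff]
        constructor
        · rw [le_centralizer_iff, sup_le_iff]
          constructor
          · intro a ha
            rw [mem_centralizer_iff]
            intro b hb
            obtain ⟨k, rfl⟩ := mem_zpowers_iff.1 ha
            obtain ⟨l, rfl⟩ := mem_zpowers_iff.1 hb
            exact (Commute.refl x).zpow_zpow l k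
          · intro a ha
            rw [mem_centralizer_iff]
            intro b hb
            exact hcomm b hb a ha
        · rw [le_centralizer_iff, sup_le_iff]
          constructor
          · intro a ha
            rw [mem_centralizer_iff]
            intro b hb
            exact (hcomm a ha b hb).symm
          · exact hVC
      intro a ha b hb
      exact (mem_centralizer_iff.1 (hle1 hb) a ha)
    have hcard := h.card_comm_le hsup hsc
    have heq : V = zpowers x ⊔ V := by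
      apply eq_of_le_of_card_ge le_sup_right
      rw [hV]; exact hcard
    rw [heq]
    exact le_sup_left (a := zpowers x) (b := V) (mem_zpowers x)
  -- the centralizer
  set C : Subgroup K := centralizer (V : Set K) with hCdef
  have hmemC : ∀ x : K, x ∈ C ↔ ∀ v ∈ V, x * v = v * x := by
    intro x
    rw [hCdef, mem_centralizer_iff]
    exact ⟨fun hh v hv => (hh v hv).symm, fun hh v hv => (hh v hv).symm⟩
  obtain ⟨Q⟩ : Nonempty (Sylow 3 C) := inferInstance
  have hQV : (Q : Subgroup C) = V.subgroupOf C := by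
    symm
    apply Q.is_maximal'
    · exact hVp.comap_of_injective C.subtype C.subtype_injective
    · intro q hq
      rw [mem_subgroupOf]
      obtain ⟨n, hn⟩ := (IsPGroup.iff_orderOf.1 Q.isPGroup') ⟨q, hq⟩
      apply h3 (q : K) ((hmemC q).1 q.2) n
      rw [← hn]
      rw [← orderOf_submonoid (⟨q, hq⟩ : Q)] 
      exact orderOf_submonoid q
  have hcent : normalizer ((Q : Subgroup C) : Set C) ≤ centralizer ((Q : Subgroup C) : Set C) := by
    intro c _
    rw [mem_centralizer_iff]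
    intro q hq
    rw [hQV] at hq
    apply Subtype.ext
    exact ((hmemC c).1 c.2 q (mem_subgroupOf.1 hq)).symm
  have hcompl := MonoidHom.ker_transferSylow_isComplement' Q hcent
  set R : Subgroup C := (MonoidHom.transferSylow Q hcent).ker with hR
  have hRn : R.Normal := MonoidHom.normal_ker _
  have hRcop : ¬ 3 ∣ Nat.card R := by
    have h4 := hcompl.card_mul_card
    have h5 : ¬ 3 ∣ (Q : Subgroup C).index := Q.not_dvd_index
    have h6 := (Q : Subgroup C).card_mul_index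
    have h7 : Nat.card R = (Q : Subgroup C).index := by
      have h8 : Nat.card R * Nat.card (Q : Subgroup C) = (Q : Subgroup C).index * Nat.card (Q : Subgroup C) := by
        rw [h4, ← h6, mul_comm]
      exact Nat.eq_of_mul_eq_mul_right Nat.card_pos h8
    rw [h7]; exact h5
  -- elements of `R` are the elements of order prime to 3
  have hmem : ∀ c : C, c ∈ R ↔ ¬ 3 ∣ orderOf c := by
    intro c
    constructor
    · intro hc h9
      apply hRcop
      have h10 : orderOf (⟨c, hc⟩ : R) ∣ Nat.card R := orderOf_dvd_natCard _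
      rw [← orderOf_submonoid] at h10
      exact h9.trans h10
    · intro hc
      have h11 : orderOf (QuotientGroup.mk' R c) ∣ orderOf c := orderOf_map_dvd _ _
      have h12 : orderOf (QuotientGroup.mk' R c) ∣ Nat.card (C ⧸ R) := orderOf_dvd_natCard _
      have h13 : Nat.card (C ⧸ R) = Nat.card Q := by
        have h14 : R.index = Nat.card (Q : Subgroup C) := by
          exact hcompl.card_right.symm
        rw [← h14]; rfl
      obtain ⟨n, hn⟩ := IsPGroup.iff_card.1 Q.isPGroup'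
      rw [h13, hn] at h12
      have h15 : Nat.Coprime (orderOf (QuotientGroup.mk' R c)) 3 := by
        apply Nat.Coprime.symm
        rw [Nat.Prime.coprime_iff_not_dvd Nat.prime_three]
        exact fun hh => hc (hh.trans h11)
      have h16 : orderOf (QuotientGroup.mk' R c) = 1 := Nat.Coprime.eq_one_of_dvd (h15.pow_right n) h12
      rw [orderOf_eq_one_iff] at h16
      rw [← QuotientGroup.ker_mk' R]
      exact h16
  have hRbot : R.map C.subtype = ⊥ := by
    apply h.sig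
    · intro t ht r hr
      obtain ⟨c, hc, rfl⟩ := mem_map.1 hr
      have hconj : t * (c : K) * t⁻¹ ∈ C := by
        rw [hmemC]
        intro v hv
        have h17 : t⁻¹ * v * t ∈ V := by
          have h18 := conj_mem_of_card (show Nat.card (S : Subgroup K) = 27 from h.cardS) hVS hV (S.inv_mem ht) hv
          rwa [inv_inv] at h18
        have h19 := (hmemC c).1 c.2 _ h17
        calc t * (c : K) * t⁻¹ * v = t * ((c : K) * (t⁻¹ * v * t)) * t⁻¹ := by group
          _ = t * ((t⁻¹ * v * t) * (c : K)) * t⁻¹ := by rw [h19]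
          _ = v * (t * (c : K) * t⁻¹) := by group
      refine ⟨⟨t * (c : K) * t⁻¹, hconj⟩, ?_, rfl⟩
      show _ ∈ R
      rw [hmem]
      have h20 : orderOf (⟨t * (c : K) * t⁻¹, hconj⟩ : C) = orderOf c := by
        rw [← orderOf_submonoid, ← orderOf_submonoid c]
        exact orderOf_injective (MulAut.conj t).toMonoidHom (MulAut.conj t).injective (c : K)
      rw [h20]
      exact (hmem c).1 hc
    · rw [card_map_of_injective C.subtype_injective]
      exact hRcop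
  have hR1 : R = ⊥ := by
    rw [map_eq_bot_iff_of_injective _ C.subtype_injective] at hRbot
    exact hRbot
  rw [hR1] at hcompl
  have hQtop : (Q : Subgroup C) = ⊤ := isComplement'_bot_left.1 hcompl
  rw [hQV] at hQtop
  have hxC : x ∈ C := (hmemC x).2 hx
  have h21 : (⟨x, hxC⟩ : C) ∈ V.subgroupOf C := by rw [hQtop]; exact mem_top _
  exact mem_subgroupOf.1 h21

end Sys

end Cfsg.Agent.H410.Co1
end

-- part: H410/Co1/Count
section
prune_inst 0x143061043d2200000000000020002040700000000040000120600c0200000043804400010aa00700110020200808804001100019001800002000820040040120042230c69048b00021000040f807180c00000000000000000000000000000000000000000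
set_option linter.all false
open scoped Cfsg.Agent.FastGrp

/-!
The order of the normaliser of `S` and the number of Sylow subgroups in the situation `Sys`.
-/

set_option autoImplicit false
set_option linter.style.longLine false

namespace Cfsg.Agent.H410.Co1

open Subgroup

variable {K : Type*} [Group K]

namespace Sys

variable {S : Sylow 3 K} {U1 U2 : Subgroup K} {z : K}

theorem cardS' (h : Sys S U1 U2 z) : Nat.card (S : Subgroup K) = 27 := h.cardS

theorem exists_not_mem [Finite K] {U : Subgroup K} (hU : Nat.card U = 9) (h : Sys S U1 U2 z) : ∃ u ∈ U, u ∉ zpowers z := by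
  by_contra hcon
  push Not at hcon
  have h1 : U ≤ zpowers z := hcon
  have h2 := card_le_of_le h1
  rw [h.card_z, hU] at h2
  omega

theorem sup_eq [Finite K] (h : Sys S U1 U2 z) {U : Subgroup K} (hU : Nat.card U = 9) (hzU : zpowers z ≤ U) {u : K}
    (hu : u ∈ U) (huz : u ∉ zpowers z) : zpowers u ⊔ zpowers z = U := by
  apply eq_of_le_of_card_ge (sup_le (by rwa [zpowers_le]) hzU)
  have h1 : Nat.card (zpowers z) ∣ Nat.card ↥(zpowers u ⊔ zpowers z) := card_dvd_of_le le_sup_right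
  have h2 : Nat.card ↥(zpowers u ⊔ zpowers z) ∣ Nat.card U := card_dvd_of_le (sup_le (by rwa [zpowers_le]) hzU)
  rw [hU] at h2 ⊢
  rw [h.card_z] at h1
  have h3 : Nat.card ↥(zpowers u ⊔ zpowers z) ≠ 3 := by
    intro h4
    apply huz
    have h5 : zpowers z = zpowers u ⊔ zpowers z := eq_of_le_of_card_ge le_sup_right (by rw [h4, h.card_z])
    rw [h5]
    exact le_sup_left (a := zpowers u) (b := zpowers z) (mem_zpowers u)
  have h4 : Nat.card ↥(zpowers u ⊔ zpowers z) ∣ 3 ^ 2 := h2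
  obtain ⟨k, hk, hk2⟩ := (Nat.dvd_prime_pow Nat.prime_three).1 h4
  rw [hk2] at h1 h3 ⊢
  interval_cases k
  · norm_num at h1
  · norm_num at h3
  · norm_num

theorem sup_U [Finite K] (h : Sys S U1 U2 z) : U1 ⊔ U2 = S := by
  apply eq_of_le_of_card_ge (sup_le h.le1 h.le2)
  have h1 : Nat.card U1 ∣ Nat.card ↥(U1 ⊔ U2) := card_dvd_of_le le_sup_left
  have h2 : Nat.card ↥(U1 ⊔ U2) ∣ Nat.card (S : Subgroup K) := card_dvd_of_le (sup_le h.le1 h.le2)
  rw [h.cardS'] at h2 ⊢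
  rw [h.card1] at h1
  have h3 : Nat.card ↥(U1 ⊔ U2) ≠ 9 := by
    intro h4
    have h5 : U1 = U1 ⊔ U2 := eq_of_le_of_card_ge le_sup_left (by rw [h4, h.card1])
    have h6 : U2 = U1 ⊔ U2 := eq_of_le_of_card_ge le_sup_right (by rw [h4, h.card2])
    have h7 := h.inf
    rw [← h6.trans h5.symm, inf_idem] at h7
    have h8 := h.card_z
    rw [← h7, h.card2] at h8
    omega
  have h4 : Nat.card ↥(U1 ⊔ U2) ∣ 3 ^ 3 := h2
  obtain ⟨k, hk, hk2⟩ := (Nat.dvd_prime_pow Nat.prime_three).1 h4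
  rw [hk2] at h1 h3 ⊢
  interval_cases k
  · norm_num at h1
  · norm_num at h1
  · norm_num at h3
  · norm_num

theorem comm_z [Finite K] (h : Sys S U1 U2 z) {x y : K} (hx : x ∈ S) (hy : y ∈ S) : x * y * x⁻¹ * y⁻¹ ∈ zpowers z := by
  rw [← h.inf]
  exact ⟨comm_mem h.cardS' h.le1 h.card1 hx hy, comm_mem h.cardS' h.le2 h.card2 hx hy⟩

/-- an element commuting with `u1` and `u2` commutes with `S` -/
theorem comm_of_gens [Finite K] (h : Sys S U1 U2 z) {u1 u2 : K} (h1 : u1 ∈ U1) (h1z : u1 ∉ zpowers z) (h2 : u2 ∈ U2)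
    (h2z : u2 ∉ zpowers z) {x : K} (hx1 : x * u1 = u1 * x) (hx2 : x * u2 = u2 * x) : x ∈ zpowers z := by
  -- the commutator of `u1`, `u2`
  set c : K := u1 * u2 * u1⁻¹ * u2⁻¹ with hc
  have hcz : c ∈ zpowers z := h.comm_z (h.le1 h1) (h.le2 h2)
  have hgen : ∀ w : K, w * u1 = u1 * w → w * u2 = u2 * w → w * z = z * w → ∀ s ∈ S, w * s = s * w := by
    intro w hw1 hw2 hwz s hs
    have e1 : zpowers u1 ⊔ zpowers z ≤ centralizer {w} := by
      rw [sup_le_iff, zpowers_le, zpowers_le, mem_centralizer_singleton_iff, mem_centralizer_singleton_iff]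
      exact ⟨hw1.symm, hwz.symm⟩
    have e2 : zpowers u2 ⊔ zpowers z ≤ centralizer {w} := by
      rw [sup_le_iff, zpowers_le, zpowers_le, mem_centralizer_singleton_iff, mem_centralizer_singleton_iff]
      exact ⟨hw2.symm, hwz.symm⟩
    rw [h.sup_eq h.card1 h.z_mem1 h1 h1z] at e1
    rw [h.sup_eq h.card2 h.z_mem2 h2 h2z] at e2
    have e3 : (S : Subgroup K) ≤ centralizer {w} := by
      rw [← h.sup_U]; exact sup_le e1 e2
    exact (mem_centralizer_singleton_iff.1 (e3 hs)).symm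
  have hc1 : c ≠ 1 := by
    intro hc1
    apply h1z
    have h12 : u1 * u2 = u2 * u1 := by
      rw [hc, mul_inv_eq_one, mul_inv_eq_iff_eq_mul] at hc1
      exact hc1
    exact h.center u1 (h.le1 h1) (hgen u1 rfl h12 (h.z_comm u1 (h.le1 h1)))
  have hxc : x * c = c * x := by
    have e1 : Commute x u1 := hx1
    have e2 : Commute x u2 := hx2
    exact (((e1.mul_right e2).mul_right e1.inv_right).mul_right e2.inv_right).eq
  have hzc : z ∈ zpowers c := by
    have e1 : zpowers c ≤ zpowers z := by rwa [zpowers_le]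
    have e2 : zpowers c = zpowers z := by
      apply eq_of_le_of_card_ge e1
      have e3 := card_dvd_of_le e1
      rw [h.card_z] at e3 ⊢
      rcases (Nat.dvd_prime Nat.prime_three).1 e3 with e4 | e4
      · exfalso
        rw [Nat.card_zpowers, orderOf_eq_one_iff] at e4
        exact hc1 e4
      · exact e4.ge
    rw [e2]; exact mem_zpowers z
  have hxz : x * z = z * x := by
    obtain ⟨k, hk⟩ := mem_zpowers_iff.1 hzc
    rw [← hk]
    exact Commute.zpow_right hxc k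
  exact h.centralizer_S (hgen x hx1 hx2 hxz)

/-- the normaliser -/
theorem norm_z [Finite K] (h : Sys S U1 U2 z) {n : K} (hn : ∀ s ∈ S, n * s * n⁻¹ ∈ S) {x : K} (hx : x ∈ zpowers z) :
    n * x * n⁻¹ ∈ zpowers z := by
  have hS : ∀ s ∈ S, n⁻¹ * s * n ∈ S := by
    have e1 : (S : Subgroup K).map (MulAut.conj n).toMonoidHom = S := by
      apply eq_of_le_of_card_ge
      · rintro _ ⟨s, hs, rfl⟩
        exact hn s hs
      · rw [card_map_of_injective (MulAut.conj n).injective]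
    intro s hs
    have e2 : s ∈ (S : Subgroup K).map (MulAut.conj n).toMonoidHom := by rw [e1]; exact hs
    obtain ⟨t, ht, rfl⟩ := e2
    have e3 : n⁻¹ * (n * t * n⁻¹) * n = t := by group
    show n⁻¹ * (n * t * n⁻¹) * n ∈ S
    rw [e3]; exact ht
  have hxS : x ∈ S := h.le1 (h.z_mem1 hx)
  apply h.center _ (hn x hxS)
  intro y hy
  have e4 := hS y hy
  have e5 : x * (n⁻¹ * y * n) = (n⁻¹ * y * n) * x := by
    obtain ⟨k, rfl⟩ := mem_zpowers_iff.1 hx
    exact (Commute.zpow_right (h.z_comm _ e4) k).symm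
  calc n * x * n⁻¹ * y = n * (x * (n⁻¹ * y * n)) * n⁻¹ := by group
    _ = n * ((n⁻¹ * y * n) * x) * n⁻¹ := by rw [e5]
    _ = y * (n * x * n⁻¹) := by group

theorem norm_inv [Finite K] (h : Sys S U1 U2 z) {n : K} (hn : ∀ s ∈ S, n * s * n⁻¹ ∈ S) :
    ∀ s ∈ S, n⁻¹ * s * n⁻¹⁻¹ ∈ S := by
  have e1 : (S : Subgroup K).map (MulAut.conj n).toMonoidHom = S := by
    apply eq_of_le_of_card_ge
    · rintro _ ⟨s, hs, rfl⟩
      exact hn s hs
    · rw [card_map_of_injective (MulAut.conj n).injective]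
  intro s hs
  have e2 : s ∈ (S : Subgroup K).map (MulAut.conj n).toMonoidHom := by rw [e1]; exact hs
  obtain ⟨t, ht, rfl⟩ := e2
  have e3 : n⁻¹ * (n * t * n⁻¹) * n⁻¹⁻¹ = t := by group
  show n⁻¹ * (n * t * n⁻¹) * n⁻¹⁻¹ ∈ S
  rw [e3]; exact ht

theorem norm_1 [Finite K] (h : Sys S U1 U2 z) {n : K} (hn : ∀ s ∈ S, n * s * n⁻¹ ∈ S) {x : K} (hx : x ∈ U1) :
    n * x * n⁻¹ ∈ U1 := by
  rcases h.type n x hx (hn x (h.le1 hx)) with h1 | h1
  · exact h1
  · have h2 := h.scl _ h1 n⁻¹ (h.norm_inv hn _ (h.le2 h1))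
    have h3 : n⁻¹ * (n * x * n⁻¹) * n⁻¹⁻¹ = x := by group
    rw [h3] at h2
    have h4 : x ∈ zpowers z := by rw [← h.inf]; exact ⟨hx, h2⟩
    exact h.z_mem1 (h.norm_z hn h4)

theorem norm_not_z [Finite K] (h : Sys S U1 U2 z) {n : K} (hn : ∀ s ∈ S, n * s * n⁻¹ ∈ S) {x : K} (hx : x ∉ zpowers z) :
    n * x * n⁻¹ ∉ zpowers z := by
  intro h1
  apply hx
  have h2 := h.norm_z (h.norm_inv hn) h1
  have h3 : n⁻¹ * (n * x * n⁻¹) * n⁻¹⁻¹ = x := by group
  rwa [h3] at h2

open Classical in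
/-- `|N(S)| ≤ 108` -/
theorem card_norm_le [Finite K] (h : Sys S U1 U2 z) {N : Subgroup K} (hN : ∀ n ∈ N, ∀ s ∈ S, n * s * n⁻¹ ∈ S) :
    Nat.card N ≤ 108 := by
  obtain ⟨u1, h1, h1z⟩ := exists_not_mem h.card1 h
  obtain ⟨u2, h2, h2z⟩ := exists_not_mem h.card2 h
  have := Fintype.ofFinite K
  let s : Finset K := (N : Set K).toFinset
  let A : Finset K := (U1 : Set K).toFinset \ (zpowers z : Set K).toFinset
  let B : Finset K := (U2 : Set K).toFinset \ (zpowers z : Set K).toFinset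
  have hA : A.card = 6 := by
    rw [Finset.card_sdiff_of_subset]
    · rw [Set.toFinset_card, Set.toFinset_card, ← Nat.card_eq_fintype_card, ← Nat.card_eq_fintype_card]
      have e1 : Nat.card ↑(U1 : Set K) = 9 := h.card1
      have e2 : Nat.card ↑(zpowers z : Set K) = 3 := h.card_z
      rw [e1, e2]
    · rw [Set.toFinset_subset_toFinset]; exact h.z_mem1
  have hB : B.card = 6 := by
    rw [Finset.card_sdiff_of_subset]
    · rw [Set.toFinset_card, Set.toFinset_card, ← Nat.card_eq_fintype_card, ← Nat.card_eq_fintype_card]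
      have e1 : Nat.card ↑(U2 : Set K) = 9 := h.card2
      have e2 : Nat.card ↑(zpowers z : Set K) = 3 := h.card_z
      rw [e1, e2]
    · rw [Set.toFinset_subset_toFinset]; exact h.z_mem2
  have hs : s.card = Nat.card N := by
    rw [Set.toFinset_card, ← Nat.card_eq_fintype_card]; rfl
  rw [← hs]
  have hmain := Finset.card_le_mul_card_image_of_maps_to (f := fun n : K => (n * u1 * n⁻¹, n * u2 * n⁻¹)) (s := s) (t := A ×ˢ B)
    (by
      intro n hn
      have hn' : ∀ s ∈ S, n * s * n⁻¹ ∈ S := hN n (by simpa [s] using hn)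
      simp only [Finset.mem_product, A, B, Finset.mem_sdiff, Set.mem_toFinset, SetLike.mem_coe]
      exact ⟨⟨h.norm_1 hn' h1, h.norm_not_z hn' h1z⟩, ⟨h.scl u2 h2 n (hn' u2 (h.le2 h2)), h.norm_not_z hn' h2z⟩⟩) 3
    (by
      intro b hb
      rcases Finset.eq_empty_or_nonempty (s.filter fun n => (n * u1 * n⁻¹, n * u2 * n⁻¹) = b) with he | ⟨n0, hn0⟩
      · rw [he]; simp
      · rw [Finset.mem_filter] at hn0
        have hsub : (s.filter fun n => (n * u1 * n⁻¹, n * u2 * n⁻¹) = b) ⊆ ((zpowers z : Set K).toFinset).image (fun x => n0 * x) := by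
          intro n hn
          rw [Finset.mem_filter] at hn
          rw [Finset.mem_image]
          refine ⟨n0⁻¹ * n, ?_, by group⟩
          rw [Set.mem_toFinset]
          have e1 := hn.2.trans hn0.2.symm
          rw [Prod.mk.injEq] at e1
          have hcomm : ∀ u : K, n * u * n⁻¹ = n0 * u * n0⁻¹ → n0⁻¹ * n * u = u * (n0⁻¹ * n) := by
            intro u hu
            calc n0⁻¹ * n * u = n0⁻¹ * (n * u * n⁻¹) * n := by group
              _ = n0⁻¹ * (n0 * u * n0⁻¹) * n := by rw [hu]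
              _ = u * (n0⁻¹ * n) := by group
          exact h.comm_of_gens h1 h1z h2 h2z (hcomm u1 e1.1) (hcomm u2 e1.2)
        refine (Finset.card_le_card hsub).trans (Finset.card_image_le.trans ?_)
        rw [Set.toFinset_card, ← Nat.card_eq_fintype_card]
        exact h.card_z.le)
  rw [Finset.card_product, hA, hB] at hmain
  exact hmain

end Sys

end Cfsg.Agent.H410.Co1
end

-- part: H410/Co1/Fin
section
prune_inst 0x143065043d0000000000000000002000600000000000000020600c0201000043800008010aa0070011203820000a806000100019401000002000820040040120042230c69048b00021000040f807180c00000000000000000000000000000000000000000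
set_option linter.all false
open scoped Cfsg.Agent.FastGrp

/-!
The contradiction in the situation `Sys` for a simple group whose order is one of 5616, 6048, 95040.
-/

set_option autoImplicit false
set_option linter.style.longLine false

namespace Cfsg.Agent.H410.Co1

open Subgroup

variable {K : Type*} [Group K]

/-- orbit lengths: all but one orbit have length divisible by 9 -/
theorem card_mod_nine {G X : Type*} [Group G] [Finite G] [MulAction G X] [Finite X] (x0 : X) (h0 : ∀ g : G, g • x0 = x0)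
    (h : ∀ x : X, x ≠ x0 → 9 ∣ Nat.card (MulAction.orbit G x)) : Nat.card X % 9 = 1 := by
  classical
  have := Fintype.ofFinite X
  have := Fintype.ofFinite G
  have := Fintype.ofFinite (MulAction.orbitRel.Quotient G X)
  have e := Nat.card_congr (MulAction.selfEquivSigmaOrbits G X)
  rw [Nat.card_sigma] at e
  let ω0 : MulAction.orbitRel.Quotient G X := Quotient.mk _ x0
  have hx : ∀ x : X, (Quotient.mk _ x : MulAction.orbitRel.Quotient G X) = ω0 → x = x0 := by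
    intro x hx
    have h1 : (MulAction.orbitRel G X) x x0 := Quotient.exact hx
    rw [MulAction.orbitRel_apply] at h1
    obtain ⟨g, hg⟩ := h1
    rw [← hg]; exact h0 g
  have h0' : ω0.out = x0 := hx _ (Quotient.out_eq _)
  have h1 : Nat.card (MulAction.orbit G ω0.out) = 1 := by
    rw [h0', Nat.card_eq_one_iff_unique]
    refine ⟨⟨?_⟩, ⟨⟨x0, MulAction.mem_orbit_self x0⟩⟩⟩
    rintro ⟨a, g, rfl⟩ ⟨b, g', rfl⟩
    apply Subtype.ext
    show g • x0 = g' • x0
    rw [h0, h0]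
  rw [← Finset.add_sum_erase _ _ (Finset.mem_univ ω0), h1] at e
  have h9 : 9 ∣ ∑ x ∈ Finset.univ.erase ω0, Nat.card ↑(MulAction.orbit G (Quotient.out x)) := by
    apply Finset.dvd_sum
    intro ω hω
    apply h
    intro hc
    apply (Finset.mem_erase.1 hω).1
    rw [← Quotient.out_eq ω, hc]
  omega

namespace Sys

variable {S : Sylow 3 K} {U1 U2 : Subgroup K} {z : K}

/-- `|N(S)| = 27 m` with `m ∈ {1, 2, 4}` -/
theorem card_norm [Finite K] (h : Sys S U1 U2 z) :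
    Nat.card (normalizer ((S : Subgroup K) : Set K)) = 27 ∨ Nat.card (normalizer ((S : Subgroup K) : Set K)) = 54 ∨
      Nat.card (normalizer ((S : Subgroup K) : Set K)) = 108 := by
  set N := normalizer ((S : Subgroup K) : Set K) with hN
  have h1 : Nat.card N ≤ 108 := h.card_norm_le (fun n hn s hs => ((mem_normalizer_iff.1 hn) s).1 hs)
  have hSN : (S : Subgroup K) ≤ N := le_normalizer
  have h2 : (S : Subgroup K).relIndex N * N.index = (S : Subgroup K).index := relIndex_mul_index hSN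
  have h3 : Nat.card (S : Subgroup K) * (S : Subgroup K).relIndex N = Nat.card N := by
    have h31 := ((S : Subgroup K).subgroupOf N).card_mul_index
    rw [Nat.card_congr (subgroupOfEquivOfLe hSN).toEquiv] at h31
    exact h31
  rw [h.cardS'] at h3
  have h4 : ¬ 3 ∣ (S : Subgroup K).relIndex N := by
    intro h5
    have h6 : ¬ 3 ∣ (S : Subgroup K).index := S.not_dvd_index
    apply h6
    rw [← h2]
    exact h5.mul_right _
  have h5 : Nat.card N ≠ 0 := Nat.card_pos.ne'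
  generalize (S : Subgroup K).relIndex N = m at *
  have h6 : m ≤ 4 := by omega
  interval_cases m
  · omega
  · left; omega
  · right; left; omega
  · exact absurd (dvd_refl 3) h4
  · right; right; omega

/-- `N(S) ≠ S` if `K` is perfect and `N(S)` controls fusion -/
theorem card_norm_ne [Finite K] (h : Sys S U1 U2 z) (hK : commutator K = ⊤)
    (hN : ∀ V : Subgroup K, V ≤ S → ∀ g : K, (∀ x ∈ V, g * x * g⁻¹ ∈ S) →
      ∃ n : K, (∀ s ∈ S, n * s * n⁻¹ ∈ S) ∧ ∀ x ∈ V, n * x * n⁻¹ = g * x * g⁻¹) :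
    Nat.card (normalizer ((S : Subgroup K) : Set K)) ≠ 27 := by
  intro h27
  have heq : (S : Subgroup K) = normalizer ((S : Subgroup K) : Set K) := by
    apply eq_of_le_of_card_ge le_normalizer
    rw [h27, h.cardS']
  have hfoc := commutator_inf_eq_focalSubgroup S
  rw [hK, top_inf_eq, focalSubgroup_def] at hfoc
  have hle : (S : Subgroup K) ≤ zpowers z := by
    rw [hfoc, closure_le]
    rintro g ⟨hg, x, hx, u, rfl⟩
    rw [commutatorElement_def] at hg ⊢
    have h1 : u * x⁻¹ * u⁻¹ ∈ S := by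
      have h2 := (S : Subgroup K).mul_mem ((S : Subgroup K).inv_mem hx) hg
      have h3 : x⁻¹ * (x * u * x⁻¹ * u⁻¹) = u * x⁻¹ * u⁻¹ := by group
      rwa [h3] at h2
    obtain ⟨n, hn, hn2⟩ := hN (zpowers x⁻¹) (by rw [zpowers_le]; exact (S : Subgroup K).inv_mem hx) u (by
      intro y hy
      obtain ⟨k, rfl⟩ := mem_zpowers_iff.1 hy
      have h4 : u * x⁻¹ ^ k * u⁻¹ = (u * x⁻¹ * u⁻¹) ^ k := by rw [conj_zpow]
      rw [h4]
      exact (S : Subgroup K).zpow_mem h1 k)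
    have hnS : n ∈ (S : Subgroup K) := by
      rw [heq, mem_normalizer_iff]
      intro s
      refine ⟨fun hs => hn s hs, fun hs => ?_⟩
      have h5 := h.norm_inv hn _ hs
      have h6 : n⁻¹ * (n * s * n⁻¹) * n⁻¹⁻¹ = s := by group
      rwa [h6] at h5
    have h7 : x * u * x⁻¹ * u⁻¹ = x * n * x⁻¹ * n⁻¹ := by
      have h8 := hn2 x⁻¹ (mem_zpowers _)
      calc x * u * x⁻¹ * u⁻¹ = x * (u * x⁻¹ * u⁻¹) := by group
        _ = x * (n * x⁻¹ * n⁻¹) := by rw [h8]
        _ = _ := by group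
    rw [h7]
    exact h.comm_z hx hnS
  have h9 := card_le_of_le hle
  rw [h.card_z, h.cardS'] at h9
  omega

/-- the number of Sylow subgroups is 1 mod 9 -/
theorem card_sylow_mod [Finite K] (h : Sys S U1 U2 z)
    (hN : ∀ V : Subgroup K, V ≤ S → ∀ g : K, (∀ x ∈ V, g * x * g⁻¹ ∈ S) →
      ∃ n : K, (∀ s ∈ S, n * s * n⁻¹ ∈ S) ∧ ∀ x ∈ V, n * x * n⁻¹ = g * x * g⁻¹) :
    Nat.card (Sylow 3 K) % 9 = 1 := by
  classical
  have hfix : ∀ (T : Sylow 3 K) (s : (S : Subgroup K)), s • T = T ↔ (s : K) ∈ T := by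
    intro T s
    have h1 : s • T = (s : K) • T := rfl
    rw [h1, Sylow.smul_eq_iff_mem_normalizer]
    have h2 := (S.isPGroup').inf_normalizer_sylow T
    constructor
    · intro h3
      have h4 : (s : K) ∈ (S : Subgroup K) ⊓ normalizer (T : Set K) := ⟨s.2, h3⟩
      rw [h2] at h4
      exact h4.2
    · intro h3
      exact (le_normalizer (H := (T : Subgroup K))) h3
  apply card_mod_nine (G := (S : Subgroup K)) S
  · intro g
    rw [hfix]; exact g.2
  · intro T hT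
    have hstab : Nat.card (MulAction.stabilizer (S : Subgroup K) T) = Nat.card ↥((S : Subgroup K) ⊓ (T : Subgroup K)) := by
      have h1 : (MulAction.stabilizer (S : Subgroup K) T) = (T : Subgroup K).subgroupOf (S : Subgroup K) := by
        ext s
        rw [MulAction.mem_stabilizer_iff, hfix, mem_subgroupOf]
        rfl
      rw [h1, ← inf_subgroupOf_left]
      exact Nat.card_congr (subgroupOfEquivOfLe inf_le_left).toEquiv
    have := Fintype.ofFinite (S : Subgroup K)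
    have := Fintype.ofFinite (MulAction.orbit (S : Subgroup K) T)
    have := Fintype.ofFinite (MulAction.stabilizer (S : Subgroup K) T)
    have horb := MulAction.card_orbit_mul_card_stabilizer_eq_card_group (S : Subgroup K) T
    rw [← Nat.card_eq_fintype_card, ← Nat.card_eq_fintype_card, ← Nat.card_eq_fintype_card, hstab, h.cardS'] at horb
    have hdvd : Nat.card ↥((S : Subgroup K) ⊓ (T : Subgroup K)) ∣ 3 ^ 3 := by
      have h2 := card_dvd_of_le (inf_le_left : (S : Subgroup K) ⊓ (T : Subgroup K) ≤ S)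
      rw [h.cardS'] at h2; exact h2
    have hcT : Nat.card (T : Subgroup K) = 27 := by
      rw [← h.cardS']; exact Nat.card_congr (Sylow.equiv T S).toEquiv
    obtain ⟨k, hk, hk2⟩ := (Nat.dvd_prime_pow Nat.prime_three).1 hdvd
    rw [hk2] at horb
    interval_cases k
    · omega
    · omega
    · -- order 9
      exfalso
      set V : Subgroup K := (S : Subgroup K) ⊓ (T : Subgroup K) with hV
      have hVS : V ≤ S := inf_le_left
      have hV9 : Nat.card V = 9 := by rw [hk2]; norm_num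
      have hTS : (T : Subgroup K) ≤ S := by
        intro t ht
        have h3 : ∀ x ∈ V, t * x * t⁻¹ ∈ V := fun x hx => conj_mem_of_card hcT inf_le_right hV9 ht hx
        obtain ⟨n, hn, hn2⟩ := hN V inf_le_left t (fun x hx => hVS (h3 x hx))
        have h4 : n⁻¹ * t ∈ V := by
          apply h.centralizer_V inf_le_left hV9
          intro v hv
          have h5 := hn2 v hv
          calc n⁻¹ * t * v = n⁻¹ * (t * v * t⁻¹) * t := by group
            _ = n⁻¹ * (n * v * n⁻¹) * t := by rw [h5]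
            _ = v * (n⁻¹ * t) := by group
        have h6 : ∀ s ∈ S, t * s * t⁻¹ ∈ S := by
          intro s hs
          have h7 : t = n * (n⁻¹ * t) := by group
          have h8 : (n⁻¹ * t) * s * (n⁻¹ * t)⁻¹ ∈ S :=
            (S : Subgroup K).mul_mem ((S : Subgroup K).mul_mem (hVS h4) hs) ((S : Subgroup K).inv_mem (hVS h4))
          have h9 := hn _ h8
          have h10 : n * ((n⁻¹ * t) * s * (n⁻¹ * t)⁻¹) * n⁻¹ = t * s * t⁻¹ := by group
          rwa [h10] at h9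
        obtain ⟨m, hm⟩ := (IsPGroup.iff_orderOf.1 T.isPGroup') ⟨t, ht⟩
        refine mem_of_pow (S := S) (n := m) ?_ ?_
        · show t ∈ normalizer ((S : Subgroup K) : Set K)
          rw [mem_normalizer_iff]
          intro s
          refine ⟨fun hs => h6 s hs, fun hs => ?_⟩
          have h11 := h.norm_inv h6 _ hs
          have h12 : t⁻¹ * (t * s * t⁻¹) * t⁻¹⁻¹ = s := by group
          rwa [h12] at h11
        · rw [← hm]
          exact orderOf_submonoid (⟨t, ht⟩ : (T : Subgroup K))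
      apply hT
      apply Sylow.ext
      exact eq_of_le_of_card_ge hTS (by rw [hcT, h.cardS'])
    · -- order 27
      exfalso
      apply hT
      have h3 : (S : Subgroup K) ⊓ (T : Subgroup K) = S := by
        apply eq_of_le_of_card_ge inf_le_left
        rw [h.cardS', hk2]; norm_num
      apply Sylow.ext
      symm
      apply eq_of_le_of_card_ge
      · rw [← h3]; exact inf_le_right
      · rw [hcT, h.cardS']

theorem contra [Finite K] (h : Sys S U1 U2 z) (hK : commutator K = ⊤)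
    (hN : ∀ V : Subgroup K, V ≤ S → ∀ g : K, (∀ x ∈ V, g * x * g⁻¹ ∈ S) →
      ∃ n : K, (∀ s ∈ S, n * s * n⁻¹ ∈ S) ∧ ∀ x ∈ V, n * x * n⁻¹ = g * x * g⁻¹)
    (hcard : Nat.card K = 5616 ∨ Nat.card K = 6048 ∨ Nat.card K = 95040) : False := by
  have h1 := h.card_norm
  have h2 := h.card_norm_ne hK hN
  have h3 := h.card_sylow_mod hN
  have h4 : Nat.card (Sylow 3 K) = (normalizer ((S : Subgroup K) : Set K)).index := Sylow.card_eq_index_normalizer S
  have h5 := (normalizer ((S : Subgroup K) : Set K)).card_mul_index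
  rw [h4] at h3
  generalize (normalizer ((S : Subgroup K) : Set K)).index = n at *
  generalize Nat.card (normalizer ((S : Subgroup K) : Set K)) = m at *
  rcases h1 with h1 | h1 | h1
  · exact h2 h1
  · subst h1
    rcases hcard with h6 | h6 | h6 <;> rw [h6] at h5 <;> omega
  · subst h1
    rcases hcard with h6 | h6 | h6 <;> rw [h6] at h5 <;> omega

end Sys

end Cfsg.Agent.H410.Co1
end

-- part: H410/Co1/MoveA
section
prune_inst 0x142021042d2200000000000000002000700000000040000120600c0200000043800408010aa0070011202820000a804001100019001000002000820040000120042230c69048b00021000040f807180c00000000000000000000000000000000000000000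
set_option linter.all false
open scoped Cfsg.Agent.FastGrp

/-!
`Loc.move1` (S5227, section A) from the list of orders of simple groups and the theorem on strongly closed subgroups.
-/

set_option autoImplicit false
set_option linter.style.longLine false

namespace Cfsg.Agent.H410.Co1

open Subgroup Cfsg.Agent.H776.Co

universe u

variable {Γ : Type u} [Group Γ] {T U1 U2 : Subgroup Γ} {z : Γ}

theorem z3 (h : Loc T U1 U2 z ⊥) : z ^ 3 = 1 := by
  apply h.exp
  apply h.le1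
  have h1 : z ∈ U1 ⊓ U2 := by rw [h.inf]; exact mem_zpowers z
  exact h1.1

theorem card_zz (h : Loc T U1 U2 z ⊥) : Nat.card (zpowers z) = 3 := by
  rw [Nat.card_zpowers]
  exact orderOf_eq_prime (z3 h) h.z_ne

/-- if `U2` is not strongly closed then some element normalising `U1` moves `⟨z⟩` -/
theorem scl_of [Finite Γ] (h : Loc T U1 U2 z ⊥) (H : ∀ g : Γ, (∀ u ∈ U1, g * u * g⁻¹ ∈ U1) → g * z * g⁻¹ ∈ zpowers z) :
    ∀ x ∈ U2, ∀ g : Γ, g * x * g⁻¹ ∈ T → g * x * g⁻¹ ∈ U2 := by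
  intro x hx g hg
  by_contra hy2
  have hTp : IsPGroup 3 T := IsPGroup.of_card (n := 3) (by rw [h.card_T]; norm_num)
  let TS : Sylow 3 Γ := hTp.toSylow h.syl
  have hTS : (TS : Subgroup Γ) = T := rfl
  have hcS : ∀ Q : Sylow 3 Γ, Nat.card (Q : Subgroup Γ) = 27 := by
    intro Q
    rw [← h.card_T, ← hTS]
    exact Nat.card_congr (Sylow.equiv Q TS).toEquiv
  have hx1 : x ≠ 1 := by
    rintro rfl
    apply hy2
    rw [mul_one, mul_inv_cancel]; exact U2.one_mem
  have hy1 : g * x * g⁻¹ ∈ U1 := by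
    rcases h.type g x (Or.inr hx) hg with h1 | h1
    · exact h1
    · exact absurd h1 hy2
  set y : Γ := g * x * g⁻¹ with hy
  have hyne : y ≠ 1 := by
    intro h1
    rw [hy, conj_eq_one_iff] at h1
    exact hx1 h1
  have hz1 : zpowers z ≤ U1 := by rw [← h.inf]; exact inf_le_left
  have hz2 : zpowers z ≤ U2 := by rw [← h.inf]; exact inf_le_right
  have hyz : y ∉ zpowers z := fun h1 => hy2 (hz2 h1)
  have hU1p : IsPGroup 3 U1 := hTp.to_le h.le1
  have hU2p : IsPGroup 3 U2 := hTp.to_le h.le2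
  have hsup : zpowers y ⊔ zpowers z = U1 := by
    apply eq_of_le_of_card_ge (sup_le (by rwa [zpowers_le]) hz1)
    have h1 : Nat.card (zpowers z) ∣ Nat.card ↥(zpowers y ⊔ zpowers z) := card_dvd_of_le le_sup_right
    have h2 : Nat.card ↥(zpowers y ⊔ zpowers z) ∣ Nat.card U1 := card_dvd_of_le (sup_le (by rwa [zpowers_le]) hz1)
    rw [h.card1] at h2 ⊢
    rw [card_zz h] at h1
    have h3 : Nat.card ↥(zpowers y ⊔ zpowers z) ≠ 3 := by
      intro h4
      apply hyz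
      have h5 : zpowers z = zpowers y ⊔ zpowers z := eq_of_le_of_card_ge le_sup_right (by rw [h4, card_zz h])
      rw [h5]
      exact le_sup_left (a := zpowers y) (b := zpowers z) (mem_zpowers y)
    have h4 : Nat.card ↥(zpowers y ⊔ zpowers z) ∣ 3 ^ 2 := h2
    obtain ⟨k, hk, hk2⟩ := (Nat.dvd_prime_pow Nat.prime_three).1 h4
    rw [hk2] at h1 h3 ⊢
    interval_cases k
    · norm_num at h1
    · norm_num at h3
    · norm_num
  -- no Sylow subgroup centralises `y`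
  have ha : ∀ T' : Sylow 3 Γ, ¬ (T' : Subgroup Γ) ≤ centralizer {y} := by
    intro T' hT'
    have hU1c : U1 ≤ centralizer {y} := by
      intro u hu
      rw [mem_centralizer_singleton_iff]
      exact comm_of_card h.card1 hu hy1
    have h3 := h.tri y (Or.inl hy1) hyne (T' : Subgroup Γ) U1 T'.isPGroup' hU1p hT' hU1c
    have h4 : (T' : Subgroup Γ) ⊔ U1 = T' := T'.is_maximal' h3 le_sup_left
    have h5 : U1 ≤ T' := by rw [← h4]; exact le_sup_right
    have hcz : ∀ t ∈ T', t * z = z * t := by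
      intro t ht
      have h6 : ∀ u ∈ U1, t * u * t⁻¹ ∈ U1 := fun u hu => conj_mem_of_card (hcS T') h5 h.card1 ht hu
      have h7 := H t h6
      obtain ⟨k, hk⟩ := mem_zpowers_iff.1 h7
      have h8 : t * z * t⁻¹ = z ∨ t * z * t⁻¹ = z⁻¹ := by
        have h9 : t * z * t⁻¹ ≠ 1 := by rw [Ne, conj_eq_one_iff]; exact h.z_ne
        have h10 : k % 3 = 0 ∨ k % 3 = 1 ∨ k % 3 = 2 := by omega
        have hz3 : z ^ (3 : ℤ) = 1 := by exact_mod_cast z3 h
        have h11 : k = 3 * (k / 3) + k % 3 := by omega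
        rw [h11, zpow_add, zpow_mul, hz3, one_zpow, one_mul] at hk
        rcases h10 with h10 | h10 | h10 <;> rw [h10] at hk
        · exact absurd (hk.symm.trans (zpow_zero z)) h9
        · left; rw [← hk, zpow_one]
        · right
          rw [← hk, eq_inv_iff_mul_eq_one, ← zpow_add_one]
          exact hz3
      rcases h8 with h8 | h8
      · rwa [mul_inv_eq_iff_eq_mul] at h8
      · exfalso
        have h12 : t ^ 27 = 1 := by
          have h13 := pow_card_eq_one' (x := (⟨t, ht⟩ : (T' : Subgroup Γ)))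
          rw [hcS T'] at h13
          exact congrArg Subtype.val h13
        have h14 : Commute (t ^ 2) z := by
          have h15 : t * z = z⁻¹ * t := by rwa [mul_inv_eq_iff_eq_mul] at h8
          have h16 : t * z⁻¹ = z * t := by
            have h17 : t * z⁻¹ * t⁻¹ = (t * z * t⁻¹)⁻¹ := by group
            rw [h8, inv_inv, mul_inv_eq_iff_eq_mul] at h17
            exact h17
          show t ^ 2 * z = z * t ^ 2
          rw [pow_two, mul_assoc, h15, ← mul_assoc, h16, mul_assoc]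
        have h18 : Commute ((t ^ 2) ^ 14) z := h14.pow_left 14
        have h19 : (t ^ 2) ^ 14 = t := by
          rw [← pow_mul, show 2 * 14 = 27 + 1 from rfl, pow_succ, h12, one_mul]
        rw [h19] at h18
        have h20 : z = z⁻¹ := by
          rw [← h8, h18.eq, mul_inv_cancel_right]
        have h21 : z * z = 1 := by
          nth_rewrite 2 [h20]
          exact mul_inv_cancel z
        apply h.z_ne
        have h22 := z3 h
        rw [pow_succ, pow_two, h21, one_mul] at h22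
        exact h22
    have hT'U : ∀ t ∈ T', ∀ u ∈ U1, u * t = t * u := by
      intro t ht u hu
      have h6 : U1 ≤ centralizer {t} := by
        rw [← hsup, sup_le_iff, zpowers_le, zpowers_le, mem_centralizer_singleton_iff, mem_centralizer_singleton_iff]
        exact ⟨(mem_centralizer_singleton_iff.1 (hT' ht)).symm, (hcz t ht).symm⟩
      exact mem_centralizer_singleton_iff.1 (h6 hu)
    obtain ⟨w, hw⟩ := MulAction.exists_smul_eq Γ T' TS
    have hmem : ∀ t ∈ T', w * t * w⁻¹ ∈ T := by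
      intro t ht
      rw [← hTS, ← hw]
      exact Subgroup.smul_mem_pointwise_smul t (MulAut.conj w) (T' : Subgroup Γ) ht
    have hmem' : ∀ t ∈ T, ∃ t' ∈ T', w * t' * w⁻¹ = t := by
      intro t ht
      rw [← hTS, ← hw] at ht
      obtain ⟨t', ht', rfl⟩ := ht
      exact ⟨t', ht', rfl⟩
    have h23 : U1.map (MulAut.conj w).toMonoidHom ≤ zpowers z := by
      rintro _ ⟨u, hu, rfl⟩
      show w * u * w⁻¹ ∈ zpowers z
      apply h.center _ (hmem u (h5 hu))
      intro t ht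
      obtain ⟨t', ht', rfl⟩ := hmem' t ht
      have h24 := hT'U t' ht' u hu
      calc w * u * w⁻¹ * (w * t' * w⁻¹) = w * (u * t') * w⁻¹ := by group
        _ = w * (t' * u) * w⁻¹ := by rw [h24]
        _ = _ := by group
    have h25 := card_le_of_le h23
    rw [card_map_of_injective (MulAut.conj w).injective, card_zz h, h.card1] at h25
    omega
  -- the conjugate of `U1` in the centraliser of `x`
  set P : Subgroup Γ := U1.map (MulAut.conj g⁻¹).toMonoidHom with hP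
  have hPc : P ≤ centralizer {x} := by
    rintro _ ⟨u, hu, rfl⟩
    rw [mem_centralizer_singleton_iff]
    show g⁻¹ * u * g⁻¹⁻¹ * x = x * (g⁻¹ * u * g⁻¹⁻¹)
    have h1 := comm_of_card h.card1 hu hy1
    calc g⁻¹ * u * g⁻¹⁻¹ * x = g⁻¹ * (u * (g * x * g⁻¹)) * g := by group
      _ = g⁻¹ * ((g * x * g⁻¹) * u) * g := by rw [← hy, h1]
      _ = _ := by group
  have hU2c : U2 ≤ centralizer {x} := by
    intro u hu
    rw [mem_centralizer_singleton_iff]
    exact comm_of_card h.card2 hu hx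
  have hPp : IsPGroup 3 P := hU1p.map _
  have hW := h.tri x (Or.inr hx) hx1 P U2 hPp hU2p hPc hU2c
  obtain ⟨Q, hQ⟩ := hW.exists_le_sylow
  have hd : Nat.card ↥(P ⊔ U2) ∣ 3 ^ 3 := by
    have h1 := card_dvd_of_le hQ
    rw [hcS Q] at h1; exact h1
  have hd2 : 9 ∣ Nat.card ↥(P ⊔ U2) := by
    have h1 := card_dvd_of_le (le_sup_right : U2 ≤ P ⊔ U2)
    rwa [h.card2] at h1
  obtain ⟨k, hk, hk2⟩ := (Nat.dvd_prime_pow Nat.prime_three).1 hd
  have h27 : Nat.card ↥(P ⊔ U2) ≠ 27 := by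
    intro h27
    have h1 : P ⊔ U2 = Q := eq_of_le_of_card_ge hQ (by rw [h27, hcS Q])
    have h2 : (Q : Subgroup Γ) ≤ centralizer {x} := by rw [← h1]; exact sup_le hPc hU2c
    apply ha (g • Q)
    intro a ha'
    obtain ⟨q, hq, rfl⟩ := ha'
    have h3 := mem_centralizer_singleton_iff.1 (h2 hq)
    rw [mem_centralizer_singleton_iff]
    show g * q * g⁻¹ * y = y * (g * q * g⁻¹)
    rw [hy]
    calc g * q * g⁻¹ * (g * x * g⁻¹) = g * (q * x) * g⁻¹ := by group
      _ = g * (x * q) * g⁻¹ := by rw [h3]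
      _ = _ := by group
  have h9 : Nat.card ↥(P ⊔ U2) = 9 := by
    rw [hk2] at hd2 h27 ⊢
    interval_cases k
    · norm_num at hd2
    · norm_num at hd2
    · norm_num
    · norm_num at h27
  have heq : U2 = P ⊔ U2 := eq_of_le_of_card_ge le_sup_right (by rw [h9, h.card2])
  obtain ⟨u, hu, hu2⟩ := h.not_conj g⁻¹
  apply hu2
  rw [heq]
  have h1 : g⁻¹ * u * g⁻¹⁻¹ ∈ P := ⟨u, hu, rfl⟩
  exact le_sup_left (a := P) (b := U2) h1

/-- the hypothesis on orders of simple groups -/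
def List3 : Prop := ∀ (K : Type u) [Group K] [Finite K] [IsSimpleGroup K] (_ : ¬ IsMulCommutative K) (T : Sylow 3 K)
    (_ : Nat.card T = 27) (_ : ¬ ∀ x y : T, x * y = y * x) (_ : Nat.card K ∣ 2 ^ 13 * 3 ^ 3 * 5 * 7 * 11 ^ 2 * 13 ^ 2),
    Nat.card K = 5616 ∨ Nat.card K = 6048 ∨ Nat.card K = 95040

/-- the hypothesis on strongly closed subgroups -/
def Closed3 : Prop := ∀ (K : Type u) [Group K] [Finite K] [IsSimpleGroup K] (_ : ¬ IsMulCommutative K) (S : Sylow 3 K)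
    (T : Subgroup K) (_ : T ≠ ⊥) (_ : T < (S : Subgroup K)) (_ : Cfsg.IsStronglyClosed T (S : Subgroup K)),
    (Cfsg.groupFusionSystem (S : Subgroup K)).IsNormal S ∨ Nat.card T = 3

theorem perfect {K : Type u} [Group K] [IsSimpleGroup K] (hc : ¬ IsMulCommutative K) : commutator K = ⊤ := by
  rcases (inferInstance : (commutator K).Normal).eq_bot_or_eq_top with h | h
  · exfalso
    apply hc
    rw [commutator_eq_bot_iff_center_eq_top] at h
    refine ⟨⟨fun a b => ?_⟩⟩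
    have h1 : a ∈ center K := by rw [h]; exact mem_top a
    exact (mem_center_iff.1 h1 b).symm
  · exact h

theorem move1_of [Finite Γ] (hL : List3.{u}) (hC : Closed3.{u}) (h : Loc T U1 U2 z ⊥) {K : Subgroup Γ} (hs : IsSimpleGroup K)
    (hc : ¬ IsMulCommutative K) (hT : T ≤ K) :
    ∃ g : Γ, (∀ u ∈ U1, g * u * g⁻¹ ∈ U1) ∧ g * z * g⁻¹ ∉ zpowers z := by
  by_contra hcon
  push Not at hcon
  have hscl := scl_of h hcon
  have hTp : IsPGroup 3 T := IsPGroup.of_card (n := 3) (by rw [h.card_T]; norm_num)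
  -- the Sylow subgroup of `K`
  have hTKp : IsPGroup 3 (T.subgroupOf K) := hTp.comap_of_injective K.subtype K.subtype_injective
  have hidx : ¬ 3 ∣ (T.subgroupOf K).index := by
    intro h1
    apply h.syl
    have h2 : T.relIndex K * K.index = T.index := relIndex_mul_index hT
    rw [← h2]
    exact h1.mul_right _
  let S : Sylow 3 K := hTKp.toSylow hidx
  have hS : (S : Subgroup K) = T.subgroupOf K := rfl
  have hmemS : ∀ x : K, x ∈ S ↔ (x : Γ) ∈ T := fun x => mem_subgroupOf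
  have hU1K : U1 ≤ K := h.le1.trans hT
  have hU2K : U2 ≤ K := h.le2.trans hT
  have hzU : z ∈ U1 := by
    have h1 : z ∈ U1 ⊓ U2 := by rw [h.inf]; exact mem_zpowers z
    exact h1.1
  have hzK : z ∈ K := hU1K hzU
  have hzp : ∀ x : K, x ∈ zpowers (⟨z, hzK⟩ : K) ↔ (x : Γ) ∈ zpowers z := by
    intro x
    rw [mem_zpowers_iff, mem_zpowers_iff]
    constructor
    · rintro ⟨k, hk⟩
      exact ⟨k, by rw [← hk]; rfl⟩
    · rintro ⟨k, hk⟩
      exact ⟨k, Subtype.ext hk⟩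
  have hsys : Sys S (U1.subgroupOf K) (U2.subgroupOf K) ⟨z, hzK⟩ := by
    refine ⟨?_, ?_, ?_, ?_, ?_, ?_, ?_, ?_, ?_, ?_, ?_, ?_, ?_⟩
    · show Nat.card ↥(T.subgroupOf K) = 27
      rw [← h.card_T]
      exact Nat.card_congr (subgroupOfEquivOfLe hT).toEquiv
    · intro x hx
      exact h.le1 hx
    · intro x hx
      exact h.le2 hx
    · rw [← h.card1]
      exact Nat.card_congr (subgroupOfEquivOfLe hU1K).toEquiv
    · rw [← h.card2]
      exact Nat.card_congr (subgroupOfEquivOfLe hU2K).toEquiv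
    · ext x
      rw [hzp, ← h.inf]
      rfl
    · intro h1
      exact h.z_ne (congrArg Subtype.val h1)
    · exact Subtype.ext (z3 h)
    · intro x hx
      exact Subtype.ext (h.z_comm x hx)
    · intro x hx hxc
      rw [hzp]
      apply h.center x hx
      intro y hy
      exact congrArg Subtype.val (hxc ⟨y, hT hy⟩ hy)
    · intro x hx g hg
      exact hscl x hx g hg
    · intro g x hx hg
      exact h.type g x (Or.inl hx) hg
    · intro R hR1 hR2
      have h1 : R.map K.subtype ≤ ⊥ := by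
        apply h.sig
        · rintro t ht _ ⟨r, hr, rfl⟩
          exact ⟨⟨t, hT ht⟩ * r * ⟨t, hT ht⟩⁻¹, hR1 ⟨t, hT ht⟩ ht r hr, rfl⟩
        · rw [card_map_of_injective K.subtype_injective]
          exact hR2
      rw [le_bot_iff, map_eq_bot_iff_of_injective _ K.subtype_injective] at h1
      exact h1
  have hclosed : Cfsg.IsStronglyClosed (U2.subgroupOf K) (S : Subgroup K) := by
    refine ⟨hsys.le2, ?_⟩
    intro x hx g hg
    exact hsys.scl x hx g hg
  have hnormal : (Cfsg.groupFusionSystem (S : Subgroup K)).IsNormal S := by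
    rcases hC K hc S (U2.subgroupOf K) (by
      intro h1
      have h2 := hsys.card2
      rw [h1, card_bot] at h2
      omega) (by
      refine lt_of_le_of_ne hsys.le2 ?_
      intro h1
      have h2 := hsys.card2
      rw [h1, hsys.cardS'] at h2
      omega) hclosed with h1 | h1
    · exact h1
    · rw [hsys.card2] at h1
      omega
  have hN : ∀ V : Subgroup K, V ≤ S → ∀ g : K, (∀ x ∈ V, g * x * g⁻¹ ∈ S) →
      ∃ n : K, (∀ s ∈ S, n * s * n⁻¹ ∈ S) ∧ ∀ x ∈ V, n * x * n⁻¹ = g * x * g⁻¹ := by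
    intro V hV g hg
    obtain ⟨ψ, ⟨-, hψS, n, hn⟩, hext, -⟩ := hnormal.2 V (Cfsg.conjHom V g) ⟨hV, fun x => hg x x.2, g, fun x => rfl⟩
    refine ⟨n, ?_, ?_⟩
    · intro s hs
      have h1 := hψS ⟨s, le_sup_right (a := V) (b := (S : Subgroup K)) hs⟩
      rw [hn] at h1
      exact h1
    · intro x hx
      have h1 := hext ⟨x, hx⟩
      rw [hn] at h1
      exact h1
  refine hsys.contra (perfect hc) hN ?_
  refine hL K hc S hsys.cardS ?_ ?_
  · intro h1
    have h2 : (S : Subgroup K) ≤ zpowers (⟨z, hzK⟩ : K) := by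
      intro x hx
      apply hsys.center x hx
      intro y hy
      exact congrArg Subtype.val (h1 ⟨x, hx⟩ ⟨y, hy⟩)
    have h3 := card_le_of_le h2
    rw [hsys.card_z, hsys.cardS'] at h3
    omega
  · exact (card_subgroup_dvd_card K).trans h.ord

end Cfsg.Agent.H410.Co1
end

-- part: H83/Co/Mat
section
prune_inst 0x101065043d220000081800002200004030000000004040012020000201400040a04508010a30051080a43c507800006001100100422800000a003800000601200002000080480000200000000002000000000000000000000000000000000000000000000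
set_option linter.all false
open scoped Cfsg.Agent.FastGrp

/-!
S5227, D1/D2: the model group `P` as a group of symplectic `6 × 6` matrices over `F₃`.
-/

set_option autoImplicit false
set_option linter.style.longLine false

namespace Cfsg.Agent.H83.Co

open Matrix Cfsg.Agent.H776.Co Cfsg.Agent.H776.Co.P

/-- `t` -/
def tu (x : P) : Matrix (Fin 3) (Fin 3) (ZMod 3) := !![1, x.a, x.c; 0, 1, x.b; 0, 0, 1]
/-- the inverse transpose of `t` -/
def tlo (x : P) : Matrix (Fin 3) (Fin 3) (ZMod 3) := !![1, 0, 0; -x.a, 1, 0; x.a * x.b - x.c, -x.b, 1]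
/-- `M` -/
def sy (x : P) : Matrix (Fin 3) (Fin 3) (ZMod 3) :=
  !![x.m11, x.m12, x.m13; x.m12, x.m22, x.m23; x.m13, x.m23, x.m33]
/-- the matrix of `x` -/
def mat (x : P) : Matrix (Fin 3 ⊕ Fin 3) (Fin 3 ⊕ Fin 3) (ZMod 3) :=
  fromBlocks (tu x) (sy x * tlo x) 0 (tlo x)

private theorem m3 {a b c d e f g h i a' b' c' d' e' f' g' h' i' : ZMod 3} (h1 : a = a') (h2 : b = b') (h3 : c = c')
    (h4 : d = d') (h5 : e = e') (h6 : f = f') (h7 : g = g') (h8 : h = h') (h9 : i = i') :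
    !![a, b, c; d, e, f; g, h, i] = !![a', b', c'; d', e', f'; g', h', i'] := by
  rw [h1, h2, h3, h4, h5, h6, h7, h8, h9]

private theorem add3 (a b c d e f g h i a' b' c' d' e' f' g' h' i' : ZMod 3) :
    !![a, b, c; d, e, f; g, h, i] + !![a', b', c'; d', e', f'; g', h', i'] =
      !![a + a', b + b', c + c'; d + d', e + e', f + f'; g + g', h + h', i + i'] := by
  ext x y
  fin_cases x <;> fin_cases y <;> rfl

private theorem neg3 (a b c d e f g h i : ZMod 3) :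
    - !![a, b, c; d, e, f; g, h, i] = !![-a, -b, -c; -d, -e, -f; -g, -h, -i] := by
  ext x y
  fin_cases x <;> fin_cases y <;> rfl

private theorem madd_zero (A : Matrix (Fin 3) (Fin 3) (ZMod 3)) : A + 0 = A := add_zero A
private theorem mzero_add (A : Matrix (Fin 3) (Fin 3) (ZMod 3)) : 0 + A = A := zero_add A
private theorem mneg_zero : -(0 : Matrix (Fin 3) (Fin 3) (ZMod 3)) = 0 := neg_zero

theorem tu_mul (x y : P) : tu (x * y) = tu x * tu y := by
  simp only [tu, Matrix.mul_fin_three, mul_a, mul_b, mul_c]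
  refine m3 ?_ ?_ ?_ ?_ ?_ ?_ ?_ ?_ ?_ <;> ring

theorem tlo_mul (x y : P) : tlo (x * y) = tlo x * tlo y := by
  simp only [tlo, Matrix.mul_fin_three, mul_a, mul_b, mul_c]
  refine m3 ?_ ?_ ?_ ?_ ?_ ?_ ?_ ?_ ?_ <;> ring

theorem tu_transpose (x : P) : (tu x)ᵀ = !![1, 0, 0; x.a, 1, 0; x.c, x.b, 1] := by
  ext i j
  fin_cases i <;> fin_cases j <;> rfl

theorem tlo_tu (x : P) : tlo x * (tu x)ᵀ = 1 := by
  rw [tu_transpose, tlo, Matrix.mul_fin_three, Matrix.one_fin_three]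
  refine m3 ?_ ?_ ?_ ?_ ?_ ?_ ?_ ?_ ?_ <;> ring

theorem tut_tlo (x : P) : (tu x)ᵀ * tlo x = 1 := mul_eq_one_comm.1 (tlo_tu x)

theorem sy_mul (x y : P) : sy (x * y) = sy x + tu x * sy y * (tu x)ᵀ := by
  rw [tu_transpose]
  simp only [sy, tu, Matrix.mul_fin_three, add3, mul_m11, mul_m12, mul_m13, mul_m22, mul_m23, mul_m33]
  refine m3 ?_ ?_ ?_ ?_ ?_ ?_ ?_ ?_ ?_ <;> ring

theorem sy_transpose (x : P) : (sy x)ᵀ = sy x := by
  ext i j
  fin_cases i <;> fin_cases j <;> rfl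

theorem mat_mul (x y : P) : mat (x * y) = mat x * mat y := by
  rw [mat, mat, mat, fromBlocks_multiply, tu_mul, tlo_mul, sy_mul]
  refine fromBlocks_inj.2 ⟨?_, ?_, ?_, ?_⟩
  · rw [Matrix.mul_zero, add_zero]
  · rw [add_mul, Matrix.mul_assoc (tu x * sy y) _ _, ← Matrix.mul_assoc (tu x)ᵀ, tut_tlo, Matrix.one_mul,
      Matrix.mul_assoc (tu x), add_comm, Matrix.mul_assoc (sy x)]
  · rw [Matrix.zero_mul, Matrix.mul_zero, add_zero]
  · rw [Matrix.zero_mul, zero_add]

theorem mat_mem (x : P) : mat x ∈ symplecticGroup (Fin 3) (ZMod 3) := by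
  rw [SymplecticGroup.mem_iff, mat, Matrix.J, fromBlocks_multiply, fromBlocks_transpose, fromBlocks_multiply]
  have h1 : sy x * tlo x * (tu x)ᵀ = sy x := by rw [Matrix.mul_assoc, tlo_tu, Matrix.mul_one]
  have h2 : tu x * (sy x * tlo x)ᵀ = sy x := by
    have h : (sy x * tlo x * (tu x)ᵀ)ᵀ = (sy x)ᵀ := by rw [h1]
    rwa [sy_transpose, transpose_mul, transpose_transpose] at h
  have h3 : tu x * (tlo x)ᵀ = 1 := by
    have h : (tlo x * (tu x)ᵀ)ᵀ = (1 : Matrix (Fin 3) (Fin 3) (ZMod 3))ᵀ := by rw [tlo_tu]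
    rwa [transpose_mul, transpose_transpose, transpose_one] at h
  have h4 : tu x * ((tlo x)ᵀ * (sy x)ᵀ) = sy x := by rwa [transpose_mul] at h2
  refine fromBlocks_inj.2 ⟨?_, ?_, ?_, ?_⟩
  · simp [h1, h4]
  · simp [h3]
  · simp [tlo_tu]
  · simp

theorem mat_injective : Function.Injective mat := by
  intro x y h
  have hb := fromBlocks_inj.1 h
  obtain ⟨h1, h2, _, h4⟩ := hb
  have h5 : sy x = sy y := by
    have h6 : sy x * tlo x * (tu x)ᵀ = sy y * tlo y * (tu y)ᵀ := by rw [h1, h2]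
    rwa [Matrix.mul_assoc, tlo_tu, Matrix.mul_assoc, tlo_tu, Matrix.mul_one, Matrix.mul_one] at h6
  ext
  · exact congrFun (congrFun h1 0) 1
  · exact congrFun (congrFun h1 1) 2
  · exact congrFun (congrFun h1 0) 2
  · exact congrFun (congrFun h5 0) 0
  · exact congrFun (congrFun h5 0) 1
  · exact congrFun (congrFun h5 1) 1
  · exact congrFun (congrFun h5 0) 2
  · exact congrFun (congrFun h5 1) 2
  · exact congrFun (congrFun h5 2) 2

/-! ### the conjugating elements -/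

/-- rotation of `e1, e2` -/
def g1 : Matrix (Fin 3 ⊕ Fin 3) (Fin 3 ⊕ Fin 3) (ZMod 3) :=
  fromBlocks !![0, -1, 0; 1, 0, 0; 0, 0, 1] 0 0 !![0, -1, 0; 1, 0, 0; 0, 0, 1]
/-- rotation of `e2, e3` -/
def g2 : Matrix (Fin 3 ⊕ Fin 3) (Fin 3 ⊕ Fin 3) (ZMod 3) :=
  fromBlocks !![1, 0, 0; 0, 0, -1; 0, 1, 0] 0 0 !![1, 0, 0; 0, 0, -1; 0, 1, 0]
/-- rotation of `e3, f3` -/
def g3 : Matrix (Fin 3 ⊕ Fin 3) (Fin 3 ⊕ Fin 3) (ZMod 3) :=
  fromBlocks !![1, 0, 0; 0, 1, 0; 0, 0, 0] !![0, 0, 0; 0, 0, 0; 0, 0, 1]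
    !![0, 0, 0; 0, 0, 0; 0, 0, -1] !![1, 0, 0; 0, 1, 0; 0, 0, 0]
/-- sign at `e1, f1` -/
def s1 : Matrix (Fin 3 ⊕ Fin 3) (Fin 3 ⊕ Fin 3) (ZMod 3) :=
  fromBlocks !![-1, 0, 0; 0, 1, 0; 0, 0, 1] 0 0 !![-1, 0, 0; 0, 1, 0; 0, 0, 1]
/-- sign at `e3, f3` -/
def s3 : Matrix (Fin 3 ⊕ Fin 3) (Fin 3 ⊕ Fin 3) (ZMod 3) :=
  fromBlocks !![1, 0, 0; 0, 1, 0; 0, 0, -1] 0 0 !![1, 0, 0; 0, 1, 0; 0, 0, -1]
/-- sign at the `f i` -/
def sb : Matrix (Fin 3 ⊕ Fin 3) (Fin 3 ⊕ Fin 3) (ZMod 3) := fromBlocks 1 0 0 (-1)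

theorem g1_mem : g1 ∈ symplecticGroup (Fin 3) (ZMod 3) := by
  rw [SymplecticGroup.mem_iff]; decide +kernel
theorem g2_mem : g2 ∈ symplecticGroup (Fin 3) (ZMod 3) := by
  rw [SymplecticGroup.mem_iff]; decide +kernel
theorem g3_mem : g3 ∈ symplecticGroup (Fin 3) (ZMod 3) := by
  rw [SymplecticGroup.mem_iff]; decide +kernel
theorem s1_mem : s1 ∈ symplecticGroup (Fin 3) (ZMod 3) := by
  rw [SymplecticGroup.mem_iff]; decide +kernel
theorem s3_mem : s3 ∈ symplecticGroup (Fin 3) (ZMod 3) := by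
  rw [SymplecticGroup.mem_iff]; decide +kernel

theorem conj_s1 (x : P) : mat (tor (-1) 1 1 x) * s1 = s1 * mat x := by
  rw [mat, mat, s1, fromBlocks_multiply, fromBlocks_multiply]
  refine fromBlocks_inj.2 ⟨?_, ?_, ?_, ?_⟩ <;>
    simp only [Matrix.zero_mul, Matrix.mul_zero, madd_zero, mzero_add, tor, tu, tlo, sy, Matrix.mul_fin_three, add3] <;>
    refine m3 ?_ ?_ ?_ ?_ ?_ ?_ ?_ ?_ ?_ <;> ring

theorem conj_s3 (x : P) : mat (tor 1 (-1) 1 x) * s3 = s3 * mat x := by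
  rw [mat, mat, s3, fromBlocks_multiply, fromBlocks_multiply]
  refine fromBlocks_inj.2 ⟨?_, ?_, ?_, ?_⟩ <;>
    simp only [Matrix.zero_mul, Matrix.mul_zero, madd_zero, mzero_add, tor, tu, tlo, sy, Matrix.mul_fin_three, add3] <;>
    refine m3 ?_ ?_ ?_ ?_ ?_ ?_ ?_ ?_ ?_ <;> ring

theorem conj_sb (x : P) : mat (tor 1 1 (-1) x) * sb = sb * mat x := by
  rw [mat, mat, sb, fromBlocks_multiply, fromBlocks_multiply]
  refine fromBlocks_inj.2 ⟨?_, ?_, ?_, ?_⟩ <;>
    simp only [Matrix.zero_mul, Matrix.mul_zero, madd_zero, mzero_add, tor, tu, tlo, sy, Matrix.mul_fin_three, add3, Matrix.mul_one, Matrix.one_mul, Matrix.mul_neg, Matrix.neg_mul, neg3, mneg_zero] <;>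
    refine m3 ?_ ?_ ?_ ?_ ?_ ?_ ?_ ?_ ?_ <;> ring

theorem conj_g1 {x : P} (hx : x ∈ R1) : mat (w1 x) * g1 = g1 * mat x := by
  have h : x.a = 0 := hx
  rw [mat, mat, g1, fromBlocks_multiply, fromBlocks_multiply]
  refine fromBlocks_inj.2 ⟨?_, ?_, ?_, ?_⟩ <;>
    simp only [Matrix.zero_mul, Matrix.mul_zero, madd_zero, mzero_add, w1, tu, tlo, sy, Matrix.mul_fin_three, add3, h] <;>
    refine m3 ?_ ?_ ?_ ?_ ?_ ?_ ?_ ?_ ?_ <;> ring

theorem conj_g2 {x : P} (hx : x ∈ R2) : mat (w2 0 x) * g2 = g2 * mat x := by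
  have h : x.b = 0 := hx
  rw [mat, mat, g2, fromBlocks_multiply, fromBlocks_multiply]
  refine fromBlocks_inj.2 ⟨?_, ?_, ?_, ?_⟩ <;>
    simp only [Matrix.zero_mul, Matrix.mul_zero, madd_zero, mzero_add, w2, tu, tlo, sy, Matrix.mul_fin_three, add3, h] <;>
    refine m3 ?_ ?_ ?_ ?_ ?_ ?_ ?_ ?_ ?_ <;> ring

theorem conj_g3_xa (a : ZMod 3) : mat (xa a) * g3 = g3 * mat (xa a) := by
  rw [mat, g3, fromBlocks_multiply, fromBlocks_multiply]
  refine fromBlocks_inj.2 ⟨?_, ?_, ?_, ?_⟩ <;>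
    simp only [Matrix.zero_mul, Matrix.mul_zero, madd_zero, mzero_add, xa, tu, tlo, sy, Matrix.mul_fin_three, add3] <;>
    refine m3 ?_ ?_ ?_ ?_ ?_ ?_ ?_ ?_ ?_ <;> ring

theorem conj_g3_Q {x : P} (ha : x.a = 0) (hm : x.m33 = 0) : mat (w3Q x) * g3 = g3 * mat x := by
  rw [mat, mat, g3, fromBlocks_multiply, fromBlocks_multiply]
  refine fromBlocks_inj.2 ⟨?_, ?_, ?_, ?_⟩ <;>
    simp only [Matrix.zero_mul, Matrix.mul_zero, madd_zero, mzero_add, w3Q, tu, tlo, sy, Matrix.mul_fin_three, add3, ha, hm] <;>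
    refine m3 ?_ ?_ ?_ ?_ ?_ ?_ ?_ ?_ ?_ <;> first | ring1 | (ring_nf; reduce_mod_char; ring)

theorem conj_g3 {x : P} (hx : x ∈ R3) : mat (w3 x) * g3 = g3 * mat x := by
  have h : x.m33 = 0 := hx
  have h1 : mat (w3Q ((xa x.a)⁻¹ * x)) * g3 = g3 * mat ((xa x.a)⁻¹ * x) :=
    conj_g3_Q (by simp [xa]) (by simp [xa, h])
  rw [w3, mat_mul, Matrix.mul_assoc, h1, ← Matrix.mul_assoc, conj_g3_xa, Matrix.mul_assoc, ← mat_mul,
    mul_inv_cancel_left]

/-! ### the quadratic form of a transvection -/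

/-- the entry `(f3, f3)` of `J (mat x - 1)` -/
theorem mat_entry (x : P) : mat x (Sum.inl 2) (Sum.inr 2) = x.m33 := by
  simp [mat, sy, tlo]

end Cfsg.Agent.H83.Co

private theorem dce_ba0af2077c8a : _root_.True := by
  try have : _root_.True := by simp only [_root_.Cfsg.Agent.H83.Co.g1.eq_1]
  try have : _root_.True := by simp only [_root_.Cfsg.Agent.H83.Co.g2.eq_1]
  try have : _root_.True := by simp only [_root_.Cfsg.Agent.H83.Co.tu.eq_1]
  try have : _root_.True := by simp only [_root_.Cfsg.Agent.H83.Co.mat.eq_1]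
  try have : _root_.True := by simp only [_root_.Cfsg.Agent.H83.Co.g3.eq_1]
  try have : _root_.True := by simp only [_root_.Cfsg.Agent.H83.Co.tlo.eq_1]
  try have : _root_.True := by simp only [_root_.Cfsg.Agent.H83.Co.sb.eq_1]
  try have : _root_.True := by simp only [_root_.Cfsg.Agent.H83.Co.s3.eq_1]
  try have : _root_.True := by simp only [_root_.Cfsg.Agent.H83.Co.s1.eq_1]
  try have : _root_.True := by simp only [_root_.Cfsg.Agent.H83.Co.sy.eq_1]
  exact _root_.True.intro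
end

-- part: H83/Co/Sp
section
prune_inst 0x10106504052200000800000020002040700000020040400000000800010000400004080000b0011000e410006008806001100000420000000a000800000401200000000080080000200000009004000000000000000000000000000000000000000000000
set_option linter.all false
open scoped Cfsg.Agent.FastGrp

/-!
S5227, D1 and D2: `Sp₆(3)` and `GSp₆(3)`.
-/

set_option autoImplicit false
set_option linter.style.longLine false

namespace Cfsg.Agent.H83.Co

open Matrix Cfsg.Agent.H776.Co Cfsg.Agent.H776.Co.P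

/-- a subgroup isomorphic to `P` is a Sylow subgroup by order -/
theorem exists_sylow {G : Type*} [Group G] [Finite G] (φ : P →* G) (hφ : Function.Injective φ) {m : ℕ}
    (hc : Nat.card G = 3 ^ 9 * m) (hm : ¬ 3 ∣ m) : ∃ T : Sylow 3 G, (T : Subgroup G) = φ.range := by
  have : Fact (Nat.Prime 3) := ⟨Nat.prime_three⟩
  have h1 : Nat.card φ.range = 3 ^ 9 := by
    rw [← Nat.card_congr (MonoidHom.ofInjective hφ).toEquiv, card_P]
  have h2 : IsPGroup 3 φ.range := IsPGroup.of_card h1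
  obtain ⟨T, hT⟩ := h2.exists_le_sylow
  refine ⟨T, ?_⟩
  obtain ⟨n, hn⟩ := IsPGroup.iff_card.1 T.isPGroup'
  have h3 : 3 ^ n ∣ 3 ^ 9 * m := by
    rw [← hn, ← hc]
    exact Subgroup.card_subgroup_dvd_card _
  have h4 : 3 ^ n ∣ 3 ^ 9 := by
    refine (Nat.Coprime.dvd_of_dvd_mul_right ?_ h3)
    exact Nat.Coprime.pow_left _ ((Nat.Prime.coprime_iff_not_dvd Nat.prime_three).2 hm)
  have h5 : Nat.card T ≤ Nat.card φ.range := by
    rw [hn, h1]
    exact Nat.le_of_dvd (by norm_num) h4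
  exact (Subgroup.eq_of_le_of_card_ge hT h5).symm

/-- `P` in `Sp₆(3)` -/
def phi : P →* symplecticGroup (Fin 3) (ZMod 3) :=
  MonoidHom.mk' (fun x => ⟨mat x, mat_mem x⟩) fun x y => Subtype.ext (mat_mul x y)

theorem phi_injective : Function.Injective phi := fun _ _ h => mat_injective (congrArg Subtype.val h)

theorem card_Sp6 : Nat.card (symplecticGroup (Fin 3) (ZMod 3)) = 3 ^ 9 * (8 * 80 * 728) := by
  have : Fact (Nat.Prime 3) := ⟨Nat.prime_three⟩
  rw [LieClassical.SympCount.card_symplecticGroup 3, ZMod.card]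
  simp [Finset.prod_range_succ]

theorem conj_of {g : symplecticGroup (Fin 3) (ZMod 3)} {x y : P} (h : mat y * g = g * mat x) :
    phi y = g * phi x * g⁻¹ := by
  rw [eq_mul_inv_iff_mul_eq]
  exact Subtype.ext h

theorem single_entry (G : Matrix (Fin 3 ⊕ Fin 3) (Fin 3 ⊕ Fin 3) (ZMod 3)) (i : Fin 3 ⊕ Fin 3) :
    (G * (Matrix.single i i 1 : Matrix (Fin 3 ⊕ Fin 3) (Fin 3 ⊕ Fin 3) (ZMod 3)) * Gᵀ) i i = G i i * G i i := by
  rw [Matrix.mul_apply, Finset.sum_eq_single i]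
  · simp
  · intro j _ hj
    rw [Matrix.mul_single_apply_of_ne _ _ _ _ _ hj, zero_mul]
  · intro h
    exact absurd (Finset.mem_univ _) h

/-- the quadratic form of a transvection -/
theorem not_neg {G : Matrix (Fin 3 ⊕ Fin 3) (Fin 3 ⊕ Fin 3) (ZMod 3)} (hG : G ∈ symplecticGroup (Fin 3) (ZMod 3))
    {y : P} (h : mat y * G = G * mat ⟨0, 0, 0, 0, 0, 0, 0, 0, 1⟩) (hy : y.m33 = -1) : False := by
  rw [SymplecticGroup.mem_iff] at hG
  have h1 : (mat y - 1) * J (Fin 3) (ZMod 3) = G * ((mat ⟨0, 0, 0, 0, 0, 0, 0, 0, 1⟩ - 1) * J (Fin 3) (ZMod 3)) * Gᵀ := by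
    calc (mat y - 1) * J (Fin 3) (ZMod 3) = (mat y - 1) * (G * J (Fin 3) (ZMod 3) * Gᵀ) := by rw [hG]
      _ = (mat y * G - G) * (J (Fin 3) (ZMod 3) * Gᵀ) := by
        rw [Matrix.mul_assoc G, ← Matrix.mul_assoc, Matrix.sub_mul, Matrix.one_mul]
      _ = G * ((mat ⟨0, 0, 0, 0, 0, 0, 0, 0, 1⟩ - 1) * J (Fin 3) (ZMod 3)) * Gᵀ := by
        rw [h, Matrix.mul_assoc G (_ * _), Matrix.mul_assoc _ (J (Fin 3) (ZMod 3)), ← Matrix.mul_assoc G,
          Matrix.mul_sub, Matrix.mul_one]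
  have h2 : (mat ⟨0, 0, 0, 0, 0, 0, 0, 0, 1⟩ - 1) * J (Fin 3) (ZMod 3) = Matrix.single (Sum.inl 2) (Sum.inl 2) 1 := by
    decide +kernel
  rw [h2] at h1
  have h3 := congrFun (congrFun h1 (Sum.inl 2)) (Sum.inl 2)
  have h4 : ((mat y - 1) * J (Fin 3) (ZMod 3)) (Sum.inl 2) (Sum.inl 2) = y.m33 := by
    rw [← mat_entry y]
    simp [Matrix.mul_apply, Fin.sum_univ_three, J]
  rw [h4, single_entry, hy] at h3
  generalize G (Sum.inl 2) (Sum.inl 2) = v at h3
  revert v
  decide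

/-! ### the group of similitudes -/

/-- `GSp₆(3)` -/
def GS : Subgroup (Matrix (Fin 3 ⊕ Fin 3) (Fin 3 ⊕ Fin 3) (ZMod 3))ˣ where
  carrier := {g | (g : Matrix _ _ (ZMod 3)) * J (Fin 3) (ZMod 3) * (g : Matrix _ _ (ZMod 3))ᵀ = J (Fin 3) (ZMod 3) ∨
    (g : Matrix _ _ (ZMod 3)) * J (Fin 3) (ZMod 3) * (g : Matrix _ _ (ZMod 3))ᵀ = -J (Fin 3) (ZMod 3)}
  mul_mem' := by
    rintro g h hg hh
    have e : ((g * h : (Matrix (Fin 3 ⊕ Fin 3) (Fin 3 ⊕ Fin 3) (ZMod 3))ˣ) : Matrix _ _ (ZMod 3)) * J (Fin 3) (ZMod 3) *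
        ((g * h : (Matrix (Fin 3 ⊕ Fin 3) (Fin 3 ⊕ Fin 3) (ZMod 3))ˣ) : Matrix _ _ (ZMod 3))ᵀ =
        (g : Matrix _ _ (ZMod 3)) * ((h : Matrix _ _ (ZMod 3)) * J (Fin 3) (ZMod 3) * (h : Matrix _ _ (ZMod 3))ᵀ) *
          (g : Matrix _ _ (ZMod 3))ᵀ := by
      rw [Units.val_mul, transpose_mul]
      simp only [Matrix.mul_assoc]
    simp only [Set.mem_ofPred_eq] at hg hh ⊢
    rw [e]
    rcases hg with hg | hg <;> rcases hh with hh | hh <;> rw [hh] <;>
      simp only [Matrix.mul_neg, Matrix.neg_mul, hg, neg_neg, true_or, or_true]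
  one_mem' := by
    left
    simp
  inv_mem' := by
    rintro g hg
    have e : ((g⁻¹ : (Matrix (Fin 3 ⊕ Fin 3) (Fin 3 ⊕ Fin 3) (ZMod 3))ˣ) : Matrix _ _ (ZMod 3)) *
        ((g : Matrix _ _ (ZMod 3)) * J (Fin 3) (ZMod 3) * (g : Matrix _ _ (ZMod 3))ᵀ) *
        ((g⁻¹ : (Matrix (Fin 3 ⊕ Fin 3) (Fin 3 ⊕ Fin 3) (ZMod 3))ˣ) : Matrix _ _ (ZMod 3))ᵀ = J (Fin 3) (ZMod 3) := by
      rw [Matrix.mul_assoc, Matrix.mul_assoc _ _ᵀ, ← transpose_mul, Units.inv_mul, transpose_one, Matrix.mul_one,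
        ← Matrix.mul_assoc, Units.inv_mul, Matrix.one_mul]
    simp only [Set.mem_ofPred_eq] at hg ⊢
    rcases hg with hg | hg
    · left
      rwa [hg] at e
    · right
      rw [hg, Matrix.mul_neg, Matrix.neg_mul] at e
      exact neg_eq_iff_eq_neg.1 e

theorem mem_GS {g : (Matrix (Fin 3 ⊕ Fin 3) (Fin 3 ⊕ Fin 3) (ZMod 3))ˣ} : g ∈ GS ↔
    (g : Matrix _ _ (ZMod 3)) * J (Fin 3) (ZMod 3) * (g : Matrix _ _ (ZMod 3))ᵀ = J (Fin 3) (ZMod 3) ∨
    (g : Matrix _ _ (ZMod 3)) * J (Fin 3) (ZMod 3) * (g : Matrix _ _ (ZMod 3))ᵀ = -J (Fin 3) (ZMod 3) := Iff.rfl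

/-- `Sp₆(3) → GSp₆(3)` -/
def jj : symplecticGroup (Fin 3) (ZMod 3) →* GS :=
  (MonoidHom.toHomUnits (symplecticGroup (Fin 3) (ZMod 3)).subtype).codRestrict GS
    fun g => mem_GS.2 (Or.inl (SymplecticGroup.mem_iff.1 g.2))

theorem jj_coe (g : symplecticGroup (Fin 3) (ZMod 3)) :
    (((jj g : GS) : (Matrix (Fin 3 ⊕ Fin 3) (Fin 3 ⊕ Fin 3) (ZMod 3))ˣ) : Matrix (Fin 3 ⊕ Fin 3) (Fin 3 ⊕ Fin 3) (ZMod 3)) =
      (g : Matrix (Fin 3 ⊕ Fin 3) (Fin 3 ⊕ Fin 3) (ZMod 3)) := rfl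

theorem jj_injective : Function.Injective jj := by
  intro g h e
  apply Subtype.ext
  rw [← jj_coe, ← jj_coe, e]

theorem mem_range_jj {g : GS} : g ∈ jj.range ↔
    ((g : (Matrix (Fin 3 ⊕ Fin 3) (Fin 3 ⊕ Fin 3) (ZMod 3))ˣ) : Matrix _ _ (ZMod 3)) * J (Fin 3) (ZMod 3) *
      ((g : (Matrix (Fin 3 ⊕ Fin 3) (Fin 3 ⊕ Fin 3) (ZMod 3))ˣ) : Matrix _ _ (ZMod 3))ᵀ = J (Fin 3) (ZMod 3) := by
  constructor
  · rintro ⟨h, rfl⟩
    exact SymplecticGroup.mem_iff.1 h.2
  · intro h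
    exact ⟨⟨_, SymplecticGroup.mem_iff.2 h⟩, Subtype.ext (Units.ext rfl)⟩

theorem J_ne : J (Fin 3) (ZMod 3) ≠ -J (Fin 3) (ZMod 3) := by decide +kernel

theorem sb_J : sb * J (Fin 3) (ZMod 3) * sbᵀ = -J (Fin 3) (ZMod 3) := by decide +kernel

theorem sb_sb : sb * sb = 1 := by decide +kernel

/-- the similitude `sb` -/
def sbG : GS := ⟨⟨sb, sb, sb_sb, sb_sb⟩, mem_GS.2 (Or.inr sb_J)⟩

theorem sbG_coe : ((sbG : (Matrix (Fin 3 ⊕ Fin 3) (Fin 3 ⊕ Fin 3) (ZMod 3))ˣ) : Matrix _ _ (ZMod 3)) = sb := rfl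

theorem index_range_jj : jj.range.index = 2 := by
  rw [Subgroup.index_eq_two_iff]
  refine ⟨sbG, fun g => ?_⟩
  have e : (((g * sbG : GS) : (Matrix (Fin 3 ⊕ Fin 3) (Fin 3 ⊕ Fin 3) (ZMod 3))ˣ) : Matrix _ _ (ZMod 3)) *
      J (Fin 3) (ZMod 3) *
      (((g * sbG : GS) : (Matrix (Fin 3 ⊕ Fin 3) (Fin 3 ⊕ Fin 3) (ZMod 3))ˣ) : Matrix _ _ (ZMod 3))ᵀ =
      -(((g : (Matrix (Fin 3 ⊕ Fin 3) (Fin 3 ⊕ Fin 3) (ZMod 3))ˣ) : Matrix _ _ (ZMod 3)) * J (Fin 3) (ZMod 3) *
      ((g : (Matrix (Fin 3 ⊕ Fin 3) (Fin 3 ⊕ Fin 3) (ZMod 3))ˣ) : Matrix _ _ (ZMod 3))ᵀ) := by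
    rw [Subgroup.coe_mul, Units.val_mul, sbG_coe, transpose_mul, Matrix.mul_assoc, ← Matrix.mul_assoc (J _ _),
      Matrix.mul_assoc _ sb, ← Matrix.mul_assoc sb, ← Matrix.mul_assoc sb, sb_J, Matrix.neg_mul, Matrix.mul_neg,
      Matrix.mul_assoc]
  rw [mem_range_jj, mem_range_jj, e]
  rcases mem_GS.1 g.2 with h | h
  · rw [h]
    exact Or.inr ⟨rfl, fun h' => J_ne h'.symm⟩
  · rw [h, neg_neg]
    exact Or.inl ⟨rfl, fun h' => J_ne h'.symm⟩

theorem card_GS : Nat.card GS = 3 ^ 9 * (8 * 80 * 728 * 2) := by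
  rw [← Subgroup.card_mul_index jj.range, index_range_jj,
    ← Nat.card_congr (MonoidHom.ofInjective jj_injective).toEquiv, card_Sp6, Nat.mul_assoc]

/-- **D1** -/
theorem real_sp : ∃ (G0 : Type) (_ : Group G0) (_ : Finite G0), RealData 0 False G0 := by
  refine ⟨symplecticGroup (Fin 3) (ZMod 3), inferInstance, inferInstance, ⟨phi, phi_injective,
    exists_sylow phi phi_injective card_Sp6 (by norm_num), ⟨⟨s1, s1_mem⟩, fun x => conj_of (conj_s1 x)⟩,
    ⟨⟨s3, s3_mem⟩, fun x => conj_of (conj_s3 x)⟩, ⟨⟨g1, g1_mem⟩, fun x hx => conj_of (conj_g1 hx)⟩,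
    ⟨⟨g2, g2_mem⟩, fun x hx => conj_of (conj_g2 hx)⟩, ⟨⟨g3, g3_mem⟩, fun x hx => conj_of (conj_g3 hx)⟩,
    fun h => h.elim, ?_⟩⟩
  rintro - f ⟨g, hg⟩ hf
  refine not_neg g.2 (y := f ⟨0, 0, 0, 0, 0, 0, 0, 0, 1⟩) ?_ (hf _)
  have := hg ⟨0, 0, 0, 0, 0, 0, 0, 0, 1⟩
  rw [eq_mul_inv_iff_mul_eq] at this
  exact congrArg Subtype.val this

theorem conj_of' {g : symplecticGroup (Fin 3) (ZMod 3)} {x y : P} (h : mat y * g = g * mat x) :
    (jj.comp phi) y = jj g * (jj.comp phi) x * (jj g)⁻¹ := by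
  show jj (phi y) = _ * jj (phi x) * _
  rw [conj_of h, map_mul, map_mul, map_inv]

/-- **D2** -/
theorem real_gsp : ∃ (G0 : Type) (_ : Group G0) (_ : Finite G0), RealData 0 True G0 := by
  have hi : Function.Injective (jj.comp phi) := jj_injective.comp phi_injective
  refine ⟨GS, inferInstance, inferInstance, ⟨jj.comp phi, hi,
    exists_sylow (jj.comp phi) hi card_GS (by norm_num), ⟨jj ⟨s1, s1_mem⟩, fun x => conj_of' (conj_s1 x)⟩,
    ⟨jj ⟨s3, s3_mem⟩, fun x => conj_of' (conj_s3 x)⟩, ⟨jj ⟨g1, g1_mem⟩, fun x hx => conj_of' (conj_g1 hx)⟩,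
    ⟨jj ⟨g2, g2_mem⟩, fun x hx => conj_of' (conj_g2 hx)⟩, ⟨jj ⟨g3, g3_mem⟩, fun x hx => conj_of' (conj_g3 hx)⟩,
    fun _ => ⟨sbG, fun x => ?_⟩, fun h => (h trivial).elim⟩⟩
  rw [eq_mul_inv_iff_mul_eq]
  exact Subtype.ext (Units.ext (conj_sb x))

end Cfsg.Agent.H83.Co
end
end

-- part: H536/Nine/Fix
section
set_option linter.all false
open scoped Cfsg.Agent.FastGrp

-- part: H536/Nine/Basic
section
/-!
# S5227, section A: `|T ∩ K| ≠ 9`, part 1 (helper536)

`Half T U1 U2 z` : the facts of `Loc` which are used, symmetric in `U1`, `U2`; the group `T` of order 27; the set `Om K`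
of the Sylow 3-subgroups of `K` and the action of `Γ`.
-/

set_option autoImplicit false

namespace Cfsg.Agent.H536.Nine

open Subgroup Cfsg.Agent.H776.Co

universe u

/-- the facts of `Loc` which are used -/
structure Half {Γ : Type u} [Group Γ] (T U1 U2 : Subgroup Γ) (z : Γ) : Prop where
  card_T : Nat.card T = 27
  syl : ¬ 3 ∣ T.index
  exp : ∀ x ∈ T, x ^ 3 = 1
  le1 : U1 ≤ T
  le2 : U2 ≤ T
  card1 : Nat.card U1 = 9
  card2 : Nat.card U2 = 9
  inf : U1 ⊓ U2 = Subgroup.zpowers z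
  z_ne : z ≠ 1
  z_comm : ∀ x ∈ T, x * z = z * x
  center : ∀ x ∈ T, (∀ y ∈ T, x * y = y * x) → x ∈ Subgroup.zpowers z
  type : ∀ g : Γ, ∀ x, x ∈ U1 ∨ x ∈ U2 → g * x * g⁻¹ ∈ T → g * x * g⁻¹ ∈ U1 ∨ g * x * g⁻¹ ∈ U2
  sig : ∀ R : Subgroup Γ, (∀ t ∈ T, ∀ r ∈ R, t * r * t⁻¹ ∈ R) → ¬ 3 ∣ Nat.card R → R ≤ ⊥
  tri : ∀ x, x ∈ U1 ∨ x ∈ U2 → x ≠ 1 → ∀ P Q : Subgroup Γ, IsPGroup 3 P → IsPGroup 3 Q →
    P ≤ Subgroup.centralizer {x} → Q ≤ Subgroup.centralizer {x} → IsPGroup 3 ↥(P ⊔ Q)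
  reg : ∀ x ∈ T, x ∉ U1 → x ∉ U2 → Nat.card (Sylow 3 (Subgroup.centralizer ({x} : Set Γ))) = 1 ∨
    Nat.card (Sylow 3 (Subgroup.centralizer ({x} : Set Γ))) = 4
  reg_conj : ∀ x ∈ T, x ∉ U1 → x ∉ U2 → ∀ y ∈ T, y ∉ U1 → y ∉ U2 → ∃ g : Γ, g * x * g⁻¹ = y ∨ g * x * g⁻¹ = y⁻¹
  ord : Nat.card Γ ∣ 2 ^ 13 * 3 ^ 3 * 5 * 7 * 11 ^ 2 * 13 ^ 2

variable {Γ : Type u} [Group Γ] {T U1 U2 : Subgroup Γ} {z : Γ}

theorem Half.of_loc (h : Loc T U1 U2 z ⊥) : Half T U1 U2 z :=
  ⟨h.card_T, h.syl, h.exp, h.le1, h.le2, h.card1, h.card2, h.inf, h.z_ne, h.z_comm, h.center, h.type, h.sig, h.tri,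
    h.reg, h.reg_conj, h.ord⟩

theorem Half.symm (h : Half T U1 U2 z) : Half T U2 U1 z where
  card_T := h.card_T
  syl := h.syl
  exp := h.exp
  le1 := h.le2
  le2 := h.le1
  card1 := h.card2
  card2 := h.card1
  inf := by rw [inf_comm, h.inf]
  z_ne := h.z_ne
  z_comm := h.z_comm
  center := h.center
  type g x hx hg := (h.type g x hx.symm hg).symm
  sig := h.sig
  tri x hx := h.tri x hx.symm
  reg x hx h1 h2 := h.reg x hx h2 h1
  reg_conj x hx h1 h2 y hy h3 h4 := h.reg_conj x hx h2 h1 y hy h4 h3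
  ord := h.ord

namespace Half

theorem z_mem1 (h : Half T U1 U2 z) : z ∈ U1 := by
  have h1 : z ∈ U1 ⊓ U2 := by rw [h.inf]; exact mem_zpowers z
  exact h1.1

theorem z_mem2 (h : Half T U1 U2 z) : z ∈ U2 := h.symm.z_mem1

theorem z_mem (h : Half T U1 U2 z) : z ∈ T := h.le1 h.z_mem1

theorem order_z (h : Half T U1 U2 z) : orderOf z = 3 := by
  have : Fact (Nat.Prime 3) := ⟨Nat.prime_three⟩
  exact orderOf_eq_prime (h.exp z h.z_mem) h.z_ne

theorem card_z (h : Half T U1 U2 z) : Nat.card (zpowers z) = 3 := by rw [Nat.card_zpowers, h.order_z]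

end Half

/-- groups of order 9 are commutative -/
theorem comm_of_nine {Q : Subgroup Γ} (hQ : Nat.card Q = 9) {x y : Γ} (hx : x ∈ Q) (hy : y ∈ Q) : x * y = y * x := by
  have : Fact (Nat.Prime 3) := ⟨Nat.prime_three⟩
  have hc : IsMulCommutative Q := IsPGroup.isMulCommutative_of_card_eq_prime_sq (p := 3) (G := Q) (by rw [hQ]; norm_num)
  exact congrArg Subtype.val (hc.is_comm.comm (⟨x, hx⟩ : Q) ⟨y, hy⟩)

/-- subgroups of a group of order 9 -/
theorem card_le_nine {Q W : Subgroup Γ} (hQ : Nat.card Q = 9) (hW : W ≤ Q) :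
    Nat.card W = 1 ∨ Nat.card W = 3 ∨ W = Q := by
  have h1 : Nat.card W ∣ 9 := by rw [← hQ]; exact card_dvd_of_le hW
  have hfin : Finite Q := Nat.finite_of_card_ne_zero (by rw [hQ]; norm_num)
  have h2 : Nat.card W ∣ 3 ^ 2 := by rw [show 3 ^ 2 = 9 by norm_num]; exact h1
  obtain ⟨k, hk, h3⟩ := (Nat.dvd_prime_pow Nat.prime_three).1 h2
  interval_cases k
  · left; rw [h3]; norm_num
  · right; left; rw [h3]; norm_num
  · right; right
    exact eq_of_le_of_card_ge hW (by rw [h3, hQ]; norm_num)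

/-! ### The group `T` -/

namespace Half

/-- commutators are powers of `z` -/
theorem comm_mem (h : Half T U1 U2 z) {x y : Γ} (hx : x ∈ T) (hy : y ∈ T) : x * y * x⁻¹ * y⁻¹ ∈ zpowers z := by
  have hfin : Finite T := Nat.finite_of_card_ne_zero (by rw [h.card_T]; norm_num)
  have : Fact (Nat.Prime 3) := ⟨Nat.prime_three⟩
  set Z : Subgroup T := (zpowers z).subgroupOf T with hZ
  have hZn : Z.Normal := by
    constructor
    rintro ⟨n, hnT⟩ hn ⟨g, hg⟩
    rw [hZ, mem_subgroupOf] at hn ⊢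
    obtain ⟨i, hi⟩ := mem_zpowers_iff.1 hn
    simp only at hi
    subst hi
    have h1 : g * z ^ i = z ^ i * g := (Commute.zpow_right (h.z_comm g hg) i).eq
    change g * z ^ i * g⁻¹ ∈ zpowers z
    rw [h1, mul_inv_cancel_right]
    exact hn
  have hZc : Nat.card Z = 3 := by
    rw [hZ, Nat.card_congr (subgroupOfEquivOfLe (zpowers_le.2 h.z_mem)).toEquiv, h.card_z]
  have hq : Nat.card (T ⧸ Z) = 3 ^ 2 := by
    have h1 := Z.card_mul_index
    rw [hZc, h.card_T] at h1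
    have h2 : Nat.card (T ⧸ Z) = Z.index := rfl
    rw [h2]
    omega
  have hc : IsMulCommutative (T ⧸ Z) := IsPGroup.isMulCommutative_of_card_eq_prime_sq (p := 3) hq
  have h1 : ((⟨x, hx⟩ * ⟨y, hy⟩ * ⟨x, hx⟩⁻¹ * ⟨y, hy⟩⁻¹ : T) : T ⧸ Z) = 1 := by
    rw [QuotientGroup.mk_mul, QuotientGroup.mk_mul, QuotientGroup.mk_mul,
      hc.is_comm.comm (((⟨x, hx⟩ : T) : T ⧸ Z)) ((⟨y, hy⟩ : T) : T ⧸ Z)]
    rw [QuotientGroup.mk_inv, QuotientGroup.mk_inv]
    group
  have h2 := (QuotientGroup.eq_one_iff _).1 h1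
  rw [hZ, mem_subgroupOf] at h2
  exact h2

/-- subgroups of order 9 of `T` are self-centralizing: an element outside moves every element which is not a power of `z` -/
theorem not_comm (h : Half T U1 U2 z) {Q : Subgroup Γ} (hQT : Q ≤ T) (hQ : Nat.card Q = 9) {x u : Γ} (hx : x ∈ T)
    (hxQ : x ∉ Q) (hu : u ∈ Q) (huz : u ∉ zpowers z) : x * u ≠ u * x := by
  intro hc
  apply huz
  apply h.center u (hQT hu)
  -- the centralizer of `u` in `T` contains `Q` and `x`
  have hfin : Finite T := Nat.finite_of_card_ne_zero (by rw [h.card_T]; norm_num)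
  set D : Subgroup Γ := T ⊓ centralizer {u} with hD
  have hQD : Q ≤ D := le_inf hQT fun y hy => mem_centralizer_singleton_iff.2 (comm_of_nine hQ hy hu)
  have hxD : x ∈ D := ⟨hx, mem_centralizer_singleton_iff.2 hc⟩
  have hfD : Finite D := Finite.of_injective (inclusion (inf_le_left : D ≤ T)) (inclusion_injective _)
  have h1 : Nat.card D ∣ 27 := by rw [← h.card_T]; exact card_dvd_of_le inf_le_left
  have h2 : 9 ∣ Nat.card D := by rw [← hQ]; exact card_dvd_of_le hQD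
  have h3 : Nat.card D ≠ 9 := by
    intro h4
    have h5 : Q = D := eq_of_le_of_card_ge hQD (by rw [h4, hQ])
    rw [h5] at hxQ
    exact hxQ hxD
  have h4 : Nat.card D = 27 := by
    obtain ⟨k, hk⟩ := h2
    rw [hk] at h1 h3 ⊢
    have h5 : k ∣ 3 := Nat.dvd_of_mul_dvd_mul_left (by norm_num : 0 < 9) (by simpa only [_root_.Nat.reduceMul] using h1)
    rcases (Nat.dvd_prime Nat.prime_three).1 h5 with rfl | rfl
    · omega
    · norm_num
  have h5 : D = T := eq_of_le_of_card_ge inf_le_left (by rw [h4, h.card_T])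
  intro y hy
  rw [← h5] at hy
  exact (mem_centralizer_singleton_iff.1 hy.2).symm

end Half

end Cfsg.Agent.H536.Nine
end

-- part: H536/Nine/Om
section
/-!
# S5227, section A: `|T ∩ K| ≠ 9`, part 2 (helper536): the Sylow 3-subgroups of `K`
-/

set_option autoImplicit false

namespace Cfsg.Agent.H536.Nine

open Subgroup Cfsg.Agent.H776.Co

universe u

variable {Γ : Type u} [Group Γ]

/-- conjugate subgroups -/
def cj (g : Γ) (Q : Subgroup Γ) : Subgroup Γ := Q.map (MulAut.conj g).toMonoidHom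

theorem mem_cj {g x : Γ} {Q : Subgroup Γ} : x ∈ cj g Q ↔ g⁻¹ * x * g ∈ Q := by
  unfold cj
  rw [mem_map]
  constructor
  · rintro ⟨y, hy, rfl⟩
    have : g⁻¹ * (MulAut.conj g).toMonoidHom y * g = y := by
      change g⁻¹ * (g * y * g⁻¹) * g = y
      group
    rwa [this]
  · intro h
    refine ⟨_, h, ?_⟩
    change g * (g⁻¹ * x * g) * g⁻¹ = x
    group

theorem cj_one (Q : Subgroup Γ) : cj 1 Q = Q := by
  ext x
  rw [mem_cj]
  simp

theorem cj_mul (g h : Γ) (Q : Subgroup Γ) : cj (g * h) Q = cj g (cj h Q) := by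
  ext x
  rw [mem_cj, mem_cj, mem_cj]
  have : (g * h)⁻¹ * x * (g * h) = h⁻¹ * (g⁻¹ * x * g) * h := by group
  rw [this]

theorem card_cj (g : Γ) (Q : Subgroup Γ) : Nat.card (cj g Q) = Nat.card Q :=
  card_map_of_injective (MulAut.conj g).injective

theorem cj_le {g : Γ} {Q K : Subgroup Γ} [K.Normal] (h : Q ≤ K) : cj g Q ≤ K := by
  intro x hx
  rw [mem_cj] at hx
  have h1 := ‹K.Normal›.conj_mem _ (h hx) g
  have h2 : g * (g⁻¹ * x * g) * g⁻¹ = x := by group
  rwa [h2] at h1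

/-- the subgroups of order 9 of `K` -/
@[ext] structure Om (K : Subgroup Γ) : Type u where
  /-- the subgroup -/
  val : Subgroup Γ
  le : val ≤ K
  card : Nat.card val = 9

variable {K : Subgroup Γ}

instance [Finite Γ] : Finite (Om K) := Finite.of_injective Om.val fun _ _ h => Om.ext h

instance [K.Normal] : MulAction Γ (Om K) where
  smul g Q := ⟨cj g Q.1, cj_le Q.le, by rw [card_cj, Q.card]⟩
  one_smul Q := Om.ext (cj_one Q.1)
  mul_smul g h Q := Om.ext (cj_mul g h Q.1)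

theorem coe_smul [K.Normal] (g : Γ) (Q : Om K) : (g • Q).1 = cj g Q.1 := rfl

theorem smul_eq_iff [K.Normal] {g : Γ} {Q : Om K} : g • Q = Q ↔ ∀ x ∈ Q.1, g⁻¹ * x * g ∈ Q.1 := by
  constructor
  · intro h x hx
    have h1 : (g • Q).1 = Q.1 := by rw [h]
    rw [coe_smul] at h1
    rw [← h1, mem_cj] at hx
    exact hx
  · intro h
    apply Om.ext
    have hfin : Finite Q.1 := Nat.finite_of_card_ne_zero (by rw [Q.card]; norm_num)
    rw [coe_smul]
    symm
    have hfin' : Finite (cj g Q.1) := Nat.finite_of_card_ne_zero (by rw [card_cj, Q.card]; norm_num)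
    exact eq_of_le_of_card_ge (fun x hx => mem_cj.2 (h x hx)) (by rw [card_cj])

/-! ### Orders -/

section

variable [Finite Γ] {T : Subgroup Γ} [hK : K.Normal]

omit [Finite Γ] hK in
theorem nine_dvd (h9 : Nat.card ↥(T ⊓ K) = 9) : 9 ∣ Nat.card K := by
  rw [← h9]
  exact card_dvd_of_le inf_le_right

theorem not_27 (hT : Nat.card T = 27) (hsyl : ¬ 3 ∣ T.index) (hexp : ∀ x ∈ T, x ^ 3 = 1)
    (h9 : Nat.card ↥(T ⊓ K) = 9) : ¬ 27 ∣ Nat.card K := by
  intro h27
  have h1 : ¬ 3 ∣ K.index := by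
    intro h3
    apply hsyl
    have h4 := mul_dvd_mul h27 h3
    rw [K.card_mul_index, ← T.card_mul_index, hT] at h4
    exact Nat.dvd_of_mul_dvd_mul_left (by norm_num) h4
  have hle : T ≤ K := by
    intro x hx
    have h2 : orderOf (x : Γ ⧸ K) ∣ 3 := by
      apply orderOf_dvd_of_pow_eq_one
      rw [← QuotientGroup.mk_pow, hexp x hx, QuotientGroup.mk_one]
    rcases (Nat.dvd_prime Nat.prime_three).1 h2 with h3 | h3
    · rw [orderOf_eq_one_iff, QuotientGroup.eq_one_iff] at h3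
      exact h3
    · exfalso
      apply h1
      have h4 : orderOf (x : Γ ⧸ K) ∣ Nat.card (Γ ⧸ K) := _root_.orderOf_dvd_natCard _
      rw [h3] at h4
      exact h4
  rw [inf_eq_left.2 hle, hT] at h9
  norm_num at h9

omit hK in
theorem fact_three (h9 : 9 ∣ Nat.card K) (h27 : ¬ 27 ∣ Nat.card K) : (Nat.card K).factorization 3 = 2 := by
  have hpos : Nat.card K ≠ 0 := Nat.card_pos.ne'
  apply le_antisymm
  · by_contra h
    apply h27
    have h1 : 3 ^ 3 ∣ Nat.card K := (Nat.prime_three.pow_dvd_iff_le_factorization hpos).2 (by omega)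
    simpa only [_root_.Nat.reducePow] using h1
  · rw [← Nat.prime_three.pow_dvd_iff_le_factorization hpos]
    simpa using h9

/-- the Sylow subgroup -/
noncomputable def Om.toSylow (h9 : 9 ∣ Nat.card K) (h27 : ¬ 27 ∣ Nat.card K) (Q : Om K) :
    @Sylow 3 K _ :=
  have : Fact (Nat.Prime 3) := ⟨Nat.prime_three⟩
  Sylow.ofCard (Q.1.subgroupOf K) (by
    rw [fact_three h9 h27, Nat.card_congr (subgroupOfEquivOfLe Q.le).toEquiv, Q.card]
    norm_num)

omit hK in
theorem Om.coe_toSylow (h9 : 9 ∣ Nat.card K) (h27 : ¬ 27 ∣ Nat.card K) (Q : Om K) :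
    (Q.toSylow h9 h27 : Subgroup K) = Q.1.subgroupOf K := by
  unfold Om.toSylow
  exact Sylow.coe_ofCard _ _

omit hK in
theorem Om.toSylow_bijective (h9 : 9 ∣ Nat.card K) (h27 : ¬ 27 ∣ Nat.card K) :
    Function.Bijective (Om.toSylow h9 h27) := by
  have : Fact (Nat.Prime 3) := ⟨Nat.prime_three⟩
  constructor
  · intro Q Q' h
    apply Om.ext
    have h1 : (Q.toSylow h9 h27 : Subgroup K) = (Q'.toSylow h9 h27 : Subgroup K) := by rw [h]
    rw [Om.coe_toSylow, Om.coe_toSylow, subgroupOf_inj, inf_eq_left.2 Q.le, inf_eq_left.2 Q'.le] at h1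
    exact h1
  · intro S
    have hc : Nat.card (S : Subgroup K) = 9 := by
      rw [S.card_eq_multiplicity, fact_three h9 h27]
      norm_num
    refine ⟨⟨(S : Subgroup K).map K.subtype, map_subtype_le _, ?_⟩, ?_⟩
    · rw [card_map_of_injective K.subtype_injective, hc]
    · apply Sylow.ext
      rw [Om.coe_toSylow]
      exact comap_map_eq_self_of_injective K.subtype_injective _

omit hK in
theorem card_Om (h9 : 9 ∣ Nat.card K) (h27 : ¬ 27 ∣ Nat.card K) : Nat.card (Om K) = Nat.card (Sylow 3 K) :=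
  Nat.card_congr (Equiv.ofBijective _ (Om.toSylow_bijective h9 h27))

/-- `K` is transitive -/
theorem exists_smul (h9 : 9 ∣ Nat.card K) (h27 : ¬ 27 ∣ Nat.card K) (Q Q' : Om K) : ∃ k ∈ K, k • Q = Q' := by
  have : Fact (Nat.Prime 3) := ⟨Nat.prime_three⟩
  obtain ⟨k, hk⟩ := MulAction.exists_smul_eq K (Q.toSylow h9 h27) (Q'.toSylow h9 h27)
  refine ⟨k, k.2, ?_⟩
  apply Om.ext
  rw [coe_smul]
  have h1 := congrArg (fun S : Sylow 3 K => (S : Subgroup K)) hk
  simp only [Sylow.coe_subgroup_smul, Om.coe_toSylow] at h1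
  ext x
  constructor
  · intro hx
    have hxK : x ∈ K := cj_le (g := (k : Γ)) Q.le hx
    have h2 : (⟨x, hxK⟩ : K) ∈ Q'.1.subgroupOf K := by
      rw [← h1]
      rw [mem_cj] at hx
      exact (mem_pointwise_smul_iff_inv_smul_mem).2 (mem_subgroupOf.2 (by
        rw [MulAut.smul_def, ← map_inv, MulAut.conj_apply]
        simpa only [_root_.inv_inv, _root_.Subgroup.coe_mul, _root_.InvMemClass.coe_inv] using hx))
    exact mem_subgroupOf.1 h2
  · intro hx
    have hxK : x ∈ K := Q'.le hx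
    have h2 : (⟨x, hxK⟩ : K) ∈ Q'.1.subgroupOf K := mem_subgroupOf.2 hx
    rw [← h1, mem_pointwise_smul_iff_inv_smul_mem] at h2
    have h3 := mem_subgroupOf.1 h2
    rw [MulAut.smul_def, ← map_inv, MulAut.conj_apply] at h3
    rw [mem_cj]
    simpa only [_root_.inv_inv, _root_.Subgroup.coe_mul, _root_.InvMemClass.coe_inv] using h3

omit hK in
/-- 3-subgroups of `K` -/
theorem exists_ge (h9 : 9 ∣ Nat.card K) (h27 : ¬ 27 ∣ Nat.card K) {W : Subgroup Γ} (hW : IsPGroup 3 W) (hWK : W ≤ K) :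
    ∃ Q : Om K, W ≤ Q.1 := by
  have : Fact (Nat.Prime 3) := ⟨Nat.prime_three⟩
  have h1 : IsPGroup 3 (W.subgroupOf K) := hW.comap_of_injective K.subtype K.subtype_injective
  obtain ⟨S, hS⟩ := h1.exists_le_sylow
  have hc : Nat.card (S : Subgroup K) = 9 := by
    rw [S.card_eq_multiplicity, fact_three h9 h27]
    norm_num
  refine ⟨⟨(S : Subgroup K).map K.subtype, map_subtype_le _, ?_⟩, ?_⟩
  · rw [card_map_of_injective K.subtype_injective, hc]
  · intro x hx
    exact ⟨⟨x, hWK hx⟩, hS (mem_subgroupOf.2 hx), rfl⟩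

omit hK in
theorem eq_of_pgroup (h9 : 9 ∣ Nat.card K) (h27 : ¬ 27 ∣ Nat.card K) {W : Subgroup Γ} (hW : IsPGroup 3 W) (hWK : W ≤ K)
    {Q : Om K} (hQ : Q.1 ≤ W) : W = Q.1 := by
  obtain ⟨Q', hQ'⟩ := exists_ge h9 h27 hW hWK
  have h1 : Q.1 = Q'.1 := eq_of_le_of_card_ge (hQ.trans hQ') (by rw [Q.card, Q'.card])
  exact le_antisymm (by rw [h1]; exact hQ') hQ

end

end Cfsg.Agent.H536.Nine
end

-- part: H536/Nine/Ctr
section
/-!
# S5227, section A: `|T ∩ K| ≠ 9`, part 3 (helper536): the centralizer of `P = T ∩ K` in `K` is `P`, `P = U1` or `U2`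
-/

set_option autoImplicit false

namespace Cfsg.Agent.H536.Nine

open Subgroup Cfsg.Agent.H776.Co

universe u

variable {Γ : Type u} [Group Γ]

/-- the situation -/
structure Ctx (T U1 U2 : Subgroup Γ) (z : Γ) (K : Subgroup Γ) : Prop extends Half T U1 U2 z where
  normal : K.Normal
  nine : Nat.card ↥(T ⊓ K) = 9
  z_memK : z ∈ K
  irr : ∃ n ∈ K, (∀ x ∈ T ⊓ K, n * x * n⁻¹ ∈ T ⊓ K) ∧ n * z * n⁻¹ ∉ zpowers z

variable {T U1 U2 K : Subgroup Γ} {z : Γ}

/-- normal `p`-complements of a central Sylow subgroup -/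
theorem central_sylow {C : Type u} [Group C] [Finite C] (Q : Subgroup C) (hQ : Nat.card Q = 9) (h27 : ¬ 27 ∣ Nat.card C)
    (hc : ∀ x ∈ Q, ∀ y, x * y = y * x) (h1 : ∀ R : Subgroup C, (∀ x, x ∈ R ↔ ¬ 3 ∣ orderOf x) → ¬ 3 ∣ Nat.card R → R ≤ ⊥) :
    Nat.card C = 9 := by
  have : Fact (Nat.Prime 3) := ⟨Nat.prime_three⟩
  have h9 : 9 ∣ Nat.card C := by rw [← hQ]; exact Q.card_subgroup_dvd_card
  have hf : (Nat.card C).factorization 3 = 2 := by
    have hpos : Nat.card C ≠ 0 := Nat.card_pos.ne'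
    apply le_antisymm
    · by_contra h
      apply h27
      have h1 : 3 ^ 3 ∣ Nat.card C := (Nat.prime_three.pow_dvd_iff_le_factorization hpos).2 (by omega)
      simpa only [_root_.Nat.reducePow] using h1
    · rw [← Nat.prime_three.pow_dvd_iff_le_factorization hpos]
      simpa using h9
  set S : Sylow 3 C := Sylow.ofCard Q (by rw [hf, hQ]; norm_num) with hS
  have hSQ : (S : Subgroup C) = Q := Sylow.coe_ofCard _ _
  have hn : normalizer ((S : Subgroup C) : Set C) ≤ centralizer ((S : Subgroup C) : Set C) := by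
    intro y _
    rw [mem_centralizer_iff]
    intro x hx
    rw [hSQ] at hx
    exact hc x hx y
  have hcomp := MonoidHom.ker_transferSylow_isComplement' S hn
  have hnd := MonoidHom.not_dvd_card_ker_transferSylow S hn
  have hker : ∀ x, x ∈ (MonoidHom.transferSylow S hn).ker ↔ ¬ 3 ∣ orderOf x := by
    intro x
    constructor
    · intro hx h3
      apply hnd
      have h4 : orderOf (⟨x, hx⟩ : (MonoidHom.transferSylow S hn).ker) ∣ Nat.card (MonoidHom.transferSylow S hn).ker :=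
        _root_.orderOf_dvd_natCard _
      rw [orderOf_mk] at h4
      exact h3.trans h4
    · intro hx
      rw [MonoidHom.mem_ker]
      set y := MonoidHom.transferSylow S hn x with hy
      have h4 : orderOf y ∣ orderOf x := orderOf_map_dvd _ x
      have h5 : orderOf y ∣ 9 := by
        rw [← hQ, ← hSQ]
        exact _root_.orderOf_dvd_natCard y
      rw [show 9 = 3 ^ 2 by norm_num] at h5
      obtain ⟨k, hk, h6⟩ := (Nat.dvd_prime_pow Nat.prime_three).1 h5
      rw [← orderOf_eq_one_iff, h6]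
      rcases Nat.eq_zero_or_pos k with rfl | hk0
      · rfl
      · exfalso
        apply hx
        refine dvd_trans ?_ h4
        rw [h6]
        exact dvd_pow_self 3 hk0.ne'
  have h2 := h1 _ hker hnd
  have h3 := hcomp.card_mul
  rw [le_bot_iff.1 h2, card_bot, one_mul] at h3
  rw [← h3, ← hQ, ← hSQ]

namespace Ctx

variable [Finite Γ]

theorem nine_dvd (h : Ctx T U1 U2 z K) : 9 ∣ Nat.card K := Nine.nine_dvd h.nine

theorem not_27 (h : Ctx T U1 U2 z K) : ¬ 27 ∣ Nat.card K := by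
  have := h.normal
  exact Nine.not_27 h.card_T h.syl h.exp h.nine

/-- `C_K(P) = P` -/
theorem ctr (h : Ctx T U1 U2 z K) {y : Γ} (hy : y ∈ K) (hc : ∀ x ∈ T ⊓ K, x * y = y * x) : y ∈ T ⊓ K := by
  have hK := h.normal
  set P := T ⊓ K with hP
  set C : Subgroup Γ := centralizer (P : Set Γ) ⊓ K with hC
  have hPC : P ≤ C := by
    intro x hx
    refine ⟨mem_centralizer_iff.2 ?_, hx.2⟩
    intro w hw
    exact comm_of_nine h.nine hw hx
  have hcard : Nat.card C = 9 := by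
    apply central_sylow (C := C) (P.subgroupOf C)
    · rw [Nat.card_congr (subgroupOfEquivOfLe hPC).toEquiv]
      exact h.nine
    · intro h27
      exact h.not_27 (h27.trans (card_dvd_of_le inf_le_right))
    · rintro ⟨x, hx⟩ hx1 ⟨w, hw⟩
      rw [mem_subgroupOf] at hx1
      exact Subtype.ext (mem_centralizer_iff.1 hw.1 x hx1)
    · intro R hR hR3
      have h1 := h.sig (R.map C.subtype) (by
        intro t ht r hr
        obtain ⟨⟨r', hr'C⟩, hr', rfl⟩ := hr
        change t * r' * t⁻¹ ∈ _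
        have h2 : t * r' * t⁻¹ ∈ C := by
          refine ⟨mem_centralizer_iff.2 ?_, hK.conj_mem _ hr'C.2 t⟩
          intro w hw
          have h3 : t⁻¹ * w * t ∈ P := by
            refine ⟨T.mul_mem (T.mul_mem (T.inv_mem ht) hw.1) ht, ?_⟩
            have := hK.conj_mem _ hw.2 t⁻¹
            rwa [inv_inv] at this
          have h4 := mem_centralizer_iff.1 hr'C.1 _ h3
          have h5 : w * (t * r' * t⁻¹) = t * ((t⁻¹ * w * t) * r') * t⁻¹ := by group
          rw [h5, h4]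
          group
        refine ⟨⟨_, h2⟩, ?_, rfl⟩
        rw [SetLike.mem_coe, hR] at hr' ⊢
        rw [orderOf_mk] at hr' ⊢
        have h6 : orderOf (t * r' * t⁻¹) = orderOf r' := by
          have := orderOf_injective (MulAut.conj t).toMonoidHom (MulAut.conj t).injective r'
          exact this
        rw [h6]
        exact hr') (by rw [card_map_of_injective C.subtype_injective]; exact hR3)
      intro x hx
      have h2 := h1 ⟨x, hx, rfl⟩
      rw [mem_bot] at h2 ⊢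
      exact Subtype.ext h2
  have h1 : P = C := eq_of_le_of_card_ge hPC (by rw [hcard, h.nine])
  rw [h1]
  exact ⟨mem_centralizer_iff.2 hc, hy⟩

/-- `P = U1` or `P = U2` -/
theorem eq_or (h : Ctx T U1 U2 z K) : T ⊓ K = U1 ∨ T ⊓ K = U2 := by
  by_contra hne
  push Not at hne
  obtain ⟨n, hn, hnP, hnz⟩ := h.irr
  have hfin : Finite ↥(T ⊓ K) := inferInstance
  have key : ∀ {U : Subgroup Γ}, Nat.card U = 9 → z ∈ U → T ⊓ K ≠ U → T ⊓ K ⊓ U = zpowers z := by
    intro U hU hzU hne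
    have h1 : zpowers z ≤ T ⊓ K ⊓ U := zpowers_le.2 ⟨⟨h.z_mem, h.z_memK⟩, hzU⟩
    rcases card_le_nine h.nine (inf_le_left : T ⊓ K ⊓ U ≤ T ⊓ K) with h2 | h2 | h2
    · exfalso
      have h3 := card_le_of_le h1
      rw [h2, h.card_z] at h3
      omega
    · symm
      exact eq_of_le_of_card_ge h1 (by rw [h2, h.card_z])
    · exfalso
      apply hne
      have h3 : T ⊓ K ≤ U := by rw [← h2]; exact inf_le_right
      have : Finite U := Nat.finite_of_card_ne_zero (by rw [hU]; norm_num)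
      exact eq_of_le_of_card_ge h3 (by rw [hU, h.nine])
  have hz1 : n * z * n⁻¹ ∈ T ⊓ K := hnP z ⟨h.z_mem, h.z_memK⟩
  apply hnz
  rcases h.type n z (Or.inl h.z_mem1) hz1.1 with h1 | h1
  · rw [← key h.card1 h.z_mem1 hne.1]
    exact ⟨hz1, h1⟩
  · rw [← key h.card2 h.z_mem2 hne.2]
    exact ⟨hz1, h1⟩

end Ctx

/-- the situation, `P = U1` -/
structure Ctx1 (T U1 U2 : Subgroup Γ) (z : Γ) (K : Subgroup Γ) : Prop extends Ctx T U1 U2 z K where
  eq : T ⊓ K = U1

theorem Ctx1.of_ctx [Finite Γ] (h : Ctx T U1 U2 z K) : Ctx1 T U1 U2 z K ∨ Ctx1 T U2 U1 z K := by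
  rcases h.eq_or with h1 | h1
  · exact Or.inl ⟨h, h1⟩
  · exact Or.inr ⟨⟨h.toHalf.symm, h.normal, h.nine, h.z_memK, h.irr⟩, h1⟩

end Cfsg.Agent.H536.Nine
end

-- part: H536/Nine/Fix
section
/-!
# S5227, section A: `|T ∩ K| ≠ 9`, part 5 (helper536): fixed points of the elements of `T` on the Sylow subgroups of `K`
-/

set_option autoImplicit false

namespace Cfsg.Agent.H536.Nine

open Subgroup Cfsg.Agent.H776.Co

universe u

variable {Γ : Type u} [Group Γ] {T U1 U2 K : Subgroup Γ} {z : Γ}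

theorem pgroup_of_nine {Q : Subgroup Γ} (hQ : Nat.card Q = 9) : IsPGroup 3 Q := by
  apply IsPGroup.of_card (n := 2)
  rw [hQ]
  norm_num

/-- an element of order 3 normalizing a group of order 9 centralizes an element ≠ 1 -/
theorem exists_comm {Q : Subgroup Γ} (hQ : Nat.card Q = 9) {t : Γ} (ht : t ^ 3 = 1) (hn : ∀ x ∈ Q, t⁻¹ * x * t ∈ Q) :
    ∃ u ∈ Q, u ≠ 1 ∧ t * u = u * t := by
  classical
  have : Fact (Nat.Prime 3) := ⟨Nat.prime_three⟩
  have hfin : Finite Q := Nat.finite_of_card_ne_zero (by rw [hQ]; norm_num)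
  let _ := Fintype.ofFinite Q
  have h0 : t * t * t = 1 := by
    rw [← ht]
    simp only [pow_succ, pow_zero, one_mul]
  have h2 : t⁻¹ * t⁻¹ = t := by
    have h3 : t⁻¹ * t⁻¹ * (t * t * t) = t := by group
    rwa [h0, mul_one] at h3
  have h2' : t * t = t⁻¹ := eq_inv_of_mul_eq_one_left h0
  have hn' : ∀ x ∈ Q, t * x * t⁻¹ ∈ Q := by
    intro x hx
    have h3 := hn _ (hn x hx)
    have h4 : t⁻¹ * (t⁻¹ * x * t) * t = (t⁻¹ * t⁻¹) * x * (t * t) := by group
    rwa [h4, h2, h2'] at h3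
  let σ : Equiv.Perm Q :=
    { toFun := fun x => ⟨t⁻¹ * x * t, hn x x.2⟩
      invFun := fun x => ⟨t * x * t⁻¹, hn' x x.2⟩
      left_inv := fun x => Subtype.ext (by change t * (t⁻¹ * x * t) * t⁻¹ = x; group)
      right_inv := fun x => Subtype.ext (by change t⁻¹ * (t * x * t⁻¹) * t = x; group) }
  have hσ : σ ^ 3 ^ 1 = 1 := by
    ext x
    rw [pow_one]
    change t⁻¹ * (t⁻¹ * (t⁻¹ * x * t) * t) * t = x
    have h3 : t⁻¹ * (t⁻¹ * (t⁻¹ * x * t) * t) * t = (t * t * t)⁻¹ * x * (t * t * t) := by group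
    rw [h3, h0]
    simp
  have hcard : 3 ∣ Fintype.card Q := by
    rw [← Nat.card_eq_fintype_card, hQ]
    norm_num
  have hf1 : σ 1 = 1 := Subtype.ext (by change t⁻¹ * 1 * t = 1; group)
  obtain ⟨b, hb, hb1⟩ := Equiv.Perm.exists_fixed_point_of_prime' hcard hσ hf1
  refine ⟨b, b.2, fun h => hb1 (Subtype.ext h), ?_⟩
  have h3 : t⁻¹ * b * t = b := congrArg Subtype.val hb
  calc t * (b : Γ) = t * (t⁻¹ * b * t) := by rw [h3]
    _ = b * t := by group

namespace Ctx1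

theorem le_K (h : Ctx1 T U1 U2 z K) : U1 ≤ K := by
  rw [← h.eq]
  exact inf_le_right

/-- `U1` as a point -/
def P0 (h : Ctx1 T U1 U2 z K) : Om K := ⟨U1, h.le_K, h.card1⟩

variable [Finite Γ]

theorem ti_aux (h : Ctx1 T U1 U2 z K) {Q : Om K} {u : Γ} (hu : u ∈ U1) (hu' : u ∈ Q.1) (h1 : u ≠ 1) : Q = h.P0 := by
  have h2 : IsPGroup 3 ↥(U1 ⊔ Q.1) := by
    apply h.tri u (Or.inl hu) h1 U1 Q.1 (pgroup_of_nine h.card1) (pgroup_of_nine Q.card)
    · intro x hx
      exact mem_centralizer_singleton_iff.2 (comm_of_nine h.card1 hx hu)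
    · intro x hx
      exact mem_centralizer_singleton_iff.2 (comm_of_nine Q.card hx hu')
  have h3 : U1 ⊔ Q.1 ≤ K := sup_le h.le_K Q.le
  have h4 := eq_of_pgroup h.nine_dvd h.not_27 h2 h3 (Q := Q) le_sup_right
  have h5 := eq_of_pgroup h.nine_dvd h.not_27 h2 h3 (Q := h.P0) le_sup_left
  apply Om.ext
  rw [← h4, ← h5]

/-- trivial intersections -/
theorem ti (h : Ctx1 T U1 U2 z K) {Q Q' : Om K} {u : Γ} (hu : u ∈ Q.1) (hu' : u ∈ Q'.1) (h1 : u ≠ 1) : Q = Q' := by
  have hK := h.normal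
  obtain ⟨k, hk, hkQ⟩ := exists_smul h.nine_dvd h.not_27 Q h.P0
  have h2 : k * u * k⁻¹ ∈ (k • Q).1 := by
    rw [coe_smul, mem_cj]
    have : k⁻¹ * (k * u * k⁻¹) * k = u := by group
    rwa [this]
  have h3 : k * u * k⁻¹ ∈ (k • Q').1 := by
    rw [coe_smul, mem_cj]
    have : k⁻¹ * (k * u * k⁻¹) * k = u := by group
    rwa [this]
  rw [hkQ] at h2
  have h4 : k * u * k⁻¹ ≠ 1 := by
    intro h5
    apply h1
    have : k⁻¹ * (k * u * k⁻¹) * k = u := by group
    rw [← this, h5]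
    group
  have h5 := h.ti_aux h2 h3 h4
  rw [← h5] at hkQ
  exact smul_left_cancel k hkQ

omit [Finite Γ] in
theorem smul_P0 (h : Ctx1 T U1 U2 z K) {t : Γ} (ht : t ∈ T) : (have := h.normal; t • h.P0 = h.P0) := by
  have hK := h.normal
  change t • h.P0 = h.P0
  rw [smul_eq_iff]
  intro x hx
  change x ∈ U1 at hx
  change _ ∈ U1
  rw [← h.eq] at hx ⊢
  refine ⟨T.mul_mem (T.mul_mem (T.inv_mem ht) hx.1) ht, ?_⟩
  have := hK.conj_mem _ hx.2 t⁻¹
  rwa [inv_inv] at this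

/-- fixed points of the distinguished elements -/
theorem fix_dist (h : Ctx1 T U1 U2 z K) {t : Γ} (ht : t ∈ U1 ∨ t ∈ U2) (h1 : t ≠ 1) {Q : Om K}
    (hQ : have := h.normal; t • Q = Q) : Q = h.P0 := by
  have hK := h.normal
  change t • Q = Q at hQ
  rw [smul_eq_iff] at hQ
  have htT : t ∈ T := by
    rcases ht with h2 | h2
    · exact h.le1 h2
    · exact h.le2 h2
  obtain ⟨u, hu, hu1, htu⟩ := exists_comm Q.card (h.exp t htT) hQ
  have h2 : IsPGroup 3 ↥(zpowers z ⊔ zpowers u) := by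
    have hp : ∀ {w : Γ}, w ^ 3 = 1 → IsPGroup 3 (zpowers w) := by
      intro w hw
      rintro ⟨x, hx⟩
      obtain ⟨i, rfl⟩ := mem_zpowers_iff.1 hx
      refine ⟨1, Subtype.ext ?_⟩
      change (w ^ i) ^ (3 ^ 1) = 1
      rw [pow_one, ← zpow_natCast, ← zpow_mul, mul_comm, zpow_mul, zpow_natCast, hw, one_zpow]
    have hu3 : IsPGroup 3 (zpowers u) := (pgroup_of_nine Q.card).to_le (zpowers_le.2 hu)
    apply h.tri t ht h1 _ _ (hp (h.exp z h.z_mem)) hu3
    · rw [zpowers_le]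
      exact mem_centralizer_singleton_iff.2 (h.z_comm t htT).symm
    · rw [zpowers_le]
      exact mem_centralizer_singleton_iff.2 htu.symm
  have h3 : zpowers z ⊔ zpowers u ≤ K := sup_le (zpowers_le.2 h.z_memK) (zpowers_le.2 (Q.le hu))
  obtain ⟨Q', hQ'⟩ := exists_ge h.nine_dvd h.not_27 h2 h3
  have h4 : z ∈ Q'.1 := hQ' (mem_sup_left (mem_zpowers z))
  have h5 : u ∈ Q'.1 := hQ' (mem_sup_right (mem_zpowers u))
  have h6 := h.ti_aux h.z_mem1 h4 h.z_ne
  rw [h6] at h5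
  exact h.ti_aux h5 hu hu1

end Ctx1

end Cfsg.Agent.H536.Nine
end

private theorem dce_b3b999e1a064 : _root_.True := by
  try have : _root_.True := by simp only [_root_.Cfsg.Agent.H536.Nine.Om.toSylow.congr_simp]
  exact _root_.True.intro
end

-- part: H300/Co/Base
section
set_option linter.all false
open scoped Cfsg.Agent.FastGrp

/-!
# Basic linear algebra of `T = 3^{1+2}` on `V = F₃⁶` (for TEAM S5227)
-/

set_option autoImplicit false
set_option linter.style.longLine false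

namespace Cfsg.Agent.H300.Co

open Cfsg.Agent.H776.Co.Lin Subgroup

/-- the first basis vector -/
def e0 : V := ![1, 0, 0, 0, 0, 0]

instance finiteL : Finite L :=
  Finite.of_injective (fun f : L => (f : V → V)) DFunLike.coe_injective

/-- the nilpotent part -/
theorem tf_sub (a b c : ZMod 3) (v : V) : tf a b c v - v =
    ![2 * a * v 1 + 2 * c * v 3 + a ^ 2 * v 2 + 2 * a * c * v 4 + c ^ 2 * v 5,
      a * v 2 + c * v 4 + b * (v 3 + a * v 4 + c * v 5), 2 * b * v 4 + b ^ 2 * v 5, a * v 4 + c * v 5, b * v 5, 0] := by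
  funext i
  (revert i; simp only [tf, Matrix.vecHead, Matrix.vecTail, _root_.Fin.forall_fin_succ, Fin.isValue, _root_.Pi.sub_apply, _root_.Nat.succ_eq_add_one, Nat.reduceAdd, _root_.Matrix.cons_val_zero, _root_.Matrix.cons_val_succ, _root_.Fin.succ_zero_eq_one, _root_.Fin.succ_one_eq_two, Fin.reduceSucc, _root_.add_sub_cancel_left, _root_.Matrix.cons_val_fin_one, _root_.sub_self, _root_.IsEmpty.forall_iff, _root_.and_self, _root_.and_true]) <;> (repeat' with_reducible apply And.intro) <;> ring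

theorem tl_mem_T (a b c : ZMod 3) : tl a b c ∈ T := ⟨a, b, c, rfl⟩

theorem tf_e0 (a b c : ZMod 3) : tf a b c e0 = e0 := by
  funext i
  (revert i; simp [tf, e0, _root_.Fin.forall_fin_succ])

/-- `tl` is injective -/
theorem tl_inj {a b c a' b' c' : ZMod 3} (h : tl a b c = tl a' b' c') : a = a' ∧ b = b' ∧ c = c' := by
  have h1 : ∀ v, tf a b c v = tf a' b' c' v := fun v => by
    rw [← tl_apply, ← tl_apply, h]
  have h2 := congrFun (h1 ![0, 0, 0, 0, 1, 0]) 3
  have h3 := congrFun (h1 ![0, 0, 0, 0, 0, 1]) 4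
  have h4 := congrFun (h1 ![0, 0, 0, 0, 0, 1]) 3
  simp [tf] at h2 h3 h4
  exact ⟨h2, h3, h4⟩

theorem tl_pow_three (a b c : ZMod 3) : (tl a b c) ^ 3 = 1 := by
  rw [pow_succ, pow_two, tl_mul, tl_mul, ← tl_one]
  congr 1
  · revert a; decide
  · revert b; decide
  · revert a b c; decide

/-- coordinates of `T` -/
def equivT : ZMod 3 × ZMod 3 × ZMod 3 ≃ T where
  toFun x := ⟨tl x.1 x.2.1 x.2.2, _, _, _, rfl⟩
  invFun g := (g.1 ![0, 0, 0, 0, 1, 0] 3, g.1 ![0, 0, 0, 0, 0, 1] 4, g.1 ![0, 0, 0, 0, 0, 1] 3)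
  left_inv x := by
    simp [tf]
  right_inv g := by
    obtain ⟨g, a, b, c, rfl⟩ := g
    apply Subtype.ext
    simp [tf]

theorem card_T : Nat.card T = 27 := by
  rw [← Nat.card_congr equivT]
  simp

/-- coordinates of `U2` -/
def equivU2 : ZMod 3 × ZMod 3 ≃ U2 where
  toFun x := ⟨tl x.1 0 x.2, _, _, rfl⟩
  invFun g := (g.1 ![0, 0, 0, 0, 1, 0] 3, g.1 ![0, 0, 0, 0, 0, 1] 3)
  left_inv x := by
    simp [tf]
  right_inv g := by
    obtain ⟨g, a, c, rfl⟩ := g
    apply Subtype.ext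
    simp [tf]

theorem card_U2 : Nat.card U2 = 9 := by
  rw [← Nat.card_congr equivU2]
  simp

theorem isPGroup_T : IsPGroup 3 T := IsPGroup.of_card (n := 3) (by rw [card_T]; norm_num)

theorem U2_le_T : U2 ≤ T := by
  rintro _ ⟨a, c, rfl⟩
  exact tl_mem_T _ _ _

/-- `(x - 1)^2` for `x = tl a 0 c` -/
theorem sq_U2 (a c : ZMod 3) (v : V) :
    tf a 0 c (tf a 0 c v) + tf a 0 c v + v = (2 * (a ^ 2 * v 2 + 2 * a * c * v 4 + c ^ 2 * v 5)) • e0 := by
  have h3 : (3 : ZMod 3) = 0 := by decide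
  funext i
  (revert i; simp only [tf, e0, _root_.Fin.forall_fin_succ, Fin.isValue, _root_.MulZeroClass.zero_mul, _root_.add_zero, _root_.MulZeroClass.mul_zero, _root_.ne_eq, _root_.OfNat.ofNat_ne_zero, _root_.not_false_eq_true, _root_.zero_pow, _root_.Matrix.cons_val_zero, _root_.Matrix.cons_val_one, _root_.Matrix.cons_val, _root_.Matrix.add_cons, _root_.Matrix.head_cons, _root_.Matrix.tail_cons, _root_.Matrix.empty_add_empty, _root_.Pi.add_apply, _root_.Pi.smul_apply, _root_.smul_eq_mul, _root_.mul_one, _root_.Matrix.cons_val_succ, _root_.Fin.succ_zero_eq_one, _root_.Fin.succ_one_eq_two, Fin.reduceSucc, _root_.Matrix.cons_val_fin_one, _root_.IsEmpty.forall_iff, _root_.and_true, _root_.true_and]) <;> (repeat' with_reducible apply And.intro)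
  · linear_combination (v 0 + 2 * a * v 1 + 2 * c * v 3 + a ^ 2 * v 2 + 2 * a * c * v 4 + c ^ 2 * v 5) * h3
  · linear_combination (v 1 + a * v 2 + c * v 4) * h3
  · linear_combination (v 2) * h3
  · linear_combination (v 3 + a * v 4 + c * v 5) * h3
  · linear_combination (v 4) * h3
  · linear_combination (v 5) * h3

/-- `(x - 1)^2` for `x = tl 0 b c` -/
theorem sq_U1 (b c : ZMod 3) (v : V) :
    tf 0 b c (tf 0 b c v) + tf 0 b c v + v = (v 5) • ![2 * c ^ 2, 2 * b * c, 2 * b ^ 2, 0, 0, 0] := by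
  have h3 : (3 : ZMod 3) = 0 := by decide
  funext i
  (revert i; simp only [tf, _root_.Fin.forall_fin_succ, Fin.isValue, _root_.MulZeroClass.mul_zero, _root_.MulZeroClass.zero_mul, _root_.add_zero, _root_.ne_eq, _root_.OfNat.ofNat_ne_zero, _root_.not_false_eq_true, _root_.zero_pow, _root_.Matrix.cons_val_zero, _root_.Matrix.cons_val_one, _root_.Matrix.cons_val, _root_.Matrix.add_cons, _root_.Matrix.head_cons, _root_.Matrix.tail_cons, _root_.Matrix.empty_add_empty, _root_.Pi.add_apply, _root_.Nat.succ_eq_add_one, Nat.reduceAdd, _root_.Pi.smul_apply, _root_.smul_eq_mul, _root_.Matrix.cons_val_succ, _root_.Fin.succ_zero_eq_one, _root_.Fin.succ_one_eq_two, Fin.reduceSucc, _root_.Matrix.cons_val_fin_one, _root_.IsEmpty.forall_iff, _root_.and_true, _root_.true_and]) <;> (repeat' with_reducible apply And.intro)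
  · linear_combination (v 0 + 2 * c * v 3 + c ^ 2 * v 5) * h3
  · linear_combination (v 1 + c * v 4 + b * v 3 + b * c * v 5) * h3
  · linear_combination (v 2 + 2 * b * v 4 + b ^ 2 * v 5) * h3
  · linear_combination (v 3 + c * v 5) * h3
  · linear_combination (v 4 + b * v 5) * h3
  · linear_combination (v 5) * h3

/-- a nonzero `T`-invariant subspace contains `e0` -/
theorem e0_mem {W : Submodule (ZMod 3) V} (hT : ∀ t ∈ T, ∀ w ∈ W, t w ∈ W) {v : V} (hv : v ∈ W) (h0 : v ≠ 0) : e0 ∈ W := by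
  have hN : ∀ a b c, ∀ w ∈ W, tf a b c w - w ∈ W := fun a b c w hw => by
    rw [← tl_apply]
    exact W.sub_mem (hT _ (tl_mem_T a b c) w hw) hw
  have key : ∀ s : ZMod 3, s ≠ 0 → s • e0 ∈ W → e0 ∈ W := by
    intro s hs h
    have h1 := W.smul_mem s⁻¹ h
    rwa [smul_smul, inv_mul_cancel₀ hs, one_smul] at h1
  have h2 : (2 : ZMod 3) ≠ 0 := by decide
  by_cases h5 : v 5 = 0
  · by_cases h4 : v 4 = 0
    · by_cases h3 : v 3 = 0
      · by_cases h22 : v 2 = 0
        · by_cases h1 : v 1 = 0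
          · refine key (v 0) ?_ ?_
            · intro h00
              apply h0
              funext i
              fin_cases i <;> simp [*]
            · have : v 0 • e0 = v := by
                funext i
                fin_cases i <;> simp [e0, h1, h22, h3, h4, h5]
              rwa [this]
          · refine key (2 * v 1) (mul_ne_zero h2 h1) ?_
            have : (2 * v 1) • e0 = tf 1 0 0 v - v := by
              rw [tf_sub]
              funext i
              (revert i; simp only [e0, h22, h3, h4, h5, _root_.Fin.forall_fin_succ, Fin.isValue, _root_.Pi.smul_apply, _root_.smul_eq_mul, _root_.Nat.succ_eq_add_one, Nat.reduceAdd, _root_.mul_one, _root_.MulZeroClass.mul_zero, _root_.add_zero, _root_.one_pow, _root_.ne_eq, _root_.OfNat.ofNat_ne_zero, _root_.not_false_eq_true, _root_.zero_pow, _root_.Matrix.cons_val_zero, _root_.Matrix.cons_val_succ, _root_.Matrix.cons_val_fin_one, _root_.implies_true, _root_.and_self])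
            rw [this]
            exact hN _ _ _ _ hv
        · refine key (2 * v 2) (mul_ne_zero h2 h22) ?_
          have : (2 * v 2) • e0 = tf 1 0 0 (tf 1 0 0 v - v) - (tf 1 0 0 v - v) := by
            rw [tf_sub, tf_sub]
            funext i
            (revert i; simp only [e0, h3, h4, h5, _root_.Fin.forall_fin_succ, Fin.isValue, _root_.Pi.smul_apply, _root_.smul_eq_mul, _root_.Nat.succ_eq_add_one, Nat.reduceAdd, _root_.mul_one, _root_.MulZeroClass.mul_zero, _root_.add_zero, _root_.one_pow, _root_.one_mul, _root_.ne_eq, _root_.OfNat.ofNat_ne_zero, _root_.not_false_eq_true, _root_.zero_pow, _root_.Matrix.cons_val_one, _root_.Matrix.cons_val_zero, _root_.Matrix.cons_val, _root_.Matrix.cons_val_succ, _root_.Matrix.cons_val_fin_one, _root_.implies_true, _root_.and_self])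
          rw [this]
          exact hN _ _ _ _ (hN _ _ _ _ hv)
      · refine key (2 * v 3) (mul_ne_zero h2 h3) ?_
        have : (2 * v 3) • e0 = tf 0 0 1 v - v := by
          rw [tf_sub]
          funext i
          (revert i; simp only [e0, h4, h5, _root_.Fin.forall_fin_succ, Fin.isValue, _root_.Pi.smul_apply, _root_.smul_eq_mul, _root_.Nat.succ_eq_add_one, Nat.reduceAdd, _root_.MulZeroClass.mul_zero, _root_.MulZeroClass.zero_mul, _root_.mul_one, _root_.zero_add, _root_.ne_eq, _root_.OfNat.ofNat_ne_zero, _root_.not_false_eq_true, _root_.zero_pow, _root_.add_zero, _root_.one_pow, _root_.Matrix.cons_val_zero, _root_.Matrix.cons_val_succ, _root_.Matrix.cons_val_fin_one, _root_.implies_true, _root_.and_self])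
        rw [this]
        exact hN _ _ _ _ hv
    · refine key (2 * v 4) (mul_ne_zero h2 h4) ?_
      have : (2 * v 4) • e0 = tf 1 0 0 (tf 0 0 1 v - v) - (tf 0 0 1 v - v) := by
        rw [tf_sub, tf_sub]
        funext i
        (revert i; simp only [e0, h5, _root_.Fin.forall_fin_succ, Fin.isValue, _root_.Pi.smul_apply, _root_.smul_eq_mul, _root_.Nat.succ_eq_add_one, Nat.reduceAdd, _root_.mul_one, _root_.MulZeroClass.mul_zero, _root_.MulZeroClass.zero_mul, _root_.zero_add, _root_.ne_eq, _root_.OfNat.ofNat_ne_zero, _root_.not_false_eq_true, _root_.zero_pow, _root_.add_zero, _root_.one_pow, _root_.one_mul, _root_.Matrix.cons_val_one, _root_.Matrix.cons_val_zero, _root_.Matrix.cons_val, _root_.Matrix.cons_val_succ, _root_.Matrix.cons_val_fin_one, _root_.implies_true, _root_.and_self])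
      rw [this]
      exact hN _ _ _ _ (hN _ _ _ _ hv)
  · refine key (2 * v 5) (mul_ne_zero h2 h5) ?_
    have : (2 * v 5) • e0 = tf 0 0 1 (tf 0 0 1 v - v) - (tf 0 0 1 v - v) := by
      rw [tf_sub, tf_sub]
      funext i
      (revert i; simp only [e0, _root_.Fin.forall_fin_succ, Fin.isValue, _root_.Pi.smul_apply, _root_.smul_eq_mul, _root_.Nat.succ_eq_add_one, Nat.reduceAdd, _root_.MulZeroClass.mul_zero, _root_.MulZeroClass.zero_mul, _root_.mul_one, _root_.zero_add, _root_.ne_eq, _root_.OfNat.ofNat_ne_zero, _root_.not_false_eq_true, _root_.zero_pow, _root_.add_zero, _root_.one_pow, _root_.one_mul, _root_.Matrix.cons_val_one, _root_.Matrix.cons_val_zero, _root_.Matrix.cons_val, _root_.Matrix.cons_val_succ, _root_.Matrix.cons_val_fin_one, _root_.implies_true, _root_.and_self])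
    rw [this]
    exact hN _ _ _ _ (hN _ _ _ _ hv)

end Cfsg.Agent.H300.Co

private theorem dce_4555d0f15566 : _root_.True := by
  try have : _root_.True := by simp only [_root_.Cfsg.Agent.H300.Co.e0.eq_1]
  exact _root_.True.intro
end

-- part: H300/Co/Sig
section
set_option linter.all false
open scoped Cfsg.Agent.FastGrp

/-!
# `3'`-subgroups of `L` normalised by `T` are scalar (TEAM S5227, task 3752)
-/

set_option autoImplicit false
set_option linter.style.longLine false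

namespace Cfsg.Agent.H300.Co

open Cfsg.Agent.H776.Co.Lin Subgroup

/-- the stabiliser of the line `W1` -/
def S1 : Subgroup L where
  carrier := {g | ∃ s : ZMod 3, g e0 = s • e0}
  mul_mem' := by
    rintro g h ⟨s, hs⟩ ⟨t, ht⟩
    refine ⟨t * s, ?_⟩
    show g (h e0) = _
    rw [ht, map_smul, hs, smul_smul]
  one_mem' := ⟨1, by simp⟩
  inv_mem' := by
    rintro g ⟨s, hs⟩
    have h0 : s ≠ 0 := by
      rintro rfl
      rw [zero_smul] at hs
      have h1 : e0 = 0 := g.injective (by rw [hs, map_zero])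
      have h2 := congrFun h1 0
      simp only [e0, _root_.Fin.isValue, _root_.Matrix.cons_val_zero, _root_.Pi.zero_apply, _root_.one_ne_zero] at h2
    refine ⟨s⁻¹, ?_⟩
    apply g.injective
    show (g * g⁻¹) e0 = _
    rw [mul_inv_cancel, map_smul, hs, smul_smul, inv_mul_cancel₀ h0, one_smul]
    rfl

/-- the stabiliser of the vector `e0` -/
def S0 : Subgroup L where
  carrier := {g | g e0 = e0}
  mul_mem' := by
    rintro g h hg hh
    show g (h e0) = _
    rw [show h e0 = e0 from hh, show g e0 = e0 from hg]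
  one_mem' := rfl
  inv_mem' := by
    rintro g hg
    apply g.injective
    show (g * g⁻¹) e0 = _
    rw [mul_inv_cancel, show g e0 = e0 from hg]
    rfl

theorem mem_S1 {g : L} : g ∈ S1 ↔ ∃ s : ZMod 3, g e0 = s • e0 := Iff.rfl

theorem e0_ne : e0 ≠ 0 := by
  intro h
  have h2 := congrFun h 0
  simp only [e0, _root_.Fin.isValue, _root_.Matrix.cons_val_zero, _root_.Pi.zero_apply, _root_.one_ne_zero] at h2

/-- elements commuting with a nontrivial element of `U2` preserve `W1` -/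
theorem mem_S1_of_comm {r : L} {a c : ZMod 3} (hac : a ≠ 0 ∨ c ≠ 0) (h : r * tl a 0 c = tl a 0 c * r) : r ∈ S1 := by
  obtain ⟨w, hw⟩ : ∃ w : V, 2 * (a ^ 2 * w 2 + 2 * a * c * w 4 + c ^ 2 * w 5) = 1 := by
    by_cases ha : a = 0
    · have hc : c ≠ 0 := by tauto
      refine ⟨![0, 0, 0, 0, 0, 2], ?_⟩
      subst ha
      have key : ∀ c : ZMod 3, c ≠ 0 → 2 * (c ^ 2 * 2) = 1 := by decide
      simpa only [_root_.ne_eq, _root_.OfNat.ofNat_ne_zero, _root_.not_false_eq_true, _root_.zero_pow, _root_.Fin.isValue, _root_.Matrix.cons_val, _root_.MulZeroClass.mul_zero, _root_.MulZeroClass.zero_mul, _root_.add_zero, _root_.zero_add] using key c hc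
    · refine ⟨![0, 0, 2, 0, 0, 0], ?_⟩
      have key : ∀ c : ZMod 3, c ≠ 0 → 2 * (c ^ 2 * 2) = 1 := by decide
      simpa only [_root_.Fin.isValue, _root_.Matrix.cons_val, _root_.MulZeroClass.mul_zero, _root_.add_zero] using key a ha
  have h1 := sq_U2 a c w
  rw [hw, one_smul] at h1
  have h2 : ∀ v, r (tf a 0 c v) = tf a 0 c (r v) := fun v => by
    have := LinearEquiv.congr_fun h v
    exact this
  rw [mem_S1]
  refine ⟨2 * (a ^ 2 * (r w) 2 + 2 * a * c * (r w) 4 + c ^ 2 * (r w) 5), ?_⟩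
  rw [← sq_U2 a c (r w), ← h2, ← h2, ← map_add, ← map_add, h1]

theorem R_le_S1 (R : Subgroup L) (hT : ∀ t ∈ T, ∀ r ∈ R, t * r * t⁻¹ ∈ R) (h3 : ¬ 3 ∣ Nat.card R) : R ≤ S1 := by
  have hp : Fact (Nat.Prime 3) := ⟨Nat.prime_three⟩
  have hA : Cfsg.IsElementaryAbelian 3 U2 := by
    refine ⟨⟨⟨?_⟩⟩, ?_⟩
    · rintro ⟨_, a, c, rfl⟩ ⟨_, a', c', rfl⟩
      apply Subtype.ext
      show tl a 0 c * tl a' 0 c' = tl a' 0 c' * tl a 0 c
      rw [tl_mul, tl_mul]
      congr 1 <;> ring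
    · rintro _ ⟨a, c, rfl⟩
      exact tl_pow_three _ _ _
  have hA1 : U2 ≠ ⊥ := by
    intro h
    have := card_U2
    rw [h] at this
    simp at this
  have hAQ : U2 ≤ normalizer (R : Set L) := by
    intro t ht
    have ht' := U2_le_T ht
    rw [mem_normalizer_iff]
    intro r
    refine ⟨fun h => hT t ht' r h, fun h => ?_⟩
    have := hT t⁻¹ (T.inv_mem ht') _ h
    simpa only [mul_assoc, _root_.inv_mul_cancel_left, _root_.inv_inv, _root_.inv_mul_cancel, _root_.mul_one] using this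
  rw [← Cfsg.Agent.Lib.CoprimeHyperplane.iSup_centralizer_hyperplane hA hA1 h3 hAQ]
  refine iSup_le ?_
  rintro ⟨B, hB, hB3⟩ r ⟨-, hr⟩
  have hne : B ≠ ⊥ := by
    rintro rfl
    rw [Subgroup.relIndex_bot_left, card_U2] at hB3
    omega
  have hnt : Nontrivial B := (Subgroup.nontrivial_iff_ne_bot B).2 hne
  obtain ⟨⟨u, hu⟩, hu1⟩ := exists_ne (1 : B)
  obtain ⟨a, c, rfl⟩ := hB hu
  have hac : a ≠ 0 ∨ c ≠ 0 := by
    by_contra hcon
    push Not at hcon
    apply hu1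
    apply Subtype.ext
    show tl a 0 c = 1
    rw [hcon.1, hcon.2, tl_one]
  exact mem_S1_of_comm hac (mem_centralizer_iff.1 hr _ hu).symm

/-- `3'`-subgroups fixing `e0` and normalised by `T` are trivial -/
theorem eq_one_of_S0 (R : Subgroup L) (hT : ∀ t ∈ T, ∀ r ∈ R, t * r * t⁻¹ ∈ R) (h3 : ¬ 3 ∣ Nat.card R) (h0 : R ≤ S0) :
    R = ⊥ := by
  have hp : Fact (Nat.Prime 3) := ⟨Nat.prime_three⟩
  have := Fintype.ofFinite R
  let W : Submodule (ZMod 3) V :=
    { carrier := {v | ∑ r : R, (r : L) v = 0}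
      add_mem' := by
        intro u v hu hv
        show ∑ r : R, (r : L) (u + v) = 0
        simp only [map_add, Finset.sum_add_distrib]
        rw [show ∑ r : R, (r : L) u = 0 from hu, show ∑ r : R, (r : L) v = 0 from hv, add_zero]
      zero_mem' := by
        show ∑ r : R, (r : L) 0 = 0
        simp only [_root_.map_zero, _root_.Finset.sum_const_zero]
      smul_mem' := by
        intro s v hv
        show ∑ r : R, (r : L) (s • v) = 0
        simp only [map_smul]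
        rw [← Finset.smul_sum, show ∑ r : R, (r : L) v = 0 from hv, smul_zero] }
  have hW : ∀ t ∈ T, ∀ w ∈ W, t w ∈ W := by
    intro t ht w hw
    show ∑ r : R, (r : L) (t w) = 0
    have h1 : ∀ r : R, (r : L) (t w) = t ((t⁻¹ * r * t) w) := by
      intro r
      show _ = (t * (t⁻¹ * r * t)) w
      rw [show t * (t⁻¹ * r * t) = (r : L) * t by group]
      rfl
    simp only [h1]
    rw [← map_sum]
    let e : R ≃ R :=
      { toFun := fun r => ⟨t⁻¹ * r * t, by simpa only [_root_.inv_inv] using hT t⁻¹ (T.inv_mem ht) r r.2⟩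
        invFun := fun r => ⟨t * r * t⁻¹, hT t ht r r.2⟩
        left_inv := fun r => Subtype.ext (by simp only [mul_assoc, _root_.mul_inv_cancel_left, _root_.mul_inv_cancel, _root_.mul_one])
        right_inv := fun r => Subtype.ext (by simp only [mul_assoc, _root_.inv_mul_cancel_left, _root_.inv_mul_cancel, _root_.mul_one]) }
    have h2 : ∑ r : R, (t⁻¹ * (r : L) * t) w = ∑ r : R, (r : L) w :=
      Fintype.sum_equiv e _ _ (fun r => rfl)
    rw [h2, show ∑ r : R, (r : L) w = 0 from hw, map_zero]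
  have hbot : ∀ v ∈ W, v = 0 := by
    intro v hv
    by_contra hne
    have h1 : ∑ r : R, (r : L) e0 = 0 := e0_mem hW hv hne
    have h2 : ∀ r : R, (r : L) e0 = e0 := fun r => h0 r.2
    simp only [h2] at h1
    rw [Finset.sum_const, Finset.card_univ, ← Nat.card_eq_fintype_card] at h1
    have h4 := congrFun h1 0
    simp only [e0, _root_.Nat.card_eq_fintype_card, _root_.Fin.isValue, _root_.Pi.smul_apply, _root_.Matrix.cons_val_zero, _root_.nsmul_eq_mul, _root_.mul_one, _root_.Pi.zero_apply] at h4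
    exact h3 (by rw [Nat.card_eq_fintype_card]; exact (ZMod.natCast_eq_zero_iff _ _).1 h4)
  rw [eq_bot_iff]
  intro s hs
  rw [mem_bot]
  refine LinearEquiv.ext fun v => ?_
  have h1 : s v - v ∈ W := by
    show ∑ r : R, (r : L) (s v - v) = 0
    simp only [map_sub, Finset.sum_sub_distrib]
    rw [sub_eq_zero]
    exact Fintype.sum_equiv (Equiv.mulRight ⟨s, hs⟩) _ _ (fun r => rfl)
  have h2 := hbot _ h1
  rw [sub_eq_zero] at h2
  exact h2

/-- **task 3752**: `3'`-subgroups normalised by `T` are scalar. -/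
theorem sig (R : Subgroup L) (hT : ∀ t ∈ T, ∀ r ∈ R, t * r * t⁻¹ ∈ R) (h3 : ¬ 3 ∣ Nat.card R) :
    ∀ r ∈ R, (∀ v, r v = v) ∨ (∀ v, r v = -v) := by
  have hR1 := R_le_S1 R hT h3
  have h0 : R ⊓ S0 = ⊥ := by
    refine eq_one_of_S0 _ ?_ ?_ inf_le_right
    · rintro t ht r ⟨hr, hr0⟩
      refine ⟨hT t ht r hr, ?_⟩
      obtain ⟨a, b, c, rfl⟩ := ht
      have ht0 : tl a b c ∈ S0 := tf_e0 a b c
      exact S0.mul_mem (S0.mul_mem ht0 hr0) (S0.inv_mem ht0)
    · intro h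
      exact h3 (h.trans (card_dvd_of_le inf_le_left))
  intro r hr
  obtain ⟨s, hs⟩ := hR1 hr
  have hinj : ∀ g ∈ R, g e0 = e0 → g = 1 := fun g hg h => by
    have : g ∈ R ⊓ S0 := ⟨hg, h⟩
    rwa [h0, mem_bot] at this
  have hs0 : s ≠ 0 := by
    rintro rfl
    rw [zero_smul] at hs
    exact e0_ne (r.injective (by rw [hs, map_zero]))
  -- `r` commutes with `T`
  have hcomm : ∀ t ∈ T, t * r = r * t := by
    intro t ht
    have ht' := ht
    obtain ⟨a, b, c, rfl⟩ := ht'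
    have h1 : r⁻¹ * (tl a b c * r * (tl a b c)⁻¹) = 1 := by
      refine hinj _ (R.mul_mem (R.inv_mem hr) (hT _ ht r hr)) ?_
      apply r.injective
      show (r * (r⁻¹ * (tl a b c * r * (tl a b c)⁻¹))) e0 = r e0
      rw [mul_inv_cancel_left, tl_inv]
      show tf a b c (r (tf (-a) (-b) (-c + a * b) e0)) = _
      rw [tf_e0, hs, ← tl_apply, map_smul, tl_apply, tf_e0]
    rw [inv_mul_eq_one] at h1
    exact (mul_inv_eq_iff_eq_mul.1 h1.symm)
  have hcases : s = 1 ∨ s = -1 := by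
    have key : ∀ s : ZMod 3, s ≠ 0 → s = 1 ∨ s = -1 := by decide
    exact key s hs0
  rcases hcases with rfl | rfl
  · left
    rw [one_smul] at hs
    have := hinj r hr hs
    intro v
    rw [this]
    rfl
  · right
    have hr2 : ∀ v, r (r v) = v := by
      have : r * r = 1 := hinj _ (R.mul_mem hr hr) (by
        show r (r e0) = e0
        rw [hs, map_smul, hs, smul_smul]
        simp)
      intro v
      exact LinearEquiv.congr_fun this v
    let W : Submodule (ZMod 3) V :=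
      { carrier := {v | r v = v}
        add_mem' := by
          intro u v hu hv
          show r (u + v) = u + v
          rw [map_add, show r u = u from hu, show r v = v from hv]
        zero_mem' := map_zero r
        smul_mem' := by
          intro c v hv
          show r (c • v) = c • v
          rw [map_smul, show r v = v from hv] }
    have hW : ∀ t ∈ T, ∀ w ∈ W, t w ∈ W := by
      intro t ht w hw
      show (r * t) w = t w
      rw [← hcomm t ht]
      show t (r w) = t w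
      rw [show r w = w from hw]
    intro v
    have h1 : v + r v ∈ W := by
      show r (v + r v) = v + r v
      rw [map_add, hr2, add_comm]
    by_contra hne
    have h2 : v + r v ≠ 0 := fun h => hne (by rw [add_comm] at h; exact eq_neg_of_add_eq_zero_left h)
    have h3' : r e0 = e0 := e0_mem hW h1 h2
    rw [hs] at h3'
    have h4 := congrFun h3' 0
    simp [e0] at h4
    revert h4
    decide

end Cfsg.Agent.H300.Co
end

-- part: H300/Co/Tri
section
set_option linter.all false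
open scoped Cfsg.Agent.FastGrp

/-!
# Types of elements of `T` and centralizers of transvection-type elements (TEAM S5227, task 3753)
-/

set_option autoImplicit false
set_option linter.style.longLine false

namespace Cfsg.Agent.H300.Co

open Cfsg.Agent.H776.Co.Lin Subgroup

/-! ### `type` and `not_conj` -/

theorem type_aux (a b c s t : ZMod 3) (e : V)
    (hs : tf a b c (tf a b c ![0, 0, 1, 0, 0, 0]) + tf a b c ![0, 0, 1, 0, 0, 0] + ![0, 0, 1, 0, 0, 0] = s • e)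
    (ht : tf a b c (tf a b c ![0, 0, 0, 0, 0, 1]) + tf a b c ![0, 0, 0, 0, 0, 1] + ![0, 0, 0, 0, 0, 1] = t • e) :
    a = 0 ∨ b = 0 := by
  have hs0 := congrFun hs 0
  have hs2 := congrFun hs 2
  have ht2 := congrFun ht 2
  simp only [tf, _root_.Nat.succ_eq_add_one, _root_.Nat.reduceAdd, _root_.Fin.isValue, _root_.Matrix.cons_val_zero, _root_.Matrix.cons_val_one, _root_.MulZeroClass.mul_zero, _root_.add_zero, _root_.Matrix.cons_val, _root_.mul_one, _root_.zero_add, _root_.Matrix.add_cons, _root_.Matrix.head_cons, _root_.Matrix.tail_cons, _root_.Matrix.empty_add_empty, _root_.Pi.add_apply, _root_.Pi.smul_apply, _root_.smul_eq_mul] at hs0 hs2 ht2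
  have key : ∀ a b s t p q : ZMod 3, a ^ 2 + 2 * a * a + a ^ 2 + a ^ 2 = s * p → 1 + 1 + 1 = s * q →
      b ^ 2 + 2 * b * b + b ^ 2 + b ^ 2 = t * q → a = 0 ∨ b = 0 := by decide +kernel
  exact key a b s t _ _ hs0 hs2 ht2

theorem type (g x : L) (hx : x ∈ U1 ∨ x ∈ U2) (hg : g * x * g⁻¹ ∈ T) : g * x * g⁻¹ ∈ U1 ∨ g * x * g⁻¹ ∈ U2 := by
  -- `(x-1)^2` has rank `≤ 1`
  obtain ⟨e, he⟩ : ∃ e : V, ∀ v, ∃ s : ZMod 3, x (x v) + x v + v = s • e := by
    rcases hx with ⟨b, c, rfl⟩ | ⟨a, c, rfl⟩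
    · exact ⟨_, fun v => ⟨_, sq_U1 b c v⟩⟩
    · exact ⟨_, fun v => ⟨_, sq_U2 a c v⟩⟩
  obtain ⟨a, b, c, hy⟩ := hg
  have h1 : ∀ v, ∃ s : ZMod 3, tf a b c (tf a b c v) + tf a b c v + v = s • g e := by
    intro v
    obtain ⟨s, hs⟩ := he (g⁻¹ v)
    refine ⟨s, ?_⟩
    rw [← map_smul, ← hs, map_add, map_add]
    have h2 : ∀ w, tf a b c w = g (x (g⁻¹ w)) := fun w => by
      rw [← tl_apply, ← hy]
      rfl
    have h3 : ∀ w, g⁻¹ (g w) = w := fun w => by
      show (g⁻¹ * g) w = w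
      rw [inv_mul_cancel]
      rfl
    have h4 : g (g⁻¹ v) = v := by
      show (g * g⁻¹) v = v
      rw [mul_inv_cancel]
      rfl
    rw [h2 (tf a b c v), h2 v, h3, h4]
  obtain ⟨s, hs⟩ := h1 ![0, 0, 1, 0, 0, 0]
  obtain ⟨t, ht⟩ := h1 ![0, 0, 0, 0, 0, 1]
  rw [hy]
  rcases type_aux a b c s t _ hs ht with rfl | rfl
  · exact Or.inl ⟨_, _, rfl⟩
  · exact Or.inr ⟨_, _, rfl⟩

theorem not_conj_aux (a c a' c' : ZMod 3) (hdet : a * c' - a' * c ≠ 0) (v : V) (h1 : tf a 0 c v = v) (h2 : tf a' 0 c' v = v) :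
    ∀ i, i ≠ 0 → v i = 0 := by
  have e1 : tf a 0 c v - v = 0 := by rw [h1, sub_self]
  have e2 : tf a' 0 c' v - v = 0 := by rw [h2, sub_self]
  rw [tf_sub] at e1 e2
  have f0 := congrFun e1 0
  have f1 := congrFun e1 1
  have f3 := congrFun e1 3
  have g0 := congrFun e2 0
  have g1 := congrFun e2 1
  have g3 := congrFun e2 3
  simp only [_root_.Nat.succ_eq_add_one, _root_.Nat.reduceAdd, _root_.Fin.isValue, _root_.MulZeroClass.zero_mul, _root_.add_zero, _root_.MulZeroClass.mul_zero, _root_.ne_eq, _root_.OfNat.ofNat_ne_zero, _root_.not_false_eq_true, _root_.zero_pow, _root_.Matrix.cons_val_zero, _root_.Pi.zero_apply, _root_.Matrix.cons_val_one, _root_.Matrix.cons_val] at f0 f1 f3 g0 g1 g3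
  have det : ∀ x y : ZMod 3, a * x + c * y = 0 → a' * x + c' * y = 0 → x = 0 ∧ y = 0 := by
    intro x y hx hy
    constructor
    · refine (mul_eq_zero.1 (?_ : (a * c' - a' * c) * x = 0)).resolve_left hdet
      linear_combination c' * hx - c * hy
    · refine (mul_eq_zero.1 (?_ : (a * c' - a' * c) * y = 0)).resolve_left hdet
      linear_combination -a' * hx + a * hy
  obtain ⟨k4, k5⟩ := det _ _ f3 g3
  obtain ⟨k2, -⟩ := det _ _ f1 g1
  obtain ⟨k1, k3⟩ := det (2 * v 1) (2 * v 3) (by rw [k2, k4, k5] at f0; linear_combination f0)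
    (by rw [k2, k4, k5] at g0; linear_combination g0)
  have h2 : (2 : ZMod 3) ≠ 0 := by decide
  have k1' := (mul_eq_zero.1 k1).resolve_left h2
  have k3' := (mul_eq_zero.1 k3).resolve_left h2
  intro i hi
  fin_cases i
  · exact absurd rfl hi
  all_goals assumption

theorem not_conj (g : L) : ∃ x ∈ U1, g * x * g⁻¹ ∉ U2 := by
  by_contra hcon
  push Not at hcon
  obtain ⟨a, c, h1⟩ := hcon (tl 0 1 0) ⟨_, _, rfl⟩
  obtain ⟨a', c', h2⟩ := hcon (tl 0 0 1) ⟨_, _, rfl⟩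
  have e1 : g * tl 0 1 0 = tl a 0 c * g := by rw [← h1]; group
  have e2 : g * tl 0 0 1 = tl a' 0 c' * g := by rw [← h2]; group
  -- the relation between powers
  have hrel : ∀ i j : ℕ, g * ((tl 0 1 0) ^ i * (tl 0 0 1) ^ j) * g⁻¹ = (tl a 0 c) ^ i * (tl a' 0 c') ^ j := by
    intro i j
    rw [← h1, ← h2, conj_pow, conj_pow]
    group
  have hdet : a * c' - a' * c ≠ 0 := by
    intro h0
    have key : ∀ a c a' c' : ZMod 3, a * c' - a' * c = 0 → ∃ i j : Fin 3, (i ≠ 0 ∨ j ≠ 0) ∧ (i : ℕ) * a + (j : ℕ) * a' = 0 ∧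
      (i : ℕ) * c + (j : ℕ) * c' = 0 := by decide +kernel
    obtain ⟨i, j, hij, hi, hj⟩ := key a c a' c' h0
    have hpow1 : ∀ (a c : ZMod 3) (n : ℕ), (tl a 0 c) ^ n = tl (n * a) 0 (n * c) := by
      intro a c n
      induction n with
      | zero => simp [tl_one]
      | succ n ih =>
        rw [pow_succ, ih, tl_mul]
        congr 1 <;> push_cast <;> ring
    have hpow2 : ∀ (b c : ZMod 3) (n : ℕ), (tl 0 b c) ^ n = tl 0 (n * b) (n * c) := by
      intro a c n
      induction n with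
      | zero => simp [tl_one]
      | succ n ih =>
        rw [pow_succ, ih, tl_mul]
        congr 1 <;> push_cast <;> ring
    have h3 := hrel i j
    rw [hpow2 1 0, hpow2 0 1, hpow1 a c, hpow1 a' c', tl_mul, tl_mul, hi] at h3
    have h4 : tl 0 (0 + 0) ((i : ℕ) * c + (j : ℕ) * c' + (i : ℕ) * a * 0) = 1 := by
      rw [hj, ← tl_one]
      congr 1 <;> ring
    rw [h4, mul_inv_eq_one, mul_eq_left] at h3
    rw [← tl_one] at h3
    obtain ⟨-, h5, h6⟩ := tl_inj h3
    simp only [_root_.mul_one, _root_.MulZeroClass.mul_zero, _root_.add_zero, _root_.zero_add] at h5 h6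
    rcases hij with hij | hij
    · apply hij
      revert h5
      generalize i = i'
      revert i'
      decide
    · apply hij
      revert h6
      generalize j = i'
      revert i'
      decide
  have hfix : ∀ v : V, tf 0 1 0 v = v → tf 0 0 1 v = v → ∀ i, i ≠ 0 → g v i = 0 := by
    intro v hv1 hv2
    refine not_conj_aux a c a' c' hdet _ ?_ ?_
    · rw [← tl_apply]
      show (tl a 0 c * g) v = g v
      rw [← e1]
      show g (tf 0 1 0 v) = g v
      rw [hv1]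
    · rw [← tl_apply]
      show (tl a' 0 c' * g) v = g v
      rw [← e2]
      show g (tf 0 0 1 v) = g v
      rw [hv2]
  have q0 := hfix ![1, 0, 0, 0, 0, 0] (by funext i; (revert i; simp [tf, _root_.Fin.forall_fin_succ])) (by funext i; (revert i; simp [tf, _root_.Fin.forall_fin_succ]))
  have q1 := hfix ![0, 1, 0, 0, 0, 0] (by funext i; (revert i; simp [tf, _root_.Fin.forall_fin_succ])) (by funext i; (revert i; simp [tf, _root_.Fin.forall_fin_succ]))
  -- two independent vectors in a line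
  have h7 : g ((g ![0, 1, 0, 0, 0, 0] 0) • ![1, 0, 0, 0, 0, 0] - (g ![1, 0, 0, 0, 0, 0] 0) • ![0, 1, 0, 0, 0, 0]) = 0 := by
    rw [map_sub, map_smul, map_smul]
    funext i
    by_cases hi : i = 0
    · subst hi
      simp [mul_comm]
    · simp [q0 i hi, q1 i hi]
  have h8 := (map_eq_zero_iff g g.injective).1 h7
  have h9 := congrFun h8 0
  have h10 := congrFun h8 1
  simp at h9 h10
  have h11 : g ![1, 0, 0, 0, 0, 0] = 0 := by
    funext i
    by_cases hi : i = 0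
    · subst hi
      simpa using h10
    · simpa using q0 i hi
  have h12 := (map_eq_zero_iff g g.injective).1 h11
  have h13 := congrFun h12 0
  simp only [_root_.Fin.isValue, _root_.Matrix.cons_val_zero, _root_.Pi.zero_apply, _root_.one_ne_zero] at h13

/-! ### stability groups of flags -/

/-- the `3`-elements of the centralizer of `x` lie in a `3`-subgroup -/
def Good (x : L) : Prop :=
  ∃ S : Subgroup L, IsPGroup 3 S ∧ ∀ g : L, g * x = x * g → (∃ k : ℕ, g ^ (3 ^ k) = 1) → g ∈ S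

theorem Good.conj {x : L} (h : L) (hx : Good x) : Good (h * x * h⁻¹) := by
  obtain ⟨S, hS, hg⟩ := hx
  refine ⟨S.map (MulAut.conj h).toMonoidHom, hS.map _, ?_⟩
  intro g hgx ⟨k, hk⟩
  refine ⟨h⁻¹ * g * h, hg _ ?_ ⟨k, ?_⟩, ?_⟩
  · calc h⁻¹ * g * h * x = h⁻¹ * (g * (h * x * h⁻¹)) * h := by group
      _ = h⁻¹ * (h * x * h⁻¹ * g) * h := by rw [hgx]
      _ = x * (h⁻¹ * g * h) := by group
  · have : (h⁻¹ * g * h) ^ (3 ^ k) = h⁻¹ * g ^ (3 ^ k) * h := by
      have := conj_pow (i := 3 ^ k) (a := h⁻¹) (b := g)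
      rwa [inv_inv] at this
    rw [this, hk]
    group
  · show h * (h⁻¹ * g * h) * h⁻¹ = g
    group

theorem Good.inv {x : L} (hx : Good x) : Good x⁻¹ := by
  obtain ⟨S, hS, hg⟩ := hx
  refine ⟨S, hS, fun g hgx hk => hg g ?_ hk⟩
  have h1 : Commute g x⁻¹ := hgx
  exact (Commute.inv_right_iff.1 h1).eq

theorem Good.tri {x : L} (hx : Good x) (P Q : Subgroup L) (hP : IsPGroup 3 P) (hQ : IsPGroup 3 Q)
    (hPx : ∀ g ∈ P, g * x = x * g) (hQx : ∀ g ∈ Q, g * x = x * g) : IsPGroup 3 ↥(P ⊔ Q) := by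
  obtain ⟨S, hS, hg⟩ := hx
  refine hS.to_le (sup_le ?_ ?_)
  · intro g hgP
    obtain ⟨k, hk⟩ := hP ⟨g, hgP⟩
    exact hg g (hPx g hgP) ⟨k, by simpa only [_root_.SubmonoidClass.mk_pow, _root_.OneMemClass.coe_one] using congrArg Subtype.val hk⟩
  · intro g hgQ
    obtain ⟨k, hk⟩ := hQ ⟨g, hgQ⟩
    exact hg g (hQx g hgQ) ⟨k, by simpa only [_root_.SubmonoidClass.mk_pow, _root_.OneMemClass.coe_one] using congrArg Subtype.val hk⟩

/-- the coordinate flag of an ordering -/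
def Fl (σ : Fin 6 → Fin 6) (i : ℕ) : Submodule (ZMod 3) V where
  carrier := {v | ∀ j : Fin 6, i ≤ j → v (σ j) = 0}
  add_mem' := by
    intro u v hu hv j hj
    rw [Pi.add_apply, hu j hj, hv j hj, add_zero]
  zero_mem' := fun j _ => rfl
  smul_mem' := by
    intro s v hv j hj
    rw [Pi.smul_apply, hv j hj, smul_zero]

theorem mem_Fl {σ : Fin 6 → Fin 6} {i : ℕ} {v : V} : v ∈ Fl σ i ↔ ∀ j : Fin 6, i ≤ j → v (σ j) = 0 := Iff.rfl

theorem Fl_mono {σ : Fin 6 → Fin 6} {i j : ℕ} (h : i ≤ j) : Fl σ i ≤ Fl σ j :=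
  fun _ hv k hk => hv k (h.trans hk)

/-- the stability submonoid -/
theorem flag_good (σ : Fin 6 → Fin 6) (hσ : Function.Bijective σ) : ∃ S : Subgroup L, IsPGroup 3 S ∧
    ∀ g : L, (∀ i : ℕ, ∀ v ∈ Fl σ i, g v ∈ Fl σ i) → (∃ k : ℕ, g ^ (3 ^ k) = 1) → g ∈ S := by
  have h3 : (3 : ZMod 3) = 0 := by decide
  let M : Submonoid L :=
    { carrier := {g | ∀ i : ℕ, ∀ v ∈ Fl σ (i + 1), g v - v ∈ Fl σ i}
      mul_mem' := by
        intro g h hg hh i v hv
        have h1 : g (h v - v) - (h v - v) ∈ Fl σ i := hg i _ (Fl_mono (Nat.le_succ i) (hh i v hv))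
        have h2 := hh i v hv
        have h3 := hg i v hv
        have h4 : (g * h) v - v = (g (h v - v) - (h v - v)) + (h v - v) + (g v - v) := by
          show g (h v) - v = _
          rw [map_sub]
          abel
        rw [h4]
        exact (Fl σ i).add_mem ((Fl σ i).add_mem h1 h2) h3
      one_mem' := by
        intro i v hv
        show v - v ∈ _
        rw [sub_self]
        exact (Fl σ i).zero_mem }
  have hM : ∀ g : L, g ∈ M ↔ ∀ i : ℕ, ∀ v ∈ Fl σ (i + 1), g v - v ∈ Fl σ i := fun g => Iff.rfl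
  have h6 : ∀ v : V, v ∈ Fl σ 6 := fun v j hj => absurd j.2 (by omega)
  have h0 : ∀ v : V, v ∈ Fl σ 0 → v = 0 := by
    intro v hv
    funext m
    obtain ⟨j, rfl⟩ := hσ.2 m
    exact hv j (Nat.zero_le _)
  -- `M` consists of `3`-elements
  have hpow : ∀ g ∈ M, ∀ i : ℕ, ∀ v ∈ Fl σ i, (g ^ (3 ^ i)) v = v := by
    intro g hg i
    induction i with
    | zero =>
      intro v hv
      rw [h0 v hv, map_zero]
    | succ i ih =>
      intro v hv
      have h1 : g ^ (3 ^ i) ∈ M := pow_mem hg _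
      have h2 := h1 i v hv
      have h4 := ih _ h2
      set h := g ^ (3 ^ i) with hh
      rw [pow_succ, pow_mul, ← hh, pow_succ, pow_two]
      show h (h (h v)) = v
      have h5 : h v = v + (h v - v) := by abel
      set w := h v - v with hw
      rw [h5, map_add, h4, h5, add_assoc, map_add, map_add, h4, h5]
      have h6 : v + w + (w + w) = v + (3 : ZMod 3) • w := by
        rw [show (3 : ZMod 3) = 1 + 1 + 1 by norm_num, add_smul, add_smul, one_smul]
        abel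
      rw [h6, h3, zero_smul, add_zero]
  have hpow6 : ∀ g ∈ M, g ^ (3 ^ 6) = 1 := fun g hg => LinearEquiv.ext fun v => hpow g hg 6 v (h6 v)
  let S : Subgroup L :=
    { M with
      inv_mem' := by
        intro g hg
        have h1 : g⁻¹ = g ^ (3 ^ 6 - 1) := by
          rw [inv_eq_iff_mul_eq_one, ← pow_succ']
          exact hpow6 g hg
        show g⁻¹ ∈ M
        rw [h1]
        exact pow_mem hg _ }
  have hS : ∀ g : L, g ∈ S ↔ g ∈ M := fun g => Iff.rfl
  refine ⟨S, ?_, ?_⟩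
  · rintro ⟨g, hg⟩
    refine ⟨6, Subtype.ext ?_⟩
    simpa only [_root_.Nat.reducePow, _root_.SubmonoidClass.mk_pow, _root_.OneMemClass.coe_one] using hpow6 g hg
  · intro g hg ⟨k, hk⟩
    rw [hS, hM]
    intro i v hv
    by_cases hi : i < 6
    · -- the basis vector
      let f : V := Pi.single (σ ⟨i, hi⟩) 1
      have hf : ∀ j : Fin 6, i < j → f (σ j) = 0 := fun j hj => by
        refine Pi.single_eq_of_ne ?_ _
        intro h
        have := congrArg Fin.val (hσ.1 h)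
        simp at this
        omega
      have hf1 : f (σ ⟨i, hi⟩) = 1 := Pi.single_eq_same _ _
      have hfm : f ∈ Fl σ (i + 1) := fun j hj => hf j hj
      have hdec : ∀ v ∈ Fl σ (i + 1), v - (v (σ ⟨i, hi⟩)) • f ∈ Fl σ i := by
        intro v hv j hj
        rcases hj.lt_or_eq with hj | hj
        · rw [Pi.sub_apply, Pi.smul_apply, hf j hj, hv j hj, smul_zero, sub_zero]
        · have : j = ⟨i, hi⟩ := Fin.ext hj.symm
          rw [this, Pi.sub_apply, Pi.smul_apply, hf1, smul_eq_mul, mul_one, sub_self]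
      -- `g f = s f + w`
      obtain ⟨s, hs⟩ : ∃ s : ZMod 3, g f - s • f ∈ Fl σ i := ⟨_, hdec _ (hg _ f hfm)⟩
      have hspow : ∀ n : ℕ, (g ^ n) f - s ^ n • f ∈ Fl σ i := by
        intro n
        induction n with
        | zero =>
          show f - _ ∈ _
          rw [pow_zero, one_smul, sub_self]
          exact (Fl σ i).zero_mem
        | succ n ih =>
          have h1 : (g ^ (n + 1)) f - s ^ (n + 1) • f = g ((g ^ n) f - s ^ n • f) + s ^ n • (g f - s • f) := by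
            rw [pow_succ' g, map_sub, map_smul, smul_sub, smul_smul, ← pow_succ]
            show g ((g ^ n) f) - _ = _
            abel
          rw [h1]
          exact (Fl σ i).add_mem (hg _ _ ih) ((Fl σ i).smul_mem _ hs)
      have hs3 : s ^ (3 ^ k) = s := by
        have := ZMod.pow_card_pow (p := 3) (n := k) s
        exact this
      have h1 := hspow (3 ^ k)
      rw [hk, hs3] at h1
      have h2 : g f - f ∈ Fl σ i := by
        have : g f - f = (g f - s • f) - ((1 : L) f - s • f) := by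
          show _ = (g f - s • f) - (f - s • f)
          abel
        rw [this]
        exact (Fl σ i).sub_mem hs h1
      have h4 := hdec v hv
      set c := v (σ ⟨i, hi⟩) with hc
      have h5 : g v - v = g (v - c • f) - (v - c • f) + c • (g f - f) := by
        rw [map_sub, map_smul, smul_sub]
        abel
      rw [h5]
      exact (Fl σ i).add_mem ((Fl σ i).sub_mem (hg _ _ h4) h4) ((Fl σ i).smul_mem _ h2)
    · intro j hj
      exact absurd j.2 (by omega)

/-- the intrinsic description of the flag -/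
theorem good_of_flag (x : L) (σ : Fin 6 → Fin 6) (hσ : Function.Bijective σ)
    (h1 : ∀ v, v ∈ Fl σ 1 ↔ ∃ w, v = x (x w - w) - (x w - w))
    (h2 : ∀ v, v ∈ Fl σ 2 ↔ x v - v = 0 ∧ ∃ w, v = x w - w)
    (h3 : ∀ v, v ∈ Fl σ 3 ↔ x v - v = 0)
    (h4 : ∀ v, v ∈ Fl σ 4 ↔ ∃ w, x (v - (x w - w)) - (v - (x w - w)) = 0)
    (h5 : ∀ v, v ∈ Fl σ 5 ↔ x (x v - v) - (x v - v) = 0) : Good x := by
  obtain ⟨S, hS, hg⟩ := flag_good σ hσ
  refine ⟨S, hS, fun g hgx hk => hg g ?_ hk⟩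
  have hx : ∀ v, g (x v) = x (g v) := fun v => LinearEquiv.congr_fun hgx v
  intro i v hv
  by_cases h6 : 6 ≤ i
  · intro j hj
    exact absurd j.2 (by omega)
  have hi : i = 0 ∨ i = 1 ∨ i = 2 ∨ i = 3 ∨ i = 4 ∨ i = 5 := by omega
  rcases hi with rfl | rfl | rfl | rfl | rfl | rfl
  · have : v = 0 := by
      funext m
      obtain ⟨j, rfl⟩ := hσ.2 m
      exact hv j (Nat.zero_le _)
    rw [this, map_zero]
    exact (Fl σ 0).zero_mem
  · obtain ⟨w, hw⟩ := (h1 v).1 hv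
    refine (h1 _).2 ⟨g w, ?_⟩
    simp only [hw, map_sub, hx]
  · obtain ⟨h7, w, hw⟩ := (h2 v).1 hv
    refine (h2 _).2 ⟨?_, g w, ?_⟩
    · rw [← hx, ← map_sub, h7, map_zero]
    · simp only [hw, map_sub, hx]
  · have h7 := (h3 v).1 hv
    refine (h3 _).2 ?_
    rw [← hx, ← map_sub, h7, map_zero]
  · obtain ⟨w, hw⟩ := (h4 v).1 hv
    refine (h4 _).2 ⟨g w, ?_⟩
    rw [← hx, ← map_sub, ← map_sub, ← hx, ← map_sub, hw, map_zero]
  · have h7 := (h5 v).1 hv
    refine (h5 _).2 ?_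
    rw [← hx, ← map_sub, ← hx, ← map_sub, h7, map_zero]

/-- six equations -/
theorem mem_Fl_iff {σ : Fin 6 → Fin 6} {i : ℕ} {v : V} : v ∈ Fl σ i ↔ (i ≤ 0 → v (σ 0) = 0) ∧ (i ≤ 1 → v (σ 1) = 0) ∧
    (i ≤ 2 → v (σ 2) = 0) ∧ (i ≤ 3 → v (σ 3) = 0) ∧ (i ≤ 4 → v (σ 4) = 0) ∧ (i ≤ 5 → v (σ 5) = 0) := by
  rw [mem_Fl, Fin.forall_fin_succ, Fin.forall_fin_succ, Fin.forall_fin_succ, Fin.forall_fin_succ, Fin.forall_fin_succ,
    Fin.forall_fin_one]
  rfl

theorem vec_ext {u v : V} (h0 : u 0 = v 0) (h1 : u 1 = v 1) (h2 : u 2 = v 2) (h3 : u 3 = v 3) (h4 : u 4 = v 4) (h5 : u 5 = v 5) :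
    u = v := by
  funext i
  fin_cases i <;> assumption

theorem good_z : Good (tl 0 0 1) := by
  have two : (2 : ZMod 3) * 2 = 1 := by decide
  have two' : (2 : ZMod 3) ≠ 0 := by decide
  refine good_of_flag _ ![0, 1, 2, 3, 4, 5] (by decide) ?_ ?_ ?_ ?_ ?_
  · intro v
    rw [mem_Fl_iff]
    constructor
    · intro h
      simp only [_root_.nonpos_iff_eq_zero, _root_.one_ne_zero, _root_.Fin.isValue, _root_.Matrix.cons_val_zero, _root_.IsEmpty.forall_iff, _root_.Std.le_refl, _root_.Matrix.cons_val_one, _root_.forall_const, _root_.Nat.one_le_ofNat, _root_.Matrix.cons_val, _root_.true_and] at h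
      refine ⟨![0, 0, 0, 0, 0, 2 * v 0], ?_⟩
      rw [tl_apply, tl_apply, tf_sub, tf_sub]
      refine vec_ext ?_ ?_ ?_ ?_ ?_ ?_ <;> simp [h, ← mul_assoc, two]
    · rintro ⟨w, rfl⟩
      rw [tl_apply, tl_apply, tf_sub, tf_sub]
      simp
  · intro v
    rw [mem_Fl_iff]
    constructor
    · intro h
      simp only [_root_.nonpos_iff_eq_zero, _root_.OfNat.ofNat_ne_zero, _root_.Fin.isValue, _root_.Matrix.cons_val_zero, _root_.IsEmpty.forall_iff, _root_.Nat.not_ofNat_le_one, _root_.Matrix.cons_val_one, _root_.Std.le_refl, _root_.Matrix.cons_val, _root_.forall_const, _root_.Nat.reduceLeDiff, _root_.true_and] at h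
      refine ⟨?_, ![0, 0, 0, 2 * v 0, v 1, 0], ?_⟩
      · rw [tl_apply, tf_sub]
        refine vec_ext ?_ ?_ ?_ ?_ ?_ ?_ <;> simp [h]
      · rw [tl_apply, tf_sub]
        refine vec_ext ?_ ?_ ?_ ?_ ?_ ?_ <;> simp [h, ← mul_assoc, two]
    · rintro ⟨h, w, rfl⟩
      rw [tl_apply, tl_apply, tf_sub, tf_sub] at h
      rw [tl_apply, tf_sub]
      have h0 := congrFun h 0
      have h1 := congrFun h 1
      have h2 := congrFun h 2
      have h3 := congrFun h 3
      have h4 := congrFun h 4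
      simp only [two', _root_.Nat.succ_eq_add_one, _root_.Nat.reduceAdd, _root_.MulZeroClass.mul_zero, _root_.Fin.isValue, _root_.MulZeroClass.zero_mul, _root_.mul_one, _root_.zero_add, _root_.ne_eq, _root_.OfNat.ofNat_ne_zero, _root_.not_false_eq_true, _root_.zero_pow, _root_.add_zero, _root_.one_pow, _root_.one_mul, _root_.Matrix.cons_val_one, _root_.Matrix.cons_val_zero, _root_.Matrix.cons_val, _root_.Pi.zero_apply, _root_.mul_eq_zero, _root_.false_or] at h0 h1 h2 h3 h4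
      simp only [*, _root_.nonpos_iff_eq_zero, _root_.OfNat.ofNat_ne_zero, _root_.Nat.succ_eq_add_one, _root_.Nat.reduceAdd, _root_.MulZeroClass.mul_zero, _root_.Fin.isValue, _root_.MulZeroClass.zero_mul, _root_.mul_one, _root_.zero_add, _root_.ne_eq, _root_.not_false_eq_true, _root_.zero_pow, _root_.add_zero, _root_.one_pow, _root_.one_mul, _root_.Matrix.cons_val_zero, _root_.mul_eq_zero, _root_.false_or, _root_.IsEmpty.forall_iff, _root_.Nat.not_ofNat_le_one, _root_.Matrix.cons_val_one, _root_.Std.le_refl, _root_.Matrix.cons_val, _root_.imp_self, _root_.Nat.reduceLeDiff, _root_.and_self, h0, two']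
  · intro v
    rw [mem_Fl_iff]
    constructor
    · intro h
      simp only [_root_.nonpos_iff_eq_zero, _root_.OfNat.ofNat_ne_zero, _root_.Fin.isValue, _root_.Matrix.cons_val_zero, _root_.IsEmpty.forall_iff, _root_.Nat.not_ofNat_le_one, _root_.Matrix.cons_val_one, _root_.Nat.reduceLeDiff, _root_.Matrix.cons_val, _root_.Std.le_refl, _root_.forall_const, _root_.true_and] at h
      rw [tl_apply, tf_sub]
      refine vec_ext ?_ ?_ ?_ ?_ ?_ ?_ <;> simp [h]
    · intro h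
      rw [tl_apply, tf_sub] at h
      have h0 := congrFun h 0
      have h1 := congrFun h 1
      have h2 := congrFun h 2
      have h3 := congrFun h 3
      have h4 := congrFun h 4
      simp only [two', _root_.Nat.succ_eq_add_one, _root_.Nat.reduceAdd, _root_.MulZeroClass.mul_zero, _root_.Fin.isValue, _root_.MulZeroClass.zero_mul, _root_.mul_one, _root_.zero_add, _root_.ne_eq, _root_.OfNat.ofNat_ne_zero, _root_.not_false_eq_true, _root_.zero_pow, _root_.add_zero, _root_.one_pow, _root_.one_mul, _root_.Matrix.cons_val_zero, _root_.Pi.zero_apply, _root_.Matrix.cons_val_one, _root_.Matrix.cons_val] at h0 h1 h2 h3 h4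
      simp only [*, _root_.Fin.isValue, _root_.add_zero, _root_.mul_eq_zero, _root_.false_or, _root_.nonpos_iff_eq_zero, _root_.OfNat.ofNat_ne_zero, _root_.Matrix.cons_val_zero, _root_.IsEmpty.forall_iff, _root_.Nat.not_ofNat_le_one, _root_.Matrix.cons_val_one, _root_.Nat.reduceLeDiff, _root_.Matrix.cons_val, _root_.Std.le_refl, _root_.forall_const, _root_.imp_self, _root_.and_self, _root_.and_true, _root_.true_and, h3, two', h1] at h0 h1 h2 h3 h4 ⊢
      assumption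
  · intro v
    rw [mem_Fl_iff]
    constructor
    · intro h
      simp only [_root_.nonpos_iff_eq_zero, _root_.OfNat.ofNat_ne_zero, _root_.Fin.isValue, _root_.Matrix.cons_val_zero, _root_.IsEmpty.forall_iff, _root_.Nat.not_ofNat_le_one, _root_.Matrix.cons_val_one, _root_.Nat.reduceLeDiff, _root_.Matrix.cons_val, _root_.Std.le_refl, _root_.forall_const, _root_.true_and] at h
      refine ⟨![0, 0, 0, 0, 0, v 3], ?_⟩
      simp only [tl_apply, tf_sub]
      refine vec_ext ?_ ?_ ?_ ?_ ?_ ?_ <;> simp [h]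
    · rintro ⟨w, h⟩
      simp only [tl_apply, tf_sub] at h
      have h0 := congrFun h 0
      have h1 := congrFun h 1
      have h2 := congrFun h 2
      have h3 := congrFun h 3
      have h4 := congrFun h 4
      simp only [two', _root_.Nat.succ_eq_add_one, _root_.Nat.reduceAdd, _root_.MulZeroClass.mul_zero, _root_.Fin.isValue, _root_.MulZeroClass.zero_mul, _root_.mul_one, _root_.zero_add, _root_.ne_eq, _root_.OfNat.ofNat_ne_zero, _root_.not_false_eq_true, _root_.zero_pow, _root_.add_zero, _root_.one_pow, _root_.one_mul, _root_.Pi.sub_apply, _root_.Matrix.cons_val_one, _root_.Matrix.cons_val_zero, _root_.Matrix.cons_val, _root_.sub_zero, _root_.Pi.zero_apply] at h0 h1 h2 h3 h4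
      simp only [*, _root_.Fin.isValue, _root_.add_zero, _root_.mul_eq_zero, _root_.false_or, _root_.nonpos_iff_eq_zero, _root_.OfNat.ofNat_ne_zero, _root_.Matrix.cons_val_zero, _root_.IsEmpty.forall_iff, _root_.Nat.not_ofNat_le_one, _root_.Matrix.cons_val_one, _root_.Nat.reduceLeDiff, _root_.Matrix.cons_val, _root_.Std.le_refl, _root_.imp_self, _root_.and_self, h3, two', h1] at h0 h1 h2 h3 h4 ⊢
  · intro v
    rw [mem_Fl_iff]
    constructor
    · intro h
      simp only [_root_.nonpos_iff_eq_zero, _root_.OfNat.ofNat_ne_zero, _root_.Fin.isValue, _root_.Matrix.cons_val_zero, _root_.IsEmpty.forall_iff, _root_.Nat.not_ofNat_le_one, _root_.Matrix.cons_val_one, _root_.Nat.reduceLeDiff, _root_.Matrix.cons_val, _root_.Std.le_refl, _root_.forall_const, _root_.true_and] at h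
      simp only [tl_apply, tf_sub]
      refine vec_ext ?_ ?_ ?_ ?_ ?_ ?_ <;> simp [h]
    · intro h
      simp only [tl_apply, tf_sub] at h
      have h0 := congrFun h 0
      have h2 := congrFun h 2
      simp only [two', _root_.Nat.succ_eq_add_one, _root_.Nat.reduceAdd, _root_.MulZeroClass.mul_zero, _root_.Fin.isValue, _root_.MulZeroClass.zero_mul, _root_.mul_one, _root_.zero_add, _root_.ne_eq, _root_.OfNat.ofNat_ne_zero, _root_.not_false_eq_true, _root_.zero_pow, _root_.add_zero, _root_.one_pow, _root_.one_mul, _root_.Matrix.cons_val_one, _root_.Matrix.cons_val_zero, _root_.Matrix.cons_val, _root_.Pi.zero_apply, _root_.mul_eq_zero, _root_.false_or] at h0 h2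
      simp only [*, _root_.nonpos_iff_eq_zero, _root_.OfNat.ofNat_ne_zero, _root_.Fin.isValue, _root_.Matrix.cons_val_zero, _root_.IsEmpty.forall_iff, _root_.Nat.not_ofNat_le_one, _root_.Matrix.cons_val_one, _root_.Nat.reduceLeDiff, _root_.Matrix.cons_val, _root_.Std.le_refl, _root_.imp_self, _root_.and_self, h0]

theorem good_b : Good (tl 0 1 0) := by
  have two : (2 : ZMod 3) * 2 = 1 := by decide
  have two' : (2 : ZMod 3) ≠ 0 := by decide
  refine good_of_flag _ ![2, 1, 0, 4, 3, 5] (by decide) ?_ ?_ ?_ ?_ ?_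
  · intro v
    rw [mem_Fl_iff]
    constructor
    · intro h
      simp only [_root_.nonpos_iff_eq_zero, _root_.one_ne_zero, _root_.Fin.isValue, _root_.Matrix.cons_val_zero, _root_.IsEmpty.forall_iff, _root_.Std.le_refl, _root_.Matrix.cons_val_one, _root_.forall_const, _root_.Nat.one_le_ofNat, _root_.Matrix.cons_val, _root_.true_and] at h
      refine ⟨![0, 0, 0, 0, 0, 2 * v 2], ?_⟩
      rw [tl_apply, tl_apply, tf_sub, tf_sub]
      refine vec_ext ?_ ?_ ?_ ?_ ?_ ?_ <;> simp [h, ← mul_assoc, two]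
    · rintro ⟨w, rfl⟩
      rw [tl_apply, tl_apply, tf_sub, tf_sub]
      simp
  · intro v
    rw [mem_Fl_iff]
    constructor
    · intro h
      simp only [_root_.nonpos_iff_eq_zero, _root_.OfNat.ofNat_ne_zero, _root_.Fin.isValue, _root_.Matrix.cons_val_zero, _root_.IsEmpty.forall_iff, _root_.Nat.not_ofNat_le_one, _root_.Matrix.cons_val_one, _root_.Std.le_refl, _root_.Matrix.cons_val, _root_.forall_const, _root_.Nat.reduceLeDiff, _root_.true_and] at h
      refine ⟨?_, ![0, 0, 0, v 1, 2 * v 2, 0], ?_⟩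
      · rw [tl_apply, tf_sub]
        refine vec_ext ?_ ?_ ?_ ?_ ?_ ?_ <;> simp [h]
      · rw [tl_apply, tf_sub]
        refine vec_ext ?_ ?_ ?_ ?_ ?_ ?_ <;> simp [h, ← mul_assoc, two]
    · rintro ⟨h, w, rfl⟩
      rw [tl_apply, tl_apply, tf_sub, tf_sub] at h
      rw [tl_apply, tf_sub]
      have h0 := congrFun h 0
      have h1 := congrFun h 1
      have h2 := congrFun h 2
      have h3 := congrFun h 3
      have h4 := congrFun h 4
      simp only [two', _root_.Nat.succ_eq_add_one, _root_.Nat.reduceAdd, _root_.MulZeroClass.mul_zero, _root_.Fin.isValue, _root_.MulZeroClass.zero_mul, _root_.add_zero, _root_.ne_eq, _root_.OfNat.ofNat_ne_zero, _root_.not_false_eq_true, _root_.zero_pow, _root_.one_mul, _root_.zero_add, _root_.mul_one, _root_.one_pow, _root_.Matrix.cons_val_one, _root_.Matrix.cons_val_zero, _root_.Matrix.cons_val, _root_.Pi.zero_apply, _root_.mul_eq_zero, _root_.false_or] at h0 h1 h2 h3 h4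
      simp only [*, _root_.nonpos_iff_eq_zero, _root_.OfNat.ofNat_ne_zero, _root_.Nat.succ_eq_add_one, _root_.Nat.reduceAdd, _root_.MulZeroClass.mul_zero, _root_.Fin.isValue, _root_.MulZeroClass.zero_mul, _root_.add_zero, _root_.ne_eq, _root_.not_false_eq_true, _root_.zero_pow, _root_.one_mul, _root_.zero_add, _root_.mul_one, _root_.one_pow, _root_.Matrix.cons_val_zero, _root_.Matrix.cons_val, _root_.mul_eq_zero, _root_.false_or, _root_.IsEmpty.forall_iff, _root_.Nat.not_ofNat_le_one, _root_.Matrix.cons_val_one, _root_.Std.le_refl, _root_.imp_self, _root_.Nat.reduceLeDiff, _root_.and_self, h2, two']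
  · intro v
    rw [mem_Fl_iff]
    constructor
    · intro h
      simp only [_root_.nonpos_iff_eq_zero, _root_.OfNat.ofNat_ne_zero, _root_.Fin.isValue, _root_.Matrix.cons_val_zero, _root_.IsEmpty.forall_iff, _root_.Nat.not_ofNat_le_one, _root_.Matrix.cons_val_one, _root_.Nat.reduceLeDiff, _root_.Matrix.cons_val, _root_.Std.le_refl, _root_.forall_const, _root_.true_and] at h
      rw [tl_apply, tf_sub]
      refine vec_ext ?_ ?_ ?_ ?_ ?_ ?_ <;> simp [h]
    · intro h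
      rw [tl_apply, tf_sub] at h
      have h0 := congrFun h 0
      have h1 := congrFun h 1
      have h2 := congrFun h 2
      have h3 := congrFun h 3
      have h4 := congrFun h 4
      simp only [two', _root_.Nat.succ_eq_add_one, _root_.Nat.reduceAdd, _root_.MulZeroClass.mul_zero, _root_.Fin.isValue, _root_.MulZeroClass.zero_mul, _root_.add_zero, _root_.ne_eq, _root_.OfNat.ofNat_ne_zero, _root_.not_false_eq_true, _root_.zero_pow, _root_.one_mul, _root_.zero_add, _root_.mul_one, _root_.one_pow, _root_.Matrix.cons_val_zero, _root_.Pi.zero_apply, _root_.Matrix.cons_val_one, _root_.Matrix.cons_val] at h0 h1 h2 h3 h4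
      simp only [*, _root_.Fin.isValue, _root_.add_zero, _root_.mul_eq_zero, _root_.false_or, _root_.nonpos_iff_eq_zero, _root_.OfNat.ofNat_ne_zero, _root_.Matrix.cons_val_zero, _root_.IsEmpty.forall_iff, _root_.Nat.not_ofNat_le_one, _root_.Matrix.cons_val_one, _root_.Nat.reduceLeDiff, _root_.Matrix.cons_val, _root_.Std.le_refl, _root_.forall_const, _root_.imp_self, _root_.and_self, _root_.and_true, _root_.true_and, h4, two', h1] at h0 h1 h2 h3 h4 ⊢
      assumption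
  · intro v
    rw [mem_Fl_iff]
    constructor
    · intro h
      simp only [_root_.nonpos_iff_eq_zero, _root_.OfNat.ofNat_ne_zero, _root_.Fin.isValue, _root_.Matrix.cons_val_zero, _root_.IsEmpty.forall_iff, _root_.Nat.not_ofNat_le_one, _root_.Matrix.cons_val_one, _root_.Nat.reduceLeDiff, _root_.Matrix.cons_val, _root_.Std.le_refl, _root_.forall_const, _root_.true_and] at h
      refine ⟨![0, 0, 0, 0, 0, v 4], ?_⟩
      simp only [tl_apply, tf_sub]
      refine vec_ext ?_ ?_ ?_ ?_ ?_ ?_ <;> simp [h]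
    · rintro ⟨w, h⟩
      simp only [tl_apply, tf_sub] at h
      have h0 := congrFun h 0
      have h1 := congrFun h 1
      have h2 := congrFun h 2
      have h3 := congrFun h 3
      have h4 := congrFun h 4
      simp only [two', _root_.Nat.succ_eq_add_one, _root_.Nat.reduceAdd, _root_.MulZeroClass.mul_zero, _root_.Fin.isValue, _root_.MulZeroClass.zero_mul, _root_.add_zero, _root_.ne_eq, _root_.OfNat.ofNat_ne_zero, _root_.not_false_eq_true, _root_.zero_pow, _root_.one_mul, _root_.zero_add, _root_.mul_one, _root_.one_pow, _root_.Pi.sub_apply, _root_.Matrix.cons_val_one, _root_.Matrix.cons_val_zero, _root_.Matrix.cons_val, _root_.sub_zero, _root_.Pi.zero_apply] at h0 h1 h2 h3 h4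
      simp only [*, _root_.Fin.isValue, _root_.add_zero, _root_.mul_eq_zero, _root_.false_or, _root_.nonpos_iff_eq_zero, _root_.OfNat.ofNat_ne_zero, _root_.Matrix.cons_val_zero, _root_.IsEmpty.forall_iff, _root_.Nat.not_ofNat_le_one, _root_.Matrix.cons_val_one, _root_.Nat.reduceLeDiff, _root_.Matrix.cons_val, _root_.Std.le_refl, _root_.imp_self, _root_.and_self, h4, two', h1] at h0 h1 h2 h3 h4 ⊢
  · intro v
    rw [mem_Fl_iff]
    constructor
    · intro h
      simp only [_root_.nonpos_iff_eq_zero, _root_.OfNat.ofNat_ne_zero, _root_.Fin.isValue, _root_.Matrix.cons_val_zero, _root_.IsEmpty.forall_iff, _root_.Nat.not_ofNat_le_one, _root_.Matrix.cons_val_one, _root_.Nat.reduceLeDiff, _root_.Matrix.cons_val, _root_.Std.le_refl, _root_.forall_const, _root_.true_and] at h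
      simp only [tl_apply, tf_sub]
      refine vec_ext ?_ ?_ ?_ ?_ ?_ ?_ <;> simp [h]
    · intro h
      simp only [tl_apply, tf_sub] at h
      have h0 := congrFun h 0
      have h2 := congrFun h 2
      simp only [two', _root_.Nat.succ_eq_add_one, _root_.Nat.reduceAdd, _root_.MulZeroClass.mul_zero, _root_.Fin.isValue, _root_.MulZeroClass.zero_mul, _root_.add_zero, _root_.ne_eq, _root_.OfNat.ofNat_ne_zero, _root_.not_false_eq_true, _root_.zero_pow, _root_.one_mul, _root_.zero_add, _root_.mul_one, _root_.one_pow, _root_.Matrix.cons_val_one, _root_.Matrix.cons_val_zero, _root_.Matrix.cons_val, _root_.Pi.zero_apply, _root_.mul_eq_zero, _root_.false_or] at h0 h2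
      simp only [*, _root_.nonpos_iff_eq_zero, _root_.OfNat.ofNat_ne_zero, _root_.Fin.isValue, _root_.Matrix.cons_val_zero, _root_.IsEmpty.forall_iff, _root_.Nat.not_ofNat_le_one, _root_.Matrix.cons_val_one, _root_.Nat.reduceLeDiff, _root_.Matrix.cons_val, _root_.Std.le_refl, _root_.imp_self, _root_.and_self, h2]

theorem good_a : Good (tl 1 0 0) := by
  have two : (2 : ZMod 3) * 2 = 1 := by decide
  have two' : (2 : ZMod 3) ≠ 0 := by decide
  refine good_of_flag _ ![0, 3, 5, 1, 4, 2] (by decide) ?_ ?_ ?_ ?_ ?_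
  · intro v
    rw [mem_Fl_iff]
    constructor
    · intro h
      simp only [_root_.nonpos_iff_eq_zero, _root_.one_ne_zero, _root_.Fin.isValue, _root_.Matrix.cons_val_zero, _root_.IsEmpty.forall_iff, _root_.Std.le_refl, _root_.Matrix.cons_val_one, _root_.forall_const, _root_.Nat.one_le_ofNat, _root_.Matrix.cons_val, _root_.true_and] at h
      refine ⟨![0, 0, 2 * v 0, 0, 0, 0], ?_⟩
      rw [tl_apply, tl_apply, tf_sub, tf_sub]
      refine vec_ext ?_ ?_ ?_ ?_ ?_ ?_ <;> simp [h, ← mul_assoc, two]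
    · rintro ⟨w, rfl⟩
      rw [tl_apply, tl_apply, tf_sub, tf_sub]
      simp
  · intro v
    rw [mem_Fl_iff]
    constructor
    · intro h
      simp only [_root_.nonpos_iff_eq_zero, _root_.OfNat.ofNat_ne_zero, _root_.Fin.isValue, _root_.Matrix.cons_val_zero, _root_.IsEmpty.forall_iff, _root_.Nat.not_ofNat_le_one, _root_.Matrix.cons_val_one, _root_.Std.le_refl, _root_.Matrix.cons_val, _root_.forall_const, _root_.Nat.reduceLeDiff, _root_.true_and] at h
      refine ⟨?_, ![0, 2 * v 0, 0, 0, v 3, 0], ?_⟩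
      · rw [tl_apply, tf_sub]
        refine vec_ext ?_ ?_ ?_ ?_ ?_ ?_ <;> simp [h]
      · rw [tl_apply, tf_sub]
        refine vec_ext ?_ ?_ ?_ ?_ ?_ ?_ <;> simp [h, ← mul_assoc, two]
    · rintro ⟨h, w, rfl⟩
      rw [tl_apply, tl_apply, tf_sub, tf_sub] at h
      rw [tl_apply, tf_sub]
      have h0 := congrFun h 0
      have h1 := congrFun h 1
      have h2 := congrFun h 2
      have h3 := congrFun h 3
      have h4 := congrFun h 4
      simp only [two', _root_.Nat.succ_eq_add_one, _root_.Nat.reduceAdd, _root_.mul_one, _root_.Fin.isValue, _root_.MulZeroClass.mul_zero, _root_.MulZeroClass.zero_mul, _root_.add_zero, _root_.one_pow, _root_.one_mul, _root_.ne_eq, _root_.OfNat.ofNat_ne_zero, _root_.not_false_eq_true, _root_.zero_pow, _root_.Matrix.cons_val_one, _root_.Matrix.cons_val_zero, _root_.Matrix.cons_val, _root_.Pi.zero_apply, _root_.mul_eq_zero, _root_.false_or] at h0 h1 h2 h3 h4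
      simp only [*, _root_.nonpos_iff_eq_zero, _root_.OfNat.ofNat_ne_zero, _root_.Nat.succ_eq_add_one, _root_.Nat.reduceAdd, _root_.mul_one, _root_.Fin.isValue, _root_.MulZeroClass.mul_zero, _root_.MulZeroClass.zero_mul, _root_.add_zero, _root_.one_pow, _root_.ne_eq, _root_.not_false_eq_true, _root_.zero_pow, _root_.one_mul, _root_.Matrix.cons_val_zero, _root_.mul_eq_zero, _root_.false_or, _root_.IsEmpty.forall_iff, _root_.Nat.not_ofNat_le_one, _root_.Matrix.cons_val_one, _root_.Matrix.cons_val, _root_.Std.le_refl, _root_.imp_self, _root_.Nat.reduceLeDiff, _root_.and_self, h0, two']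
  · intro v
    rw [mem_Fl_iff]
    constructor
    · intro h
      simp only [_root_.nonpos_iff_eq_zero, _root_.OfNat.ofNat_ne_zero, _root_.Fin.isValue, _root_.Matrix.cons_val_zero, _root_.IsEmpty.forall_iff, _root_.Nat.not_ofNat_le_one, _root_.Matrix.cons_val_one, _root_.Nat.reduceLeDiff, _root_.Matrix.cons_val, _root_.Std.le_refl, _root_.forall_const, _root_.true_and] at h
      rw [tl_apply, tf_sub]
      refine vec_ext ?_ ?_ ?_ ?_ ?_ ?_ <;> simp [h]
    · intro h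
      rw [tl_apply, tf_sub] at h
      have h0 := congrFun h 0
      have h1 := congrFun h 1
      have h2 := congrFun h 2
      have h3 := congrFun h 3
      have h4 := congrFun h 4
      simp only [two', _root_.Nat.succ_eq_add_one, _root_.Nat.reduceAdd, _root_.mul_one, _root_.Fin.isValue, _root_.MulZeroClass.mul_zero, _root_.MulZeroClass.zero_mul, _root_.add_zero, _root_.one_pow, _root_.one_mul, _root_.ne_eq, _root_.OfNat.ofNat_ne_zero, _root_.not_false_eq_true, _root_.zero_pow, _root_.Matrix.cons_val_zero, _root_.Pi.zero_apply, _root_.Matrix.cons_val_one, _root_.Matrix.cons_val] at h0 h1 h2 h3 h4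
      simp only [*, _root_.Fin.isValue, _root_.add_zero, _root_.mul_eq_zero, _root_.false_or, _root_.nonpos_iff_eq_zero, _root_.OfNat.ofNat_ne_zero, _root_.Matrix.cons_val_zero, _root_.IsEmpty.forall_iff, _root_.Nat.not_ofNat_le_one, _root_.Matrix.cons_val_one, _root_.Nat.reduceLeDiff, _root_.Matrix.cons_val, _root_.Std.le_refl, _root_.forall_const, _root_.imp_self, _root_.and_self, _root_.and_true, _root_.true_and, h1, two', h3] at h0 h1 h2 h3 h4 ⊢
      assumption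
  · intro v
    rw [mem_Fl_iff]
    constructor
    · intro h
      simp only [_root_.nonpos_iff_eq_zero, _root_.OfNat.ofNat_ne_zero, _root_.Fin.isValue, _root_.Matrix.cons_val_zero, _root_.IsEmpty.forall_iff, _root_.Nat.not_ofNat_le_one, _root_.Matrix.cons_val_one, _root_.Nat.reduceLeDiff, _root_.Matrix.cons_val, _root_.Std.le_refl, _root_.forall_const, _root_.true_and] at h
      refine ⟨![0, 0, v 1, 0, 0, 0], ?_⟩
      simp only [tl_apply, tf_sub]
      refine vec_ext ?_ ?_ ?_ ?_ ?_ ?_ <;> simp [h]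
    · rintro ⟨w, h⟩
      simp only [tl_apply, tf_sub] at h
      have h0 := congrFun h 0
      have h1 := congrFun h 1
      have h2 := congrFun h 2
      have h3 := congrFun h 3
      have h4 := congrFun h 4
      simp only [two', _root_.Nat.succ_eq_add_one, _root_.Nat.reduceAdd, _root_.mul_one, _root_.Fin.isValue, _root_.MulZeroClass.mul_zero, _root_.MulZeroClass.zero_mul, _root_.add_zero, _root_.one_pow, _root_.one_mul, _root_.ne_eq, _root_.OfNat.ofNat_ne_zero, _root_.not_false_eq_true, _root_.zero_pow, _root_.Pi.sub_apply, _root_.Matrix.cons_val_one, _root_.Matrix.cons_val_zero, _root_.Matrix.cons_val, _root_.sub_zero, _root_.Pi.zero_apply] at h0 h1 h2 h3 h4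
      simp only [*, _root_.Fin.isValue, _root_.add_zero, _root_.mul_eq_zero, _root_.false_or, _root_.nonpos_iff_eq_zero, _root_.OfNat.ofNat_ne_zero, _root_.Matrix.cons_val_zero, _root_.IsEmpty.forall_iff, _root_.Nat.not_ofNat_le_one, _root_.Matrix.cons_val_one, _root_.Nat.reduceLeDiff, _root_.Matrix.cons_val, _root_.Std.le_refl, _root_.imp_self, _root_.and_self, h1, two', h3] at h0 h1 h2 h3 h4 ⊢
  · intro v
    rw [mem_Fl_iff]
    constructor
    · intro h
      simp only [_root_.nonpos_iff_eq_zero, _root_.OfNat.ofNat_ne_zero, _root_.Fin.isValue, _root_.Matrix.cons_val_zero, _root_.IsEmpty.forall_iff, _root_.Nat.not_ofNat_le_one, _root_.Matrix.cons_val_one, _root_.Nat.reduceLeDiff, _root_.Matrix.cons_val, _root_.Std.le_refl, _root_.forall_const, _root_.true_and] at h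
      simp only [tl_apply, tf_sub]
      refine vec_ext ?_ ?_ ?_ ?_ ?_ ?_ <;> simp [h]
    · intro h
      simp only [tl_apply, tf_sub] at h
      have h0 := congrFun h 0
      have h2 := congrFun h 2
      simp only [two', _root_.Nat.succ_eq_add_one, _root_.Nat.reduceAdd, _root_.mul_one, _root_.Fin.isValue, _root_.MulZeroClass.mul_zero, _root_.MulZeroClass.zero_mul, _root_.add_zero, _root_.one_pow, _root_.one_mul, _root_.ne_eq, _root_.OfNat.ofNat_ne_zero, _root_.not_false_eq_true, _root_.zero_pow, _root_.Matrix.cons_val_one, _root_.Matrix.cons_val_zero, _root_.Matrix.cons_val, _root_.Pi.zero_apply, _root_.mul_eq_zero, _root_.false_or] at h0 h2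
      simp only [*, _root_.nonpos_iff_eq_zero, _root_.OfNat.ofNat_ne_zero, _root_.Fin.isValue, _root_.Matrix.cons_val_zero, _root_.IsEmpty.forall_iff, _root_.Nat.not_ofNat_le_one, _root_.Matrix.cons_val_one, _root_.Nat.reduceLeDiff, _root_.Matrix.cons_val, _root_.Std.le_refl, _root_.imp_self, _root_.and_self, h0]

theorem zmod3_cases (b : ZMod 3) (hb : b ≠ 0) : b = 1 ∨ b = -1 := by
  revert b
  decide

theorem good_U1 (b c : ZMod 3) (h : b ≠ 0 ∨ c ≠ 0) : Good (tl 0 b c) := by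
  by_cases hb : b = 0
  · subst hb
    have hc : c ≠ 0 := by tauto
    rcases zmod3_cases c hc with rfl | rfl
    · exact good_z
    · have h1 := good_z.inv
      rw [tl_inv] at h1
      have h2 : tl (-0) (-0) (-1 + 0 * 0) = tl 0 0 (-1) := by congr 1 <;> ring
      rwa [h2] at h1
  · have hbb : b * b = 1 := by
      rcases zmod3_cases b hb with rfl | rfl <;> decide
    have h1 : Good (tl 0 b 0) := by
      rcases zmod3_cases b hb with rfl | rfl
      · exact good_b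
      · have h1 := good_b.inv
        rw [tl_inv] at h1
        have h2 : tl (-0) (-1) (-0 + 0 * 1) = tl 0 (-1) 0 := by congr 1 <;> ring
        rwa [h2] at h1
    have h2 := h1.conj (tl (c * b) 0 0)
    rw [tl_inv, tl_mul, tl_mul] at h2
    have h3 : tl (c * b + 0 + -(c * b)) (0 + b + -0) (0 + 0 + c * b * b + (-0 + c * b * 0) + (c * b + 0) * -0) = tl 0 b c := by
      congr 1
      · ring
      · ring
      · linear_combination c * hbb
    rwa [h3] at h2

theorem good_U2 (a c : ZMod 3) (h : a ≠ 0 ∨ c ≠ 0) : Good (tl a 0 c) := by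
  by_cases ha : a = 0
  · subst ha
    exact good_U1 0 c (Or.inr (by tauto))
  · have haa : a * a = 1 := by
      rcases zmod3_cases a ha with rfl | rfl <;> decide
    have h1 : Good (tl a 0 0) := by
      rcases zmod3_cases a ha with rfl | rfl
      · exact good_a
      · have h1 := good_a.inv
        rw [tl_inv] at h1
        have h2 : tl (-1) (-0) (-0 + 1 * 0) = tl (-1) 0 0 := by congr 1 <;> ring
        rwa [h2] at h1
    have h2 := h1.conj (tl 0 (-(c * a)) 0)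
    rw [tl_inv, tl_mul, tl_mul] at h2
    have h3 : tl (0 + a + -0) (-(c * a) + 0 + -(-(c * a))) (0 + 0 + 0 * 0 + (-0 + 0 * -(c * a)) + (0 + a) * -(-(c * a))) = tl a 0 c := by
      congr 1
      · ring
      · ring
      · linear_combination c * haa
    rwa [h3] at h2

/-- **task 3753**: the `3`-elements of the centralizer of a transvection-type element form a `3`-group. -/
theorem tri (x : L) (hx : x ∈ U1 ∨ x ∈ U2) (h1 : x ≠ 1) (P Q : Subgroup L) (hP : IsPGroup 3 P) (hQ : IsPGroup 3 Q)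
    (hPx : ∀ g ∈ P, g * x = x * g) (hQx : ∀ g ∈ Q, g * x = x * g) : IsPGroup 3 ↥(P ⊔ Q) := by
  have hgood : Good x := by
    rcases hx with ⟨b, c, rfl⟩ | ⟨a, c, rfl⟩
    · refine good_U1 b c ?_
      by_contra hcon
      push Not at hcon
      rw [hcon.1, hcon.2] at h1
      exact h1 tl_one
    · refine good_U2 a c ?_
      by_contra hcon
      push Not at hcon
      rw [hcon.1, hcon.2] at h1
      exact h1 tl_one
  exact hgood.tri P Q hP hQ hPx hQx

end Cfsg.Agent.H300.Co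
end

section
prune_inst 0xfdfefbbbf8fddfffff7e7ff7fdcffdfdfbffffe6fffdcbffe9ebff1fff4b6defe5fbaf8fef50ffdff6e23610f87bd3f9ffceffe36bdc7ffffd5ff45ffbff8ffdf7bd0151f69c341fbc2fffe3f077ee7f000000000000000000000000000041000200000000

-- part: H300/Co/Core
section
prune_inst 0x20000040702200000000008001002020400000900023000160400a000b0921008040070002300000000082804000004003100040020000000000080000010020800182009018ac04140001800080000000000000000000000000000000000000000000000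
set_option linter.all false
open scoped Cfsg.Agent.FastGrp

/-!
# `O_3(G) = 1` and the order of `G` (TEAM S5227, task 3755)
-/

set_option autoImplicit false
set_option linter.style.longLine false

namespace Cfsg.Agent.H300.Co

open Cfsg.Agent.H776.Co.Lin Subgroup

/-- a normal `3`-subgroup of `G` lies in `T` -/
theorem le_T {G : Subgroup L} (hG : Syl G) (N : Subgroup L) (hN : N ≤ G) (hNn : ∀ g ∈ G, ∀ n ∈ N, g * n * g⁻¹ ∈ N)
    (hp : IsPGroup 3 N) : N ≤ T := by
  have h3 : Fact (Nat.Prime 3) := ⟨Nat.prime_three⟩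
  have hTN : T ≤ normalizer (N : Set L) := by
    intro t ht
    rw [mem_normalizer_iff]
    intro n
    refine ⟨fun h => hNn t (hG.le ht) n h, fun h => ?_⟩
    have := hNn t⁻¹ (G.inv_mem (hG.le ht)) _ h
    simpa [mul_assoc] using this
  have hsup : IsPGroup 3 ↥(N ⊔ T) := by
    rw [sup_comm]
    exact isPGroup_T.to_sup_of_normal_right' hp hTN
  have hle : N ⊔ T ≤ G := sup_le hN hG.le
  have h1 : T.relIndex (N ⊔ T) * (N ⊔ T).relIndex G = T.relIndex G := relIndex_mul_relIndex _ _ _ le_sup_right hle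
  have h2 : T.relIndex (N ⊔ T) = 1 := by
    obtain ⟨k, hk⟩ := (IsPGroup.iff_card.1 hsup)
    have h4 : T.relIndex (N ⊔ T) ∣ 3 ^ k := by
      rw [← hk]
      exact Subgroup.relIndex_dvd_card _ _
    obtain ⟨m, -, hm⟩ := (Nat.dvd_prime_pow Nat.prime_three).1 h4
    rcases Nat.eq_zero_or_pos m with rfl | hm0
    · rw [hm, pow_zero]
    · exfalso
      apply hG.idx
      rw [← h1, hm]
      exact Dvd.dvd.mul_right (dvd_pow_self 3 hm0.ne') _
  exact le_sup_left.trans (relIndex_eq_one.1 h2)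

theorem exists_z {N : Subgroup L} (hNT : N ≤ T) (hn : ∀ t ∈ T, ∀ n ∈ N, t * n * t⁻¹ ∈ N) (h1 : N ≠ ⊥) : tl 0 0 1 ∈ N := by
  have hnt : Nontrivial N := (Subgroup.nontrivial_iff_ne_bot N).2 h1
  obtain ⟨⟨u, hu⟩, hu1⟩ := exists_ne (1 : N)
  obtain ⟨a, b, c, rfl⟩ := hNT hu
  -- a nontrivial central element
  have key : ∀ c : ZMod 3, c ≠ 0 → tl 0 0 c ∈ N → tl 0 0 1 ∈ N := by
    intro c hc h
    have hcc : c = 1 ∨ c = -1 := by
      have key : ∀ c : ZMod 3, c ≠ 0 → c = 1 ∨ c = -1 := by decide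
      exact key c hc
    rcases hcc with rfl | rfl
    · exact h
    · have h2 := N.inv_mem h
      rw [tl_inv] at h2
      have h3 : tl (-0) (-0) (-(-1) + 0 * 0) = tl 0 0 1 := by congr 1 <;> ring
      rwa [h3] at h2
  have hcomm : ∀ x y : ZMod 3, tl 0 0 (x * b - a * y) ∈ N := by
    intro x y
    have h2 := N.mul_mem (hn (tl x y 0) (tl_mem_T _ _ _) _ hu) (N.inv_mem hu)
    rw [tl_inv, tl_inv, tl_mul, tl_mul, tl_mul] at h2
    convert h2 using 2 <;> ring
  by_cases ha : a = 0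
  · by_cases hb : b = 0
    · refine key c ?_ (by rwa [ha, hb] at hu)
      rintro rfl
      apply hu1
      apply Subtype.ext
      show tl a b 0 = 1
      rw [ha, hb, tl_one]
    · refine key (1 * b - a * 0) ?_ (hcomm 1 0)
      simpa using hb
  · refine key (0 * b - a * 1) ?_ (hcomm 0 1)
    simpa using ha

/-- **task 3755**: `O_3(G) = 1`. -/
theorem core {G : Subgroup L} (hG : Syl G) (h1 : ∃ g ∈ G, ∃ v, inW1 v ∧ ¬ inW1 (g v)) (h3 : ∃ g ∈ G, ∃ v, inW3 v ∧ ¬ inW3 (g v))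
    (N : Subgroup L) (hN : N ≤ G) (hNn : ∀ g ∈ G, ∀ n ∈ N, g * n * g⁻¹ ∈ N) (hp : IsPGroup 3 N) : N = ⊥ := by
  by_contra hne
  have hNT := le_T hG N hN hNn hp
  have hz := exists_z hNT (fun t ht => hNn t (hG.le ht)) hne
  -- the fixed space is `G`-invariant
  have hinv : ∀ g ∈ G, ∀ v, (∀ n ∈ N, n v = v) → ∀ n ∈ N, n (g v) = g v := by
    intro g hg v hv n hn
    have h4 := hNn g⁻¹ (G.inv_mem hg) n hn
    rw [inv_inv] at h4
    have h5 := hv _ h4
    have h6 : g ((g⁻¹ * n * g) v) = n (g v) := by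
      show (g * (g⁻¹ * n * g)) v = (n * g) v
      rw [show g * (g⁻¹ * n * g) = n * g by group]
    rw [← h6, h5]
  have hW3 : ∀ v, (∀ n ∈ N, n v = v) → inW3 v := by
    intro v hv
    have h4 := hv _ hz
    rw [tl_apply] at h4
    have h5 : tf 0 0 1 v - v = 0 := by rw [h4, sub_self]
    rw [tf_sub] at h5
    have g0 := congrFun h5 0
    have g1 := congrFun h5 1
    have g3 := congrFun h5 3
    have two' : (2 : ZMod 3) ≠ 0 := by decide
    simp [two'] at g0 g1 g3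
    simp [g3, two'] at g0
    exact ⟨g0, g1, g3⟩
  by_cases hU : N ≤ U1
  · have h4 : ∀ v, inW3 v → ∀ n ∈ N, n v = v := by
      rintro v ⟨k3, k4, k5⟩ n hn
      obtain ⟨b, c, rfl⟩ := hU hn
      rw [tl_apply, ← sub_eq_zero, tf_sub]
      funext i
      fin_cases i <;> simp [k3, k4, k5]
    obtain ⟨g, hg, v, hv, hgv⟩ := h3
    exact hgv (hW3 _ (hinv g hg v (h4 v hv)))
  · obtain ⟨n, hn, hnU⟩ := Set.not_subset.1 hU
    obtain ⟨a, b, c, rfl⟩ := hNT hn
    have ha : a ≠ 0 := by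
      rintro rfl
      exact hnU ⟨b, c, rfl⟩
    have h4 : ∀ v, inW1 v → ∀ n ∈ N, n v = v := by
      rintro v ⟨k1, k2, k3, k4, k5⟩ n hn
      obtain ⟨a, b, c, rfl⟩ := hNT hn
      rw [tl_apply, ← sub_eq_zero, tf_sub]
      funext i
      fin_cases i <;> simp [k1, k2, k3, k4, k5]
    have h5 : ∀ v, (∀ n ∈ N, n v = v) → inW1 v := by
      intro v hv
      obtain ⟨k3, k4, k5⟩ := hW3 v hv
      have h6 := hv _ hn
      rw [tl_apply] at h6
      have h7 : tf a b c v - v = 0 := by rw [h6, sub_self]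
      rw [tf_sub] at h7
      have g0 := congrFun h7 0
      have g1 := congrFun h7 1
      have two' : (2 : ZMod 3) ≠ 0 := by decide
      simp [k3, k4, k5, ha] at g0 g1
      simp [g1, ha, two'] at g0
      exact ⟨g0, g1, k3, k4, k5⟩
    obtain ⟨g, hg, v, hv, hgv⟩ := h1
    exact hgv (h5 _ (hinv g hg v (h4 v hv)))

/-- `|GL_6(3)|` -/
theorem card_L : Nat.card L = 2 ^ 13 * 3 ^ 15 * 5 * 7 * 11 ^ 2 * 13 ^ 2 := by
  have h3 : Fact (Nat.Prime 3) := ⟨Nat.prime_three⟩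
  have h1 : Nat.card (GL (Fin 6) (ZMod 3)) = Nat.card L :=
    Nat.card_congr (Matrix.GeneralLinearGroup.toLin.trans (LinearMap.GeneralLinearGroup.generalLinearEquiv (ZMod 3) V)).toEquiv
  rw [← h1, Matrix.card_GL_field]
  simp [Fin.prod_univ_succ, Nat.card_zmod]

/-- **task 3755**: the order of `G`. -/
theorem ord {G : Subgroup L} (hG : Syl G) : Nat.card G ∣ 2 ^ 13 * 3 ^ 3 * 5 * 7 * 11 ^ 2 * 13 ^ 2 := by
  have h1 : Nat.card T * T.relIndex G = Nat.card G := by
    rw [← Subgroup.relIndex_bot_left, ← Subgroup.relIndex_bot_left G]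
    exact relIndex_mul_relIndex _ _ _ bot_le hG.le
  have h2 : Nat.card G ∣ Nat.card L := card_subgroup_dvd_card G
  rw [card_L, ← h1, card_T] at h2
  have h4 : T.relIndex G ∣ 3 ^ 12 * (2 ^ 13 * 5 * 7 * 11 ^ 2 * 13 ^ 2) := by
    refine Nat.dvd_of_mul_dvd_mul_left (k := 27) (by norm_num) (h2.trans (dvd_of_eq (by norm_num)))
  have h5 : (T.relIndex G).Coprime (3 ^ 12) := by
    refine Nat.Coprime.pow_right 12 ?_
    exact ((Nat.Prime.coprime_iff_not_dvd Nat.prime_three).2 hG.idx).symm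
  have h6 := h5.dvd_of_dvd_mul_left h4
  rw [← h1, card_T]
  refine (Nat.mul_dvd_mul_left 27 h6).trans (dvd_of_eq (by norm_num))

end Cfsg.Agent.H300.Co
end

-- part: H975/Co1/GF_mg
section
prune_inst 0x40000000000000000000000000000000000000200000000004000000010000000100080000000000080000000020000000000000000000000000000000000000000000000000000000000000000000000000000000000000000000000000000000000
set_option linter.all false
open scoped Cfsg.Agent.FastGrp

-- part: H975/Co1/GF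
section
/-!
S5227, C9: the linear group `GF F` induced on `A` by a saturated fusion system on `P` (task 3767).
-/

set_option autoImplicit false
set_option linter.style.longLine false

namespace Cfsg.Agent.H975.Co1

open Subgroup Cfsg Cfsg.FusionSystem Cfsg.Agent.H752 Cfsg.Agent.H776.Co Cfsg.Agent.H776.Co.P

/-! ### basics on `A` -/

/-- `A ≃ V` -/
def equivA : A ≃ Lin.V where
  toFun x := crd x
  invFun v := ⟨vec v, vec_mem v⟩
  left_inv x := Subtype.ext (vec_crd x.2)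
  right_inv v := crd_vec v

theorem card_A : Nat.card A = 3 ^ 6 := by
  rw [Nat.card_congr equivA, Nat.card_fun, Nat.card_zmod, Nat.card_eq_fintype_card, Fintype.card_fin]

theorem exists_vec {x : P} (hx : x ∈ A) : ∃ v, x = vec v := ⟨crd x, (vec_crd hx).symm⟩

theorem A_comm {x y : P} (hx : x ∈ A) (hy : y ∈ A) : x * y = y * x := by
  obtain ⟨u, rfl⟩ := exists_vec hx
  obtain ⟨v, rfl⟩ := exists_vec hy
  rw [← vec_add, ← vec_add, add_comm]

theorem A_pow {x : P} (hx : x ∈ A) : x ^ 3 = 1 := by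
  obtain ⟨u, rfl⟩ := exists_vec hx
  rw [pow_succ, pow_two, ← vec_add, ← vec_add, ← vec_zero]
  congr 1
  funext i
  simp only [Pi.add_apply, Pi.zero_apply]
  generalize u i = t
  revert t
  decide

theorem A_conj_mem (x : P) {y : P} (hy : y ∈ A) : x * y * x⁻¹ ∈ A := by
  obtain ⟨v, rfl⟩ := exists_vec hy
  rw [conj_vec]
  exact vec_mem _

theorem mem_normalizer_A (x : P) : x ∈ normalizer (A : Set P) := by
  rw [mem_normalizer_iff]
  intro y
  refine ⟨fun hy => A_conj_mem x hy, fun hy => ?_⟩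
  have := A_conj_mem x⁻¹ hy
  rwa [show x⁻¹ * (x * y * x⁻¹) * x⁻¹⁻¹ = y by group] at this

/-- the fixed points of a nontrivial element of `T` are determined by three coordinates -/
theorem fix_inj {a b c : ZMod 3} (h : ¬ (a = 0 ∧ b = 0 ∧ c = 0)) :
    ∃ i j k : Fin 6, ∀ v : Lin.V, Lin.tf a b c v = v → v i = 0 → v j = 0 → v k = 0 → v = 0 := by
  have key : ∀ v : Lin.V, Lin.tf a b c v = v → b * v 5 = 0 ∧ a * v 4 + c * v 5 = 0 ∧ 2 * b * v 4 + b ^ 2 * v 5 = 0 ∧
      a * v 2 + c * v 4 + b * (v 3 + a * v 4 + c * v 5) = 0 ∧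
      2 * a * v 1 + 2 * c * v 3 + a ^ 2 * v 2 + 2 * a * c * v 4 + c ^ 2 * v 5 = 0 := by
    intro v hv
    have a4 := congrFun hv 4
    have a3 := congrFun hv 3
    have a2 := congrFun hv 2
    have a1 := congrFun hv 1
    have a0 := congrFun hv 0
    simp only [Lin.tf, Matrix.cons_val] at a4 a3 a2 a1 a0
    refine ⟨?_, ?_, ?_, ?_, ?_⟩
    · linear_combination a4
    · linear_combination a3
    · linear_combination a2
    · linear_combination a1
    · linear_combination a0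
  by_cases hb : b = 0
  · by_cases ha : a = 0
    · subst ha hb
      have hc : c ≠ 0 := fun hc => h ⟨rfl, rfl, hc⟩
      refine ⟨0, 1, 2, fun v hv h0 h1 h2 => ?_⟩
      obtain ⟨k1, k2, k3, k4, k5⟩ := key v hv
      have v5 : v 5 = 0 := by
        have : c * v 5 = 0 := by linear_combination k2
        exact (mul_eq_zero.1 this).resolve_left hc
      have v4 : v 4 = 0 := by
        have : c * v 4 = 0 := by linear_combination k4
        exact (mul_eq_zero.1 this).resolve_left hc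
      have v3 : v 3 = 0 := by
        have : 2 * c * v 3 = 0 := by linear_combination k5 - c ^ 2 * v5
        exact (mul_eq_zero.1 this).resolve_left (mul_ne_zero (by decide) hc)
      funext i
      fin_cases i
      exacts [h0, h1, h2, v3, v4, v5]
    · subst hb
      refine ⟨0, 3, 5, fun v hv h0 h3 h5 => ?_⟩
      obtain ⟨k1, k2, k3, k4, k5⟩ := key v hv
      have v4 : v 4 = 0 := by
        have : a * v 4 = 0 := by linear_combination k2 - c * h5
        exact (mul_eq_zero.1 this).resolve_left ha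
      have v2 : v 2 = 0 := by
        have : a * v 2 = 0 := by linear_combination k4 - c * v4
        exact (mul_eq_zero.1 this).resolve_left ha
      have v1 : v 1 = 0 := by
        have : 2 * a * v 1 = 0 := by linear_combination k5 - 2 * c * h3 - a ^ 2 * v2 - 2 * a * c * v4 - c ^ 2 * h5
        exact (mul_eq_zero.1 this).resolve_left (mul_ne_zero (by decide) ha)
      funext i
      fin_cases i
      exacts [h0, v1, v2, h3, v4, h5]
  · refine ⟨0, 1, 2, fun v hv h0 h1 h2 => ?_⟩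
    obtain ⟨k1, k2, k3, k4, k5⟩ := key v hv
    have v5 : v 5 = 0 := (mul_eq_zero.1 k1).resolve_left hb
    have v4 : v 4 = 0 := by
      have : 2 * b * v 4 = 0 := by linear_combination k3 - b ^ 2 * v5
      exact (mul_eq_zero.1 this).resolve_left (mul_ne_zero (by decide) hb)
    have v3 : v 3 = 0 := by
      have : b * v 3 = 0 := by linear_combination k4 - a * h2 - c * v4 - a * b * v4 - b * c * v5
      exact (mul_eq_zero.1 this).resolve_left hb
    funext i
    fin_cases i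
    exacts [h0, h1, h2, v3, v4, v5]

theorem tf_sub (a b c : ZMod 3) (u v : Lin.V) : Lin.tf a b c (u - v) = Lin.tf a b c u - Lin.tf a b c v :=
  map_sub (Lin.tl a b c) u v

/-- `C_A(x)` has order at most 27 for `x ∉ A` -/
theorem card_fix_le {x : P} (hx : x ∉ A) {D : Subgroup P} (hD : D ≤ A) (hc : ∀ y ∈ D, x * y = y * x) : Nat.card D ≤ 27 := by
  obtain ⟨i, j, k, H⟩ := fix_inj (a := x.a) (b := x.b) (c := x.c) hx
  have hf : ∀ y ∈ D, Lin.tf x.a x.b x.c (crd y) = crd y := by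
    intro y hy
    apply vec_injective
    rw [← conj_vec, vec_crd (hD hy), hc y hy, mul_inv_cancel_right]
  have hinj : Function.Injective (fun y : D => (crd y i, crd y j, crd y k)) := by
    intro y z h
    simp only [Prod.mk.injEq] at h
    have h0 := H (crd y - crd z) (by rw [tf_sub, hf y y.2, hf z z.2]) (by simp [h.1]) (by simp [h.2.1]) (by simp [h.2.2])
    have h1 : crd (y : P) = crd z := sub_eq_zero.1 h0
    refine Subtype.ext ?_
    rw [← vec_crd (hD y.2), h1, vec_crd (hD z.2)]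
  have h1 := Nat.card_le_card_of_injective _ hinj
  rwa [Nat.card_prod, Nat.card_prod, Nat.card_zmod] at h1

/-- `P → GL(V)` -/
def toL : P →* Lin.L where
  toFun x := Lin.tl x.a x.b x.c
  map_one' := Lin.tl_one
  map_mul' x y := (Lin.tl_mul x.a x.b x.c y.a y.b y.c).symm

theorem tl_inj {a b c a' b' c' : ZMod 3} (h : Lin.tl a b c = Lin.tl a' b' c') : a = a' ∧ b = b' ∧ c = c' := by
  have h1 : ∀ v, Lin.tf a b c v = Lin.tf a' b' c' v := fun v => by
    rw [← Lin.tl_apply, h, Lin.tl_apply]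
  have h5 := h1 ![0, 0, 0, 0, 0, 1]
  have h2 := h1 ![0, 0, 1, 0, 0, 0]
  refine ⟨?_, ?_, ?_⟩
  · simpa [Lin.tf] using congrFun h2 1
  · simpa [Lin.tf] using congrFun h5 4
  · simpa [Lin.tf] using congrFun h5 3

theorem card_T : Nat.card Lin.T = 27 := by
  have e : ZMod 3 × ZMod 3 × ZMod 3 ≃ Lin.T := by
    refine Equiv.ofBijective (fun t => ⟨Lin.tl t.1 t.2.1 t.2.2, _, _, _, rfl⟩) ⟨?_, ?_⟩
    · rintro ⟨a, b, c⟩ ⟨a', b', c'⟩ h
      obtain ⟨h1, h2, h3⟩ := tl_inj (congrArg Subtype.val h)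
      rw [Prod.mk.injEq, Prod.mk.injEq]
      exact ⟨h1, h2, h3⟩
    · rintro ⟨g, a, b, c, rfl⟩
      exact ⟨(a, b, c), rfl⟩
  rw [← Nat.card_congr e, Nat.card_prod, Nat.card_prod, Nat.card_zmod]

theorem A_unique' {B : Subgroup P} (h1 : Nat.card B = 3 ^ 6) (h3 : ∀ x ∈ B, ∀ y ∈ B, x * y = y * x) : B = A := by
  by_contra hne
  have hBA : ¬ B ≤ A := fun hle => hne (Subgroup.eq_of_le_of_card_ge hle (by rw [card_A, h1]))
  obtain ⟨x, hxB, hxA⟩ := SetLike.not_le_iff_exists.1 hBA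
  have k1 : Nat.card ↥(B ⊓ A) ≤ 27 := card_fix_le hxA inf_le_right fun y hy => h3 x hxB y hy.1
  have k2 : Nat.card (toL.comp B.subtype).ker ≤ 27 := by
    refine le_trans (Nat.card_le_card_of_injective (β := ↥(B ⊓ A)) (fun y => ⟨(y : B), (y : B).2, ?_⟩) ?_) k1
    · have h : Lin.tl ((y : B) : P).a ((y : B) : P).b ((y : B) : P).c = Lin.tl 0 0 0 := by
        rw [Lin.tl_one]
        exact y.2
      exact tl_inj h
    · intro y z h
      exact Subtype.ext (Subtype.ext (congrArg (fun t : ↥(B ⊓ A) => (t : P)) h))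
  have k3 := Subgroup.card_mul_index (toL.comp B.subtype).ker
  rw [Subgroup.index_ker, h1] at k3
  have k4 : 27 ≤ Nat.card (toL.comp B.subtype).range := by
    by_contra hlt
    have := Nat.mul_le_mul k2 (Nat.le_of_lt_succ (not_le.1 hlt))
    rw [k3] at this
    norm_num at this
  have hle : (toL.comp B.subtype).range ≤ Lin.T := by
    rintro _ ⟨y, rfl⟩
    exact ⟨_, _, _, rfl⟩
  have : Finite Lin.T := Nat.finite_of_card_ne_zero (by rw [card_T]; decide)
  have heq : (toL.comp B.subtype).range = Lin.T := Subgroup.eq_of_le_of_card_ge hle (by rw [card_T]; exact k4)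
  have m1 : Lin.tl 1 0 0 ∈ (toL.comp B.subtype).range := by
    rw [heq]
    exact ⟨_, _, _, rfl⟩
  have m2 : Lin.tl 0 1 0 ∈ (toL.comp B.subtype).range := by
    rw [heq]
    exact ⟨_, _, _, rfl⟩
  obtain ⟨y, hy⟩ := m1
  obtain ⟨z, hz⟩ := m2
  obtain ⟨y1, y2, -⟩ := tl_inj hy
  obtain ⟨z1, z2, -⟩ := tl_inj hz
  have h5 := congrArg P.c (h3 y y.2 z z.2)
  rw [mul_c, mul_c] at h5
  have y1' : (y : P).a = 1 := y1
  have y2' : (y : P).b = 0 := y2
  have z1' : (z : P).a = 0 := z1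
  have z2' : (z : P).b = 1 := z2
  rw [y1', y2', z1', z2', mul_one, mul_zero, add_zero, add_comm (z : P).c] at h5
  exact one_ne_zero (add_eq_left.1 h5)

theorem A_unique {B : Subgroup P} (h1 : Nat.card B = 3 ^ 6) (_h2 : ∀ x ∈ B, x ^ 3 = 1) (h3 : ∀ x ∈ B, ∀ y ∈ B, x * y = y * x) : B = A :=
  A_unique' h1 h3

/-! ### maps of the system defined on an overgroup of `A` -/

theorem mem_of_A {F : FusionSystem (⊤ : Subgroup P)} {R : Subgroup P} {f : P → P} (hR : A ≤ R) (hf : Mp F R f) : ∀ x ∈ A, f x ∈ A := by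
  obtain ⟨B, hB, -, hc⟩ := hf.exists_image hR
  have : B = A := by
    refine A_unique (hc.trans card_A) (fun y hy => ?_) (fun y hy z hz => ?_)
    · obtain ⟨x, hx, rfl⟩ := (hB y).1 hy
      rw [← hf.pow (hR hx), A_pow hx, hf.one]
    · obtain ⟨x, hx, rfl⟩ := (hB y).1 hy
      obtain ⟨x', hx', rfl⟩ := (hB z).1 hz
      rw [← hf.mul (hR hx) (hR hx'), A_comm hx hx', hf.mul (hR hx') (hR hx)]
  intro x hx
  rw [← this, hB]
  exact ⟨x, hx, rfl⟩

/-- an additive injective map of `V` is linear -/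
theorem exists_lin {f : Lin.V → Lin.V} (hadd : ∀ u v, f (u + v) = f u + f v) (hinj : Function.Injective f) :
    ∃ g : Lin.L, ∀ v, g v = f v := by
  let φ : Lin.V →+ Lin.V := AddMonoidHom.mk' f hadd
  let ψ : Lin.V →ₗ[ZMod 3] Lin.V := φ.toZModLinearMap 3
  exact ⟨LinearEquiv.ofInjectiveEndo ψ (fun u v h => hinj h), fun v => rfl⟩

theorem exists_lft {f : P → P} (hmem : ∀ x ∈ A, f x ∈ A) (hmul : ∀ x ∈ A, ∀ y ∈ A, f (x * y) = f x * f y)
    (hinj : ∀ x ∈ A, ∀ y ∈ A, f x = f y → x = y) : ∃ g : Lin.L, ∀ x ∈ A, f x = lft g x := by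
  obtain ⟨g, hg⟩ := exists_lin (f := fun v => crd (f (vec v)))
    (fun u v => by
      apply vec_injective
      rw [vec_crd (hmem _ (vec_mem _)), vec_add, vec_add, vec_crd (hmem _ (vec_mem _)), vec_crd (hmem _ (vec_mem _)),
        hmul _ (vec_mem _) _ (vec_mem _)])
    (fun u v h => by
      have h1 := congrArg vec h
      simp only [vec_crd (hmem _ (vec_mem _))] at h1
      exact vec_injective (hinj _ (vec_mem _) _ (vec_mem _) h1))
  refine ⟨g, fun x hx => ?_⟩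
  rw [lft, hg, vec_crd hx, vec_crd (hmem x hx)]

theorem exists_GF {F : FusionSystem (⊤ : Subgroup P)} {R : Subgroup P} {f : P → P} (hR : A ≤ R) (hf : Mp F R f) :
    ∃ g ∈ GF F, ∀ x ∈ A, f x = lft g x := by
  obtain ⟨g, hg⟩ := exists_lft (mem_of_A hR hf) (fun x hx y hy => hf.mul (hR hx) (hR hy))
    (fun x hx y hy h => hf.inj (hR hx) (hR hy) h)
  exact ⟨g, (hf.res hR).congr fun x hx => (hg x hx).symm, hg⟩

/-- the action of `f r` on `A` -/
theorem conj_tl {F : FusionSystem (⊤ : Subgroup P)} {R : Subgroup P} {f : P → P} (hR : A ≤ R) (hf : Mp F R f)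
    {g : Lin.L} (hg : ∀ x ∈ A, f x = lft g x) {r : P} (hr : r ∈ R) :
    Lin.tl (f r).a (f r).b (f r).c = g * Lin.tl r.a r.b r.c * g⁻¹ := by
  rw [eq_mul_inv_iff_mul_eq]
  refine LinearEquiv.ext fun v => ?_
  apply vec_injective
  rw [LinearEquiv.mul_apply, LinearEquiv.mul_apply, Lin.tl_apply, Lin.tl_apply, ← conj_vec, ← lft_vec, ← lft_vec,
    ← conj_vec, ← hg _ (vec_mem _), ← hg _ (A_conj_mem r (vec_mem v)), hf.mul (mul_mem hr (hR (vec_mem _))) (_root_.InvMemClass.inv_mem hr),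
    hf.mul hr (hR (vec_mem _)), hf.inv hr]

/-- conjugation on `A` as `lft` -/
theorem conj_eq_lft (s : P) {x : P} (hx : x ∈ A) : s * x * s⁻¹ = lft (Lin.tl s.a s.b s.c) x := by
  obtain ⟨v, rfl⟩ := exists_vec hx
  rw [conj_vec, lft_vec, Lin.tl_apply]

theorem lft_inj {g h : Lin.L} (H : ∀ x ∈ A, lft g x = lft h x) : g = h := by
  refine LinearEquiv.ext fun v => vec_injective ?_
  rw [← lft_vec, ← lft_vec, H _ (vec_mem v)]

theorem conj_mk (a b c : ZMod 3) {x : P} (hx : x ∈ A) :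
    (⟨a, b, c, 0, 0, 0, 0, 0, 0⟩ : P) * x * (⟨a, b, c, 0, 0, 0, 0, 0, 0⟩ : P)⁻¹ = lft (Lin.tl a b c) x :=
  conj_eq_lft ⟨a, b, c, 0, 0, 0, 0, 0, 0⟩ hx

theorem T_le_GF (F : FusionSystem (⊤ : Subgroup P)) : Lin.T ≤ GF F := by
  rintro g ⟨a, b, c, hg⟩
  rw [hg, mem_GF]
  have h := mp_conj F (P := A) le_top (s := (⟨a, b, c, 0, 0, 0, 0, 0, 0⟩ : P)) (mem_top _)
  exact h.congr fun x hx => (conj_mk a b c hx).symm

/-! ### `A` is weakly closed, hence fully automized and receptive -/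

theorem eq_A_of_isConj {F : FusionSystem (⊤ : Subgroup P)} {Q : Subgroup P} (h : F.IsConj A Q) : Q = A := by
  obtain ⟨φ, hφ, rfl⟩ := h
  refine le_antisymm ?_ ?_
  · rintro _ ⟨x, rfl⟩
    have := mem_of_A le_rfl (mp_ex hφ) x x.2
    rwa [ex_coe] at this
  · have hle : φ.range ≤ A := by
      rintro _ ⟨x, rfl⟩
      have := mem_of_A le_rfl (mp_ex hφ) x x.2
      rwa [ex_coe] at this
    have hc := H802.isConj_card_eq (H802.isConj_range hφ)
    exact (Subgroup.eq_of_le_of_card_ge hle hc.le).ge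

theorem aut_rec {F : FusionSystem (⊤ : Subgroup P)} (hF : F.IsSaturated 3) : F.IsFullyAutomized 3 A ∧ F.IsReceptive A := by
  obtain ⟨Q, hQ, h1, h2⟩ := hF A le_top
  rw [eq_A_of_isConj hQ] at h1 h2
  exact ⟨h1, h2⟩

theorem ext_GF {F : FusionSystem (⊤ : Subgroup P)} (hF : F.IsSaturated 3) {g : Lin.L} (hg : g ∈ GF F) {R : Subgroup P} (hR : A ≤ R)
    (hn : ∀ r ∈ R, g * Lin.tl r.a r.b r.c * g⁻¹ ∈ Lin.T) :
    ∃ f, Mp F R f ∧ (∀ x ∈ A, f x = lft g x) ∧ ∀ r ∈ R, Lin.tl (f r).a (f r).b (f r).c = g * Lin.tl r.a r.b r.c * g⁻¹ := by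
  obtain ⟨φ, hφ, h1⟩ := mem_GF.1 hg
  have hr : φ.range = A := eq_A_of_isConj ⟨φ, hφ, rfl⟩
  obtain ⟨ψ, hψ, h2⟩ := (aut_rec hF).2.2 A φ hφ hr
  have hRe : R ≤ extender ⊤ A φ := by
    intro r hr
    rw [H802.mem_extender_iff]
    obtain ⟨a, b, c, h3⟩ := hn r hr
    refine ⟨mem_top _, mem_normalizer_A r, ⟨a, b, c, 0, 0, 0, 0, 0, 0⟩, mem_top _, fun x hx => ?_⟩
    rw [h1, h1, conj_eq_lft _ (lft_mem _ _), ← h3, conj_eq_lft _ x.2, ← lft_mul, ← lft_mul]
    congr 1
    group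
  have hf : Mp F R (ex ψ) := (mp_ex hψ).res hRe
  have hfA : ∀ x ∈ A, ex ψ x = lft g x := fun x hx => by
    rw [ex_apply _ (hRe (hR hx)), h2 x hx, h1]
  exact ⟨_, hf, hfA, fun r hr => conj_tl hR hf hfA hr⟩

/-! ### the Sylow property -/

/-- `GL(V) → Aut(A)` -/
def toAut : Lin.L →* MulAut A where
  toFun g :=
    { toFun := fun x => ⟨lft g x, lft_mem g x⟩
      invFun := fun x => ⟨lft g⁻¹ x, lft_mem _ x⟩
      left_inv := fun x => Subtype.ext (by
        show lft g⁻¹ (lft g x) = x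
        rw [← lft_mul, inv_mul_cancel, lft_one x.2])
      right_inv := fun x => Subtype.ext (by
        show lft g (lft g⁻¹ x) = x
        rw [← lft_mul, mul_inv_cancel, lft_one x.2])
      map_mul' := fun x y => Subtype.ext (by
        obtain ⟨_, hx⟩ := x
        obtain ⟨_, hy⟩ := y
        obtain ⟨u, rfl⟩ := exists_vec hx
        obtain ⟨v, rfl⟩ := exists_vec hy
        show lft g (vec u * vec v) = lft g (vec u) * lft g (vec v)
        rw [← vec_add, lft_vec, lft_vec, lft_vec, map_add, vec_add]) }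
  map_one' := MulEquiv.ext fun x => Subtype.ext (lft_one x.2)
  map_mul' g h := MulEquiv.ext fun x => Subtype.ext (lft_mul g h x)

theorem toAut_coe (g : Lin.L) (x : A) : ((toAut g x : A) : P) = lft g x := rfl

theorem toAut_surjective : Function.Surjective toAut := by
  intro α
  obtain ⟨g, hg⟩ := exists_lft (f := ex fun x => ((α x : A) : P))
    (fun x hx => by rw [ex_apply _ hx]; exact (α ⟨x, hx⟩).2)
    (fun x hx y hy => by
      rw [ex_apply _ hx, ex_apply _ hy, ex_apply _ (mul_mem hx hy)]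
      exact congrArg Subtype.val (map_mul α ⟨x, hx⟩ ⟨y, hy⟩))
    (fun x hx y hy h => by
      rw [ex_apply _ hx, ex_apply _ hy] at h
      exact congrArg Subtype.val (α.injective (Subtype.ext h)))
  refine ⟨g, MulEquiv.ext fun x => Subtype.ext ?_⟩
  rw [toAut_coe, ← hg x x.2, ex_coe]

theorem comap_autGroup (F : FusionSystem (⊤ : Subgroup P)) : (F.autGroup A).comap toAut = GF F := by
  ext g
  rw [mem_comap, mp_iff_autGroup le_top, mem_GF]
  exact ⟨fun h => h.congr fun x hx => by rw [ex_apply _ hx, toAut_coe],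
    fun h => h.congr fun x hx => by rw [ex_apply _ hx, toAut_coe]⟩

theorem comap_autInducedBy : (autInducedBy (⊤ : Subgroup P) A).comap toAut = Lin.T := by
  ext g
  rw [mem_comap, H802.mem_autInducedBy_iff]
  constructor
  · rintro ⟨s, -, h⟩
    refine ⟨s.a, s.b, s.c, lft_inj fun x hx => ?_⟩
    rw [← conj_eq_lft s hx, ← h ⟨x, hx⟩, toAut_coe]
  · rintro ⟨a, b, c, rfl⟩
    refine ⟨⟨a, b, c, 0, 0, 0, 0, 0, 0⟩, mem_top _, fun x => ?_⟩
    rw [toAut_coe, conj_eq_lft _ x.2]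

theorem syl_GF {F : FusionSystem (⊤ : Subgroup P)} (hF : F.IsSaturated 3) : Lin.Syl (GF F) := by
  refine ⟨T_le_GF F, ?_⟩
  obtain ⟨-, R, hR⟩ := (aut_rec hF).1
  have h1 : ¬ 3 ∣ (R : Subgroup (F.autGroup A)).index := R.not_dvd_index
  rw [hR] at h1
  rw [← comap_autInducedBy, relIndex_comap, ← comap_autGroup, map_comap_eq_self_of_surjective toAut_surjective]
  exact h1

/-! ### signs -/

theorem tor_vec (e1 e2 e3 : ZMod 3) (v : Lin.V) : tor e1 e2 e3 (vec v) = vec (Lin.sf e1 e2 e3 v) := by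
  ext <;> simp [tor, vec, Lin.sf]

theorem tor_one {e1 e2 : ZMod 3} (e3 : ZMod 3) : tor e1 e2 e3 1 = 1 := by
  ext <;> simp [tor]

theorem tor_inv {e1 e2 e3 : ZMod 3} (h1 : e1 ^ 2 = 1) (h2 : e2 ^ 2 = 1) (x : P) :
    tor e1 e2 e3 x⁻¹ = (tor e1 e2 e3 x)⁻¹ := by
  rw [eq_inv_iff_mul_eq_one, ← tor_mul h1 h2, inv_mul_cancel, tor_one]

/-- signs normalise `T` -/
theorem sf_tf {e1 e2 e3 : ZMod 3} (h1 : e1 ^ 2 = 1) (h2 : e2 ^ 2 = 1) (a b c : ZMod 3) (v : Lin.V) :
    Lin.sf e1 e2 e3 (Lin.tf a b c v) = Lin.tf (e1 * a) (e2 * b) (e1 * e2 * c) (Lin.sf e1 e2 e3 v) := by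
  apply vec_injective
  have h := conj_vec (⟨a, b, c, 0, 0, 0, 0, 0, 0⟩ : P) v
  have h3 := congrArg (tor e1 e2 e3) h
  rw [tor_vec, tor_mul h1 h2, tor_mul h1 h2, tor_inv h1 h2, tor_vec, conj_vec] at h3
  exact h3.symm

theorem sign_conj {e1 e2 e3 : ZMod 3} (h1 : e1 ^ 2 = 1) (h2 : e2 ^ 2 = 1) {g : Lin.L} (hg : ∀ v, g v = Lin.sf e1 e2 e3 v)
    {t : Lin.L} (ht : t ∈ Lin.T) : g * t * g⁻¹ ∈ Lin.T := by
  obtain ⟨a, b, c, rfl⟩ := ht
  refine ⟨e1 * a, e2 * b, e1 * e2 * c, ?_⟩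
  rw [mul_inv_eq_iff_eq_mul]
  refine LinearEquiv.ext fun v => ?_
  rw [LinearEquiv.mul_apply, LinearEquiv.mul_apply, Lin.tl_apply, Lin.tl_apply, hg, hg, sf_tf h1 h2]

theorem norm_aux {F : FusionSystem (⊤ : Subgroup P)} (h : Nrm F) {g : Lin.L} (hg : g ∈ GF F)
    (hn : ∀ t ∈ Lin.T, g * t * g⁻¹ ∈ Lin.T) : ∃ f, Mp F ⊤ f ∧ ∃ (s : P) (e1 e2 e3 : ZMod 3), e1 ^ 2 = 1 ∧ e2 ^ 2 = 1 ∧ e3 ^ 2 = 1 ∧
      (∀ x, f x = s * tor e1 e2 e3 x * s⁻¹) ∧ ∀ v, g v = Lin.tf s.a s.b s.c (Lin.sf e1 e2 e3 v) := by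
  obtain ⟨f, hf, hfA, -⟩ := ext_GF h.sat hg (R := ⊤) le_top (fun r _ => hn _ ⟨r.a, r.b, r.c, rfl⟩)
  obtain ⟨s, e1, e2, e3, h1, h2, h3, hs⟩ := h.tor f hf
  refine ⟨f, hf, s, e1, e2, e3, h1, h2, h3, hs, fun v => ?_⟩
  apply vec_injective
  rw [← lft_vec, ← hfA _ (vec_mem v), hs, tor_vec, conj_vec]

theorem norm_GF {F : FusionSystem (⊤ : Subgroup P)} (h : Nrm F) : ∀ g ∈ GF F, (∀ t ∈ Lin.T, g * t * g⁻¹ ∈ Lin.T) →
    ∃ t ∈ Lin.T, Lin.IsSign (t * g) := by
  intro g hg hn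
  obtain ⟨f, hf, s, e1, e2, e3, h1, h2, h3, hs, hv⟩ := norm_aux h hg hn
  refine ⟨(Lin.tl s.a s.b s.c)⁻¹, inv_mem ⟨_, _, _, rfl⟩, e1, e2, e3, h1, h2, h3, fun v => ?_⟩
  rw [LinearEquiv.mul_apply, hv, ← Lin.tl_apply, ← LinearEquiv.mul_apply, inv_mul_cancel, LinearEquiv.coe_one, id]

theorem sign_uniq {a b c e1 e2 e3 d1 d2 d3 : ZMod 3} (h3 : e3 ^ 2 = 1)
    (h : ∀ v, Lin.sf d1 d2 d3 v = Lin.tf a b c (Lin.sf e1 e2 e3 v)) : a = 0 ∧ b = 0 ∧ c = 0 ∧ d1 = e1 ∧ d2 = e2 ∧ d3 = e3 := by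
  have k5 := h ![0, 0, 0, 0, 0, 1]
  have k2 := h ![0, 0, 1, 0, 0, 0]
  have k1 := h ![0, 1, 0, 0, 0, 0]
  have k4 := h ![0, 0, 0, 0, 1, 0]
  have e : e3 * e3 = 1 := by rw [← pow_two, h3]
  have a5 := congrFun k5 5
  have a4 := congrFun k5 4
  have a3 := congrFun k5 3
  have b1 := congrFun k2 1
  have c1 := congrFun k1 1
  have d4 := congrFun k4 4
  simp only [Lin.sf, Lin.tf, Matrix.cons_val, mul_zero, mul_one, zero_add, add_zero] at a5 a4 a3 b1 c1 d4
  subst a5
  have ha : a = 0 := by linear_combination d3 * (-b1) - a * e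
  have hb : b = 0 := by linear_combination d3 * (-a4) - b * e
  have hc : c = 0 := by linear_combination d3 * (-a3) - c * e
  exact ⟨ha, hb, hc, by linear_combination d3 * c1 - (d1 - e1) * e, by linear_combination d3 * d4 - (d2 - e2) * e, rfl⟩

theorem sign_lift {F : FusionSystem (⊤ : Subgroup P)} (h : Nrm F) {e1 e2 e3 : ZMod 3} (h1 : e1 ^ 2 = 1) (h2 : e2 ^ 2 = 1) (_h3 : e3 ^ 2 = 1)
    (hg : ∃ g ∈ GF F, ∀ v, g v = Lin.sf e1 e2 e3 v) : Mp F ⊤ (tor e1 e2 e3) := by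
  obtain ⟨g, hg, hv⟩ := hg
  obtain ⟨f, hf, s, d1, d2, d3, k1, k2, k3, hs, hw⟩ := norm_aux h hg fun t ht => sign_conj h1 h2 hv ht
  obtain ⟨-, -, -, rfl, rfl, rfl⟩ := sign_uniq k3 fun v => (hv v).symm.trans (hw v)
  refine (hf.comp (mp_conj F (P := ⊤) le_top (s := s⁻¹) (mem_top _)) fun x _ => mem_top _).congr fun x _ => ?_
  show _ = s⁻¹ * f x * s⁻¹⁻¹
  rw [hs]
  group

/-- `GF` is determined by `Mp F ⊤` up to `T` -/
theorem norm_GF' {F F' : FusionSystem (⊤ : Subgroup P)} (hF : F.IsSaturated 3) (htop : ∀ f, Mp F ⊤ f → Mp F' ⊤ f) :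
    ∀ g ∈ GF F, (∀ t ∈ Lin.T, g * t * g⁻¹ ∈ Lin.T) → g ∈ GF F' := by
  intro g hg hn
  obtain ⟨f, hf, hfA, -⟩ := ext_GF hF hg (R := ⊤) le_top (fun r _ => hn _ ⟨r.a, r.b, r.c, rfl⟩)
  exact ((htop f hf).res le_top).congr fun x hx => (hfA x hx).symm

end Cfsg.Agent.H975.Co1
end

-- part: H20/Co1/Chain
section
/-!
# The chain lemma (S5227, task C11a, helper20)

`extend_of_chain`: `F` saturated over the `p`-group `S`, `Q` normal in `S`, a chain `1 = C 0 ≤ ... ≤ C n = Q` with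
`[S, C (i + 1)] ≤ C i`; an automorphism of `Q` in the system which preserves all members of the chain extends to `S`.
-/

set_option autoImplicit false

namespace Cfsg.Agent.H20.Co1

open Subgroup Cfsg Cfsg.Agent.H752 Cfsg.FusionSystem Cfsg.Agent.H802

variable {Ω : Type*} [Group Ω] {S : Subgroup Ω} {p : ℕ}

/-- the submonoid of the automorphisms of `Q` acting trivially on the factors of the chain -/
def stabM (Q : Subgroup Ω) (C : ℕ → Subgroup Ω) (n : ℕ) (hle : ∀ i < n, C i ≤ C (i + 1)) : Submonoid (MulAut Q) where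
  carrier := {α | ∀ i < n, ∀ x : Q, (x : Ω) ∈ C (i + 1) → ((α x : Q) : Ω) * (x : Ω)⁻¹ ∈ C i}
  one_mem' := by
    intro i _ x _
    rw [MulAut.one_apply, mul_inv_cancel]
    exact one_mem _
  mul_mem' := by
    intro α β hα hβ i hi x hx
    have h1 := hβ i hi x hx
    have h2 : ((β x : Q) : Ω) ∈ C (i + 1) := by
      have := mul_mem (hle i hi h1) hx
      rwa [inv_mul_cancel_right] at this
    have h3 := hα i hi (β x) h2
    have := mul_mem h3 h1
    rwa [mul_assoc, inv_mul_cancel_left] at this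

/-- the same as a subgroup -/
def stab (Q : Subgroup Ω) [Finite Q] (C : ℕ → Subgroup Ω) (n : ℕ) (hle : ∀ i < n, C i ≤ C (i + 1)) :
    Subgroup (MulAut Q) where
  toSubmonoid := stabM Q C n hle
  inv_mem' := by
    intro α hα
    have hfin : Finite (MulAut Q) :=
      Finite.of_injective (fun f : MulAut Q => (f : Q → Q)) DFunLike.coe_injective
    have h1 : α⁻¹ ∈ Submonoid.powers α := mem_powers_iff_mem_zpowers.2 (_root_.InvMemClass.inv_mem (mem_zpowers α))
    obtain ⟨k, hk⟩ := h1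
    have h2 : α ^ k ∈ stabM Q C n hle := pow_mem hα k
    show α⁻¹ ∈ stabM Q C n hle
    rw [← hk]
    exact h2

theorem mem_stab {Q : Subgroup Ω} [Finite Q] {C : ℕ → Subgroup Ω} {n : ℕ} {hle : ∀ i < n, C i ≤ C (i + 1)}
    {α : MulAut Q} :
    α ∈ stab Q C n hle ↔ ∀ i < n, ∀ x : Q, (x : Ω) ∈ C (i + 1) → ((α x : Q) : Ω) * (x : Ω)⁻¹ ∈ C i := Iff.rfl

theorem C_le {Q : Subgroup Ω} {C : ℕ → Subgroup Ω} {n : ℕ} (hle : ∀ i < n, C i ≤ C (i + 1)) (hn : C n = Q) :
    ∀ i ≤ n, C i ≤ Q := by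
  intro i hi
  obtain ⟨k, rfl⟩ := Nat.exists_eq_add_of_le hi
  clear hi
  induction k with
  | zero => exact hn.le
  | succ k ih =>
    have key : ∀ m : ℕ, i ≤ m → m ≤ i + (k + 1) → C i ≤ C m := by
      intro m hm
      induction m, hm using Nat.le_induction with
      | base => intro _; exact le_rfl
      | succ m hm ih => intro h; exact (ih (by omega)).trans (hle m (by omega))
    exact (key _ (by omega) le_rfl).trans hn.le

/-- the stability group is a `p`-group -/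
theorem isPGroup_stab [Fact p.Prime] {Q : Subgroup Ω} [Finite Q] (hQ : IsPGroup p Q) {C : ℕ → Subgroup Ω} {n : ℕ}
    (hle : ∀ i < n, C i ≤ C (i + 1)) (h0 : C 0 = ⊥) (hn : C n = Q) : IsPGroup p (stab Q C n hle) := by
  rintro ⟨α, hα⟩
  have hfin : Finite (MulAut Q) :=
    Finite.of_injective (fun f : MulAut Q => (f : Q → Q)) DFunLike.coe_injective
  have key : ∀ i ≤ n, ∀ x : Q, (x : Ω) ∈ C i → (α ^ (Nat.card Q ^ i)) x = x := by
    intro i
    induction i with
    | zero =>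
      intro _ x hx
      rw [h0, Subgroup.mem_bot] at hx
      have : x = 1 := Subtype.ext hx
      rw [this, map_one]
    | succ i ih =>
      intro hi x hx
      set β := α ^ (Nat.card Q ^ i) with hβ
      have hβm : β ∈ stab Q C n hle := pow_mem hα _
      have h1 := hβm i (by omega) x hx
      have hc : ∃ c : Q, (c : Ω) ∈ C i ∧ β x = c * x := by
        refine ⟨β x * x⁻¹, h1, ?_⟩
        rw [inv_mul_cancel_right]
      obtain ⟨c, hc, hcx⟩ := hc
      have hβc : β c = c := ih (by omega) c hc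
      have h2 : ∀ m : ℕ, (β ^ m) x = c ^ m * x := by
        intro m
        induction m with
        | zero => rw [pow_zero, pow_zero, one_mul, MulAut.one_apply]
        | succ m ihm =>
          rw [pow_succ', MulAut.mul_apply, ihm, map_mul, map_pow, hβc, hcx, pow_succ, mul_assoc]
      rw [pow_succ, pow_mul, ← hβ, h2, pow_card_eq_one', one_mul]
  obtain ⟨k, hk⟩ : ∃ k, Nat.card Q = p ^ k := IsPGroup.iff_card.1 hQ
  refine ⟨k * n, Subtype.ext ?_⟩
  show α ^ p ^ (k * n) = 1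
  rw [pow_mul, ← hk]
  ext x
  exact congrArg Subtype.val (key n le_rfl x (by rw [hn]; exact x.2))

/-- **The chain lemma.** -/
theorem extend_of_chain [Fact p.Prime] [Finite S] (hS : IsPGroup p S) {F : FusionSystem S} (hF : F.IsSaturated p)
    {Q : Subgroup Ω} (hQS : Q ≤ S) (hQn : ∀ s ∈ S, ∀ x ∈ Q, s * x * s⁻¹ ∈ Q) {n : ℕ} {C : ℕ → Subgroup Ω}
    (h0 : C 0 = ⊥) (hn : C n = Q) (hle : ∀ i < n, C i ≤ C (i + 1))
    (hC : ∀ i < n, ∀ s ∈ S, ∀ x ∈ C (i + 1), s * x * s⁻¹ * x⁻¹ ∈ C i)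
    {f : Ω → Ω} (hf : Mp F Q f) (hfC : ∀ i ≤ n, ∀ x ∈ C i, f x ∈ C i) :
    ∃ g, Mp F S g ∧ ∀ x ∈ Q, g x = f x := by
  have hfinQ : Finite Q := finite_of_le hQS
  have hnorm : S ≤ normalizer (Q : Set Ω) := by
    intro s hs
    rw [Subgroup.mem_normalizer_iff]
    intro x
    refine ⟨fun hx => hQn s hs x hx, fun hx => ?_⟩
    have := hQn s⁻¹ (_root_.InvMemClass.inv_mem hs) _ hx
    rwa [show s⁻¹ * (s * x * s⁻¹) * s⁻¹⁻¹ = x by group] at this
  have hNS : normalizerIn S Q = S := inf_eq_left.2 hnorm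
  have hFN : F.IsFullyNormalized Q := by
    refine ⟨hQS, fun Q' _ => ?_⟩
    rw [hNS]
    exact Subgroup.card_le_of_le inf_le_left
  have hFA := isFullyAutomized_of_isFullyNormalized hS hF hFN
  have hFR := isReceptive_of_isFullyNormalized hS hF hFN
  have hQp : IsPGroup p Q := hS.to_le hQS
  have hB := isPGroup_stab hQp hle h0 hn
  have hCQ := C_le hle hn
  -- `Aut_S(Q)` is the stability group in `Aut_F(Q)`
  have hsub : ∀ γ ∈ autInducedBy S Q, γ ∈ stab Q C n hle := by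
    intro γ hγ
    obtain ⟨g, hg, h⟩ := (mem_autInducedBy_iff S Q γ).1 hγ
    rw [mem_stab]
    intro i hi x hx
    rw [h]
    exact hC i hi g hg x hx
  have key : ∀ γ ∈ stab Q C n hle, γ ∈ F.autGroup Q → γ ∈ autInducedBy S Q := by
    obtain ⟨-, R, hR⟩ := hFA
    have h1 : IsPGroup p ((stab Q C n hle).subgroupOf (F.autGroup Q)) := by
      rintro ⟨⟨γ, hγ'⟩, hγ⟩
      obtain ⟨k, hk⟩ := hB ⟨γ, hγ⟩
      refine ⟨k, ?_⟩
      apply Subtype.ext
      apply Subtype.ext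
      have h5 : γ ^ p ^ k = 1 := congrArg Subtype.val hk
      exact h5
    have h2 : (R : Subgroup (F.autGroup Q)) ≤ (stab Q C n hle).subgroupOf (F.autGroup Q) := by
      rw [hR]
      intro γ hγ
      exact hsub _ hγ
    have h3 := R.is_maximal' h1 h2
    intro γ hγ hγ'
    have h4 : (⟨γ, hγ'⟩ : F.autGroup Q) ∈ (stab Q C n hle).subgroupOf (F.autGroup Q) := hγ
    rw [h3, hR] at h4
    exact h4
  obtain ⟨α, hα, hfα⟩ := hf.exists_aut (fun x hx => by
    have := hfC n le_rfl x (by rw [hn]; exact hx)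
    rwa [hn] at this)
  -- `α` maps `C i` onto `C i`
  have honto : ∀ i ≤ n, ∀ x : Q, (x : Ω) ∈ C i → ((α⁻¹ x : Q) : Ω) ∈ C i := by
    intro i hi x hx
    have hfinC : Finite {y : Q // (y : Ω) ∈ C i} := inferInstance
    let φ : {y : Q // (y : Ω) ∈ C i} → {y : Q // (y : Ω) ∈ C i} := fun y => ⟨α y, by
      rw [← hfα _ y.1.2]
      exact hfC i hi _ y.2⟩
    have hinj : Function.Injective φ := by
      intro y z hyz
      have := congrArg (fun w : {y : Q // (y : Ω) ∈ C i} => (w : Q)) hyz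
      exact Subtype.ext (α.injective this)
    obtain ⟨⟨y, hy⟩, hyx⟩ := Finite.injective_iff_surjective.1 hinj ⟨x, hx⟩
    have h1 : α y = x := congrArg (fun w : {y : Q // (y : Ω) ∈ C i} => (w : Q)) hyx
    rw [← h1, MulAut.inv_apply_self]
    exact hy
  obtain ⟨φ, hφ, hφf⟩ := hf
  have hφr : φ.range = Q := by
    apply range_eq_of_mapsTo hφ
    intro x
    rw [hφf x x.2, hfα x x.2]
    exact Subtype.coe_prop _
  have hext : extender S Q φ = S := by
    apply le_antisymm (extender_le S Q φ)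
    intro s hs
    rw [mem_extender_iff]
    refine ⟨hs, hnorm hs, ?_⟩
    obtain ⟨γ, hγ⟩ := exists_conjAut (hnorm hs)
    have hγI : γ ∈ autInducedBy S Q := (mem_autInducedBy_iff S Q γ).2 ⟨s, hs, hγ⟩
    have hγA := autInducedBy_le_autGroup F hQS hγI
    have h1 : α * γ * α⁻¹ ∈ F.autGroup Q := mul_mem (mul_mem hα hγA) (_root_.InvMemClass.inv_mem hα)
    have h2 : α * γ * α⁻¹ ∈ stab Q C n hle := by
      rw [mem_stab]
      intro i hi x hx
      have h3 := honto (i + 1) (by omega) x hx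
      have h4 := hsub γ hγI i hi (α⁻¹ x) h3
      have h5 := hfC i (by omega) _ h4
      have h6 : ((γ (α⁻¹ x) : Q) : Ω) * ((α⁻¹ x : Q) : Ω)⁻¹ = ((γ (α⁻¹ x) * (α⁻¹ x)⁻¹ : Q) : Ω) := rfl
      rw [h6, hfα _ (Subtype.coe_prop _)] at h5
      have h7 : α (γ (α⁻¹ x) * (α⁻¹ x)⁻¹) = (α * γ * α⁻¹) x * x⁻¹ := by
        rw [map_mul, map_inv, MulAut.apply_inv_self]
        rfl
      have h8 : ((α ⟨((γ (α⁻¹ x) * (α⁻¹ x)⁻¹ : Q) : Ω), Subtype.coe_prop _⟩ : Q) : Ω) =
          (((α * γ * α⁻¹) x * x⁻¹ : Q) : Ω) := by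
        rw [← h7]
      rw [h8] at h5
      exact h5
    obtain ⟨h, hh, h3⟩ := (mem_autInducedBy_iff S Q _).1 (key _ h2 h1)
    refine ⟨h, hh, fun x hx => ?_⟩
    have h4 := h3 (α x)
    have h5 : (α * γ * α⁻¹) (α x) = α (γ x) := by
      rw [MulAut.mul_apply, MulAut.mul_apply, MulAut.inv_apply_self]
    rw [h5] at h4
    rw [hφf _ hx, hφf _ x.2, hfα _ hx, hfα _ x.2]
    have h6 : (⟨s * (x : Ω) * s⁻¹, hx⟩ : Q) = γ x := Subtype.ext (hγ x).symm
    rw [h6]
    exact h4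
  obtain ⟨ψ, hψ, hψe⟩ := hFR.2 Q φ hφ hφr
  refine ⟨ex ψ, ?_, fun x hx => ?_⟩
  · have h1 := mp_ex hψ
    generalize (ex ψ : Ω → Ω) = g at h1 ⊢
    rwa [hext] at h1
  · have hx' : x ∈ extender S Q φ := by rw [hext]; exact hQS hx
    rw [ex_apply _ hx', hψe x hx hx', hφf x hx]

end Cfsg.Agent.H20.Co1
end

-- part: H20/Co1/Model
section
/-!
# The chains of subgroups of the model (S5227, task C11a, helper20)
-/

set_option autoImplicit false
set_option linter.style.longLine false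

namespace Cfsg.Agent.H20.Co1

open Subgroup Cfsg Cfsg.Agent.H752 Cfsg.Agent.H776.Co P

/-- `W2 = <11, 12>` -/
def W2 : Subgroup P where
  carrier := {x | x.a = 0 ∧ x.b = 0 ∧ x.c = 0 ∧ x.m22 = 0 ∧ x.m13 = 0 ∧ x.m23 = 0 ∧ x.m33 = 0}
  mul_mem' := by
    rintro x y ⟨h1, h2, h3, h9, h11, h13, h15⟩ ⟨h4, h5, h6, h10, h12, h14, h16⟩
    exact ⟨by simp [h1, h4], by simp [h2, h5], by simp [h1, h3, h6],
      by simp [h2, h9, h10], by simp [h1, h3, h11, h12], by simp [h2, h13, h14], by simp [h15, h16]⟩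
  one_mem' := ⟨rfl, rfl, rfl, rfl, rfl, rfl, rfl⟩
  inv_mem' := by
    rintro x ⟨h1, h2, h3, h9, h11, h13, h15⟩
    exact ⟨by simp [h1], by simp [h2], by simp [h1, h3],
      by simp [h2, h9, h13], by simp [h1, h3, h11, h13], by simp [h2, h13, h15], by simp [h15]⟩

/-- `X4 = <11, 12, 22, 13>` -/
def X4 : Subgroup P where
  carrier := {x | x.a = 0 ∧ x.b = 0 ∧ x.c = 0 ∧ x.m23 = 0 ∧ x.m33 = 0}
  mul_mem' := by
    rintro x y ⟨h1, h2, h3, h7, h9⟩ ⟨h4, h5, h6, h8, h10⟩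
    exact ⟨by simp [h1, h4], by simp [h2, h5], by simp [h1, h3, h6], by simp [h2, h7, h8], by simp [h9, h10]⟩
  one_mem' := ⟨rfl, rfl, rfl, rfl, rfl⟩
  inv_mem' := by
    rintro x ⟨h1, h2, h3, h7, h9⟩
    exact ⟨by simp [h1], by simp [h2], by simp [h1, h3], by simp [h2, h7, h9], by simp [h9]⟩

/-- `A <x13>` -/
def AZ : Subgroup P where
  carrier := {x | x.a = 0 ∧ x.b = 0}
  mul_mem' := by
    rintro x y ⟨h1, h2⟩ ⟨h4, h5⟩
    exact ⟨by simp [h1, h4], by simp [h2, h5]⟩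
  one_mem' := ⟨rfl, rfl⟩
  inv_mem' := by
    rintro x ⟨h1, h2⟩
    exact ⟨by simp [h1], by simp [h2]⟩

/-- `W5 <x13>` -/
def Y6 : Subgroup P where
  carrier := {x | x.a = 0 ∧ x.b = 0 ∧ x.m33 = 0}
  mul_mem' := by
    rintro x y ⟨h1, h2, h3⟩ ⟨h4, h5, h6⟩
    exact ⟨by simp [h1, h4], by simp [h2, h5], by simp [h3, h6]⟩
  one_mem' := ⟨rfl, rfl, rfl⟩
  inv_mem' := by
    rintro x ⟨h1, h2, h3⟩
    exact ⟨by simp [h1], by simp [h2], by simp [h3]⟩

/-- `QL` -/
def QL : Subgroup P where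
  carrier := {x | x.a = 0 ∧ x.m33 = 0}
  mul_mem' := by
    rintro x y ⟨h1, h2⟩ ⟨h4, h5⟩
    exact ⟨by simp [h1, h4], by simp [h2, h5]⟩
  one_mem' := ⟨rfl, rfl⟩
  inv_mem' := by
    rintro x ⟨h1, h2⟩
    exact ⟨by simp [h1], by simp [h2]⟩

/-! ### commutators -/

/-- the commutator `s x s⁻¹ x⁻¹` -/
theorem comm_a (s x : P) : (s * x * s⁻¹ * x⁻¹).a = 0 := by simp
theorem comm_b (s x : P) : (s * x * s⁻¹ * x⁻¹).b = 0 := by simp
theorem comm_c (s x : P) : (s * x * s⁻¹ * x⁻¹).c = s.a * x.b - x.a * s.b := by simp only [_root_.Cfsg.Agent.H776.Co.P.mul_c, _root_.Cfsg.Agent.H776.Co.P.inv_c, _root_.Cfsg.Agent.H776.Co.P.mul_a, _root_.Cfsg.Agent.H776.Co.P.inv_b, _root_.mul_neg, _root_.Cfsg.Agent.H776.Co.P.inv_a, _root_.add_neg_cancel_comm]; ring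
theorem comm_m33 (s x : P) : (s * x * s⁻¹ * x⁻¹).m33 = 0 := by simp

/-- the commutator with an element of `A` -/
theorem comm_A (s x : P) (hx : x ∈ A) : s * x * s⁻¹ * x⁻¹ =
    ⟨0, 0, 0, 2 * s.a * x.m12 + 2 * s.c * x.m13 + s.a ^ 2 * x.m22 + 2 * s.a * s.c * x.m23 + s.c ^ 2 * x.m33,
      s.a * x.m22 + s.c * x.m23 + s.b * (x.m13 + s.a * x.m23 + s.c * x.m33),
      2 * s.b * x.m23 + s.b ^ 2 * x.m33, s.a * x.m23 + s.c * x.m33, s.b * x.m33, 0⟩ := by
  obtain ⟨h1, h2, h3⟩ := hx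
  rw [mul_inv_eq_iff_eq_mul, mul_inv_eq_iff_eq_mul]
  ext <;> simp only [h1, h2, h3, _root_.Cfsg.Agent.H776.Co.P.mul_a, _root_.add_zero, _root_.zero_add, _root_.Cfsg.Agent.H776.Co.P.mul_b, _root_.Cfsg.Agent.H776.Co.P.mul_c, _root_.MulZeroClass.mul_zero, _root_.MulZeroClass.zero_mul, _root_.Cfsg.Agent.H776.Co.P.mul_m11, _root_.ne_eq, _root_.OfNat.ofNat_ne_zero, _root_.not_false_eq_true, _root_.zero_pow, _root_.Cfsg.Agent.H776.Co.P.mul_m12, _root_.Cfsg.Agent.H776.Co.P.mul_m22, _root_.Cfsg.Agent.H776.Co.P.mul_m13, _root_.Cfsg.Agent.H776.Co.P.mul_m23, _root_.Cfsg.Agent.H776.Co.P.mul_m33] <;> ring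

theorem comm_Y6 (s x : P) (hx : x ∈ AZ) : s * x * s⁻¹ * x⁻¹ ∈ W5 := by
  obtain ⟨h1, h2⟩ := hx
  exact ⟨comm_a s x, comm_b s x, by rw [comm_c, h1, h2]; ring, comm_m33 s x⟩

theorem comm_R' (s x : P) : s * x * s⁻¹ * x⁻¹ ∈ Y6 := ⟨comm_a s x, comm_b s x, comm_m33 s x⟩

theorem comm_W5 (s x : P) (hx : x ∈ W5) : s * x * s⁻¹ * x⁻¹ ∈ X4 := by
  have h := comm_A s x ⟨hx.1, hx.2.1, hx.2.2.1⟩
  rw [h]
  obtain ⟨h1, h2, h3, h4⟩ := hx
  exact ⟨rfl, rfl, rfl, by simp [h4], rfl⟩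

theorem comm_X4 (s x : P) (hx : x ∈ X4) : s * x * s⁻¹ * x⁻¹ ∈ W2 := by
  have h := comm_A s x ⟨hx.1, hx.2.1, hx.2.2.1⟩
  rw [h]
  obtain ⟨h1, h2, h3, h4, h5⟩ := hx
  exact ⟨rfl, rfl, rfl, by simp [h4, h5], by simp [h4, h5], by simp [h5], rfl⟩

theorem comm_W3 (s x : P) (hx : x ∈ W3) : s * x * s⁻¹ * x⁻¹ ∈ W2 := by
  have h := comm_A s x ⟨hx.1, hx.2.1, hx.2.2.1⟩
  rw [h]
  obtain ⟨h1, h2, h3, h4, h5, h6⟩ := hx
  exact ⟨rfl, rfl, rfl, by simp [h5, h6], by simp [h5, h6], by simp [h6], rfl⟩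

theorem comm_W2 (s x : P) (hx : x ∈ W2) : s * x * s⁻¹ * x⁻¹ ∈ W1 := by
  have h := comm_A s x ⟨hx.1, hx.2.1, hx.2.2.1⟩
  rw [h]
  obtain ⟨h1, h2, h3, h4, h5, h6, h7⟩ := hx
  exact ⟨rfl, rfl, rfl, by simp [h4, h5, h6, h7], by simp [h6, h7], by simp [h6, h7], by simp [h7], rfl⟩

theorem comm_W1 (s x : P) (hx : x ∈ W1) : s * x * s⁻¹ * x⁻¹ = 1 := by
  have h := comm_A s x ⟨hx.1, hx.2.1, hx.2.2.1⟩
  rw [h]
  obtain ⟨h1, h2, h3, h4, h5, h6, h7, h8⟩ := hx
  ext <;> simp [h4, h5, h6, h7, h8]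

theorem W2_le_W3 : W2 ≤ W3 := fun _ ⟨h1, h2, h3, _, h5, h6, h7⟩ => ⟨h1, h2, h3, h5, h6, h7⟩
theorem W3_le_X4 : W3 ≤ X4 := fun _ ⟨h1, h2, h3, _, h6, h7⟩ => ⟨h1, h2, h3, h6, h7⟩

theorem W1_le_W2 : W1 ≤ W2 := fun _ ⟨h1, h2, h3, _, h5, h6, h7, h8⟩ => ⟨h1, h2, h3, h5, h6, h7, h8⟩
theorem X4_le_W5 : X4 ≤ W5 := fun _ ⟨h1, h2, h3, _, h7⟩ => ⟨h1, h2, h3, h7⟩

/-- the chain for `R1`, `R2` -/
def chA (Q : Subgroup P) : ℕ → Subgroup P
  | 0 => ⊥
  | 1 => W1
  | 2 => W2
  | 3 => W3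
  | 4 => X4
  | 5 => W5
  | 6 => A
  | 7 => AZ
  | _ => Q

/-- the chain for `R3` -/
def ch3 : ℕ → Subgroup P
  | 0 => ⊥
  | 1 => W1
  | 2 => W2
  | 3 => W3
  | 4 => X4
  | 5 => W5
  | 6 => Y6
  | 7 => QL
  | _ => R3

theorem chA_le {Q : Subgroup P} (hQ : AZ ≤ Q) : ∀ i < 8, chA Q i ≤ chA Q (i + 1) := by
  intro i hi
  interval_cases i
  · exact bot_le
  · exact W1_le_W2
  · exact W2_le_W3
  · exact W3_le_X4
  · exact X4_le_W5
  · exact fun _ ⟨h1, h2, h3, _⟩ => ⟨h1, h2, h3⟩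
  · exact fun _ ⟨h1, h2, _⟩ => ⟨h1, h2⟩
  · exact hQ

theorem chA_comm {Q : Subgroup P} : ∀ i < 8, ∀ s ∈ (⊤ : Subgroup P), ∀ x ∈ chA Q (i + 1),
    s * x * s⁻¹ * x⁻¹ ∈ chA Q i := by
  intro i hi s _ x hx
  interval_cases i
  · exact Subgroup.mem_bot.2 (comm_W1 s x hx)
  · exact comm_W2 s x hx
  · exact comm_W3 s x hx
  · exact W2_le_W3 (comm_X4 s x hx)
  · exact comm_W5 s x hx
  · exact comm_Y6 s x ⟨hx.1, hx.2.1⟩
  · have h := comm_Y6 s x hx
    exact ⟨h.1, h.2.1, h.2.2.1⟩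
  · exact ⟨comm_a s x, comm_b s x⟩

theorem ch3_le : ∀ i < 8, ch3 i ≤ ch3 (i + 1) := by
  intro i hi
  interval_cases i
  · exact bot_le
  · exact W1_le_W2
  · exact W2_le_W3
  · exact W3_le_X4
  · exact X4_le_W5
  · exact fun _ ⟨h1, h2, _, h4⟩ => ⟨h1, h2, h4⟩
  · exact fun _ ⟨h1, _, h3⟩ => ⟨h1, h3⟩
  · exact fun _ ⟨_, h3⟩ => h3

theorem ch3_comm : ∀ i < 8, ∀ s ∈ (⊤ : Subgroup P), ∀ x ∈ ch3 (i + 1), s * x * s⁻¹ * x⁻¹ ∈ ch3 i := by
  intro i hi s _ x hx
  interval_cases i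
  · exact Subgroup.mem_bot.2 (comm_W1 s x hx)
  · exact comm_W2 s x hx
  · exact comm_W3 s x hx
  · exact W2_le_W3 (comm_X4 s x hx)
  · exact comm_W5 s x hx
  · exact comm_Y6 s x ⟨hx.1, hx.2.1⟩
  · exact comm_R' s x
  · exact ⟨comm_a s x, comm_m33 s x⟩

end Cfsg.Agent.H20.Co1
end

-- part: H20/Co1/Pres
section
/-!
# The chains of subgroups of the model are preserved (S5227, task C11a, helper20)
-/

set_option autoImplicit false
set_option linter.style.longLine false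

namespace Cfsg.Agent.H20.Co1

open Subgroup Cfsg Cfsg.Agent.H752 Cfsg.Agent.H776.Co P

/-- the images of commutators -/
theorem Mp.comm {Ω : Type*} [Group Ω] {S Q : Subgroup Ω} {F : FusionSystem S} {h : Ω → Ω} (hh : Mp F Q h) {s x : Ω}
    (hs : s ∈ Q) (hx : x ∈ Q) : h (s * x * s⁻¹ * x⁻¹) = h s * h x * (h s)⁻¹ * (h x)⁻¹ := by
  rw [hh.mul (mul_mem (mul_mem hs hx) (inv_mem hs)) (inv_mem hx), hh.mul (mul_mem hs hx) (inv_mem hs),
    hh.mul hs hx, hh.inv hs, hh.inv hx]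

/-- `M3 = <11, 12, 13>` -/
def InM3 (x : P) : Prop := x.a = 0 ∧ x.b = 0 ∧ x.c = 0 ∧ x.m22 = 0 ∧ x.m23 = 0 ∧ x.m33 = 0

/-- `x13` -/
def z13 : P := ⟨0, 0, 1, 0, 0, 0, 0, 0, 0⟩

theorem z13_mem : z13 ∈ AZ := ⟨rfl, rfl⟩

theorem two_two (x : ZMod 3) : 2 * (2 * x) = x := by
  have : (2 : ZMod 3) * 2 = 1 := by decide
  rw [← mul_assoc, this, one_mul]

theorem comm_AZ (s x : P) (hs : s ∈ AZ) (hx : x ∈ A) : s * x * s⁻¹ * x⁻¹ =
    ⟨0, 0, 0, 2 * s.c * x.m13 + s.c ^ 2 * x.m33, s.c * x.m23, 0, s.c * x.m33, 0, 0⟩ := by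
  rw [comm_A s x hx]
  obtain ⟨h1, h2⟩ := hs
  ext <;> simp only [h1, h2, _root_.MulZeroClass.mul_zero, _root_.MulZeroClass.zero_mul, _root_.zero_add, _root_.ne_eq, _root_.OfNat.ofNat_ne_zero, _root_.not_false_eq_true, _root_.zero_pow, _root_.add_zero]

theorem chA_pres {F : FusionSystem (⊤ : Subgroup P)} {Q : Subgroup P} (hQ : AZ ≤ Q) {h : P → P} (hh : Mp F Q h)
    (hm : ∀ x ∈ Q, h x ∈ Q) (hA : ∀ x ∈ A, h x ∈ A) (hAZ : ∀ x ∈ AZ, h x ∈ AZ) :
    ∀ i ≤ 8, ∀ x ∈ chA Q i, h x ∈ chA Q i := by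
  have hAAZ : A ≤ AZ := fun _ ⟨h1, h2, _⟩ => ⟨h1, h2⟩
  have hAQ : A ≤ Q := hAAZ.trans hQ
  have hsurj : ∀ y ∈ AZ, ∃ x ∈ AZ, h x = y := fun y hy => (hh.res hQ).surj hAZ hy
  -- W3
  have h3 : ∀ x ∈ W3, h x ∈ W3 := by
    intro x hx
    have hxA : x ∈ A := ⟨hx.1, hx.2.1, hx.2.2.1⟩
    obtain ⟨y, hy, hyz⟩ := hsurj z13 z13_mem
    have h1 : h (y * x * y⁻¹ * x⁻¹) = 1 := by
      rw [comm_AZ y x hy hxA, hx.2.2.2.1, hx.2.2.2.2.1, hx.2.2.2.2.2]
      simp only [mul_zero, add_zero]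
      exact hh.one
    rw [Mp.comm hh (hQ hy) (hAQ hxA), hyz, comm_AZ z13 (h x) z13_mem (hA x hxA)] at h1
    have e1 := congrArg P.m13 h1
    have e2 := congrArg P.m12 h1
    have e3 := congrArg P.m11 h1
    simp only [z13, one_m13, one_m12, one_m11, one_mul, one_pow, mul_one] at e1 e2 e3
    have hxA' := hA x hxA
    refine ⟨hxA'.1, hxA'.2.1, hxA'.2.2, ?_, e2, e1⟩
    rw [e1, add_zero] at e3
    have := two_two (h x).m13
    rw [e3, mul_zero] at this
    exact this.symm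
  -- M3
  have hM3 : ∀ x, InM3 x → InM3 (h x) := by
    rintro x ⟨x1, x2, x3, x4, x5, x6⟩
    have hu : (⟨0, 0, 0, 0, 0, 0, 2 * (x.m11 - x.m13), x.m12, x.m13⟩ : P) ∈ A := ⟨rfl, rfl, rfl⟩
    have e : x = z13 * ⟨0, 0, 0, 0, 0, 0, 2 * (x.m11 - x.m13), x.m12, x.m13⟩ * z13⁻¹ *
        (⟨0, 0, 0, 0, 0, 0, 2 * (x.m11 - x.m13), x.m12, x.m13⟩ : P)⁻¹ := by
      rw [comm_AZ z13 _ z13_mem hu]
      ext
      · exact x1
      · exact x2
      · exact x3
      · simp only [z13, mul_one, one_pow, one_mul]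
        rw [two_two]
        ring
      · simp [z13]
      · exact x4
      · simp [z13]
      · exact x5
      · exact x6
    rw [e, Mp.comm hh (hQ z13_mem) (hAQ hu), comm_AZ _ _ (hAZ _ z13_mem) (hA _ hu)]
    exact ⟨rfl, rfl, rfl, rfl, rfl, rfl⟩
  -- W1
  have h1 : ∀ x ∈ W1, h x ∈ W1 := by
    rintro x ⟨x1, x2, x3, x4, x5, x6, x7, x8⟩
    have hu : (⟨0, 0, 0, 0, 0, 0, 2 * x.m11, 0, 0⟩ : P) ∈ A := ⟨rfl, rfl, rfl⟩
    have hu3 : InM3 (⟨0, 0, 0, 0, 0, 0, 2 * x.m11, 0, 0⟩ : P) := ⟨rfl, rfl, rfl, rfl, rfl, rfl⟩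
    have e : x = z13 * ⟨0, 0, 0, 0, 0, 0, 2 * x.m11, 0, 0⟩ * z13⁻¹ *
        (⟨0, 0, 0, 0, 0, 0, 2 * x.m11, 0, 0⟩ : P)⁻¹ := by
      rw [comm_AZ z13 _ z13_mem hu]
      ext
      · exact x1
      · exact x2
      · exact x3
      · simp only [z13, mul_one, one_pow, mul_zero, add_zero]
        rw [two_two]
      · simp [x4]
      · exact x5
      · simp [x6]
      · exact x7
      · exact x8
    obtain ⟨-, -, -, -, y5, y6⟩ := hM3 _ hu3
    rw [e, Mp.comm hh (hQ z13_mem) (hAQ hu), comm_AZ _ _ (hAZ _ z13_mem) (hA _ hu), y5, y6]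
    exact ⟨rfl, rfl, rfl, by simp, rfl, by simp, rfl, rfl⟩
  -- W2
  have h2 : ∀ x ∈ W2, h x ∈ W2 := by
    intro x hx
    have e1 := h3 x (W2_le_W3 hx)
    have e2 := hM3 x ⟨hx.1, hx.2.1, hx.2.2.1, hx.2.2.2.1, hx.2.2.2.2.2.1, hx.2.2.2.2.2.2⟩
    exact ⟨e1.1, e1.2.1, e1.2.2.1, e2.2.2.2.1, e1.2.2.2.1, e1.2.2.2.2.1, e1.2.2.2.2.2⟩
  -- X4
  have h4 : ∀ x ∈ X4, h x ∈ X4 := by
    rintro x ⟨x1, x2, x3, x4, x5⟩
    have hu : (⟨0, 0, 0, x.m11, x.m12, x.m22, 0, 0, 0⟩ : P) ∈ W3 := ⟨rfl, rfl, rfl, rfl, rfl, rfl⟩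
    have hv : InM3 (⟨0, 0, 0, 0, 0, 0, x.m13, 0, 0⟩ : P) := ⟨rfl, rfl, rfl, rfl, rfl, rfl⟩
    have hvA : (⟨0, 0, 0, 0, 0, 0, x.m13, 0, 0⟩ : P) ∈ A := ⟨rfl, rfl, rfl⟩
    have huA : (⟨0, 0, 0, x.m11, x.m12, x.m22, 0, 0, 0⟩ : P) ∈ A := ⟨rfl, rfl, rfl⟩
    have e : x = ⟨0, 0, 0, x.m11, x.m12, x.m22, 0, 0, 0⟩ * ⟨0, 0, 0, 0, 0, 0, x.m13, 0, 0⟩ := by
      ext <;> simp [x1, x2, x3, x4, x5]
    rw [e, hh.mul (hAQ huA) (hAQ hvA)]
    refine mul_mem (W3_le_X4 (h3 _ hu)) ?_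
    have := hM3 _ hv
    exact ⟨this.1, this.2.1, this.2.2.1, this.2.2.2.2.1, this.2.2.2.2.2⟩
  -- W5
  have h5 : ∀ x ∈ W5, h x ∈ W5 := by
    intro x hx
    have hxA : x ∈ A := ⟨hx.1, hx.2.1, hx.2.2.1⟩
    obtain ⟨y, hy, hyz⟩ := hsurj z13 z13_mem
    have hc : y * x * y⁻¹ * x⁻¹ ∈ A := by
      rw [comm_AZ y x hy hxA]; exact ⟨rfl, rfl, rfl⟩
    have e1 : h (y * (y * x * y⁻¹ * x⁻¹) * y⁻¹ * (y * x * y⁻¹ * x⁻¹)⁻¹) = 1 := by
      rw [comm_AZ y _ hy hc, comm_AZ y x hy hxA, hx.2.2.2]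
      simp only [mul_zero, add_zero]
      exact hh.one
    rw [Mp.comm hh (hQ hy) (hAQ hc), Mp.comm hh (hQ hy) (hAQ hxA), hyz] at e1
    have hc' : z13 * h x * z13⁻¹ * (h x)⁻¹ ∈ A := by
      rw [comm_AZ z13 _ z13_mem (hA x hxA)]; exact ⟨rfl, rfl, rfl⟩
    rw [comm_AZ z13 _ z13_mem hc', comm_AZ z13 _ z13_mem (hA x hxA)] at e1
    have e2 := congrArg P.m11 e1
    simp only [z13, one_m11, one_mul, one_pow, mul_one, add_zero] at e2
    have hxA' := hA x hxA
    refine ⟨hxA'.1, hxA'.2.1, hxA'.2.2, ?_⟩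
    have := two_two (h x).m33
    rw [e2, mul_zero] at this
    exact this.symm
  intro i hi
  interval_cases i
  · intro x hx
    have : x = 1 := Subgroup.mem_bot.1 hx
    rw [this, hh.one]
    exact one_mem _
  · exact h1
  · exact h2
  · exact h3
  · exact h4
  · exact h5
  · exact hA
  · exact hAZ
  · exact hm

/-! ### the chain of `R3` -/

/-- `x12` -/
def z12 : P := ⟨1, 0, 0, 0, 0, 0, 0, 0, 0⟩
/-- `x23` -/
def z23 : P := ⟨0, 1, 0, 0, 0, 0, 0, 0, 0⟩

theorem comm_z12 (x : P) (hx : x ∈ A) : z12 * x * z12⁻¹ * x⁻¹ =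
    ⟨0, 0, 0, 2 * x.m12 + x.m22, x.m22, 0, x.m23, 0, 0⟩ := by
  rw [comm_A z12 x hx]
  ext <;> simp [z12]

theorem comm_z23 (x : P) (hx : x ∈ A) : z23 * x * z23⁻¹ * x⁻¹ =
    ⟨0, 0, 0, 0, x.m13, 2 * x.m23 + x.m33, 0, x.m33, 0⟩ := by
  rw [comm_A z23 x hx]
  ext <;> simp [z23]

theorem ch3_pres {F : FusionSystem (⊤ : Subgroup P)} {h : P → P} (hh : Mp F R3 h)
    (hm : ∀ x ∈ R3, h x ∈ R3) (h1 : ∀ x ∈ W1, h x ∈ W1) (h3 : ∀ x ∈ W3, h x ∈ W3)
    (hQL : ∀ x ∈ QL, h x ∈ QL) (h5 : ∀ x ∈ W5, h x ∈ W5) :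
    ∀ i ≤ 8, ∀ x ∈ ch3 i, h x ∈ ch3 i := by
  have hW5 : W5 ≤ R3 := fun _ ⟨_, _, _, h4⟩ => h4
  have hz12 : z12 ∈ R3 := rfl
  have hz23 : z23 ∈ R3 := rfl
  have hsurj : ∀ y ∈ R3, ∃ x ∈ R3, h x = y := fun y hy => hh.surj hm hy
  -- Y6
  have h6 : ∀ x ∈ Y6, h x ∈ Y6 := by
    intro x hx
    have hxR : x ∈ R3 := hx.2.2
    have key : ∀ y ∈ R3, y.a * (h x).b - (h x).a * y.b = 0 := by
      intro y hy
      obtain ⟨y', hy', rfl⟩ := hsurj y hy
      have e1 := h5 _ (comm_Y6 y' x ⟨hx.1, hx.2.1⟩)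
      rw [Mp.comm hh hy' hxR] at e1
      rw [← comm_c]
      exact e1.2.2.1
    have e1 := key z12 hz12
    have e2 := key z23 hz23
    simp only [z12, z23, one_mul, zero_mul, mul_zero, mul_one, sub_zero, zero_sub, neg_eq_zero] at e1 e2
    exact ⟨e2, e1, hm x hxR⟩
  -- X4
  have h4 : ∀ x ∈ X4, h x ∈ X4 := by
    rintro x ⟨x1, x2, x3, x4, x5⟩
    have hu : (⟨0, 0, 0, 0, 2 * x.m11, 0, 0, x.m13, 0⟩ : P) ∈ W5 := ⟨rfl, rfl, rfl, rfl⟩
    have huA : (⟨0, 0, 0, 0, 2 * x.m11, 0, 0, x.m13, 0⟩ : P) ∈ A := ⟨rfl, rfl, rfl⟩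
    have hv : (⟨0, 0, 0, 0, 0, 0, x.m12, 2 * x.m22, 0⟩ : P) ∈ W5 := ⟨rfl, rfl, rfl, rfl⟩
    have hvA : (⟨0, 0, 0, 0, 0, 0, x.m12, 2 * x.m22, 0⟩ : P) ∈ A := ⟨rfl, rfl, rfl⟩
    have hcu : z12 * ⟨0, 0, 0, 0, 2 * x.m11, 0, 0, x.m13, 0⟩ * z12⁻¹ * (⟨0, 0, 0, 0, 2 * x.m11, 0, 0, x.m13, 0⟩ : P)⁻¹ ∈ R3 := by
      rw [comm_z12 _ huA]; rfl
    have hcv : z23 * ⟨0, 0, 0, 0, 0, 0, x.m12, 2 * x.m22, 0⟩ * z23⁻¹ * (⟨0, 0, 0, 0, 0, 0, x.m12, 2 * x.m22, 0⟩ : P)⁻¹ ∈ R3 := by
      rw [comm_z23 _ hvA]; rfl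
    have e : x = (z12 * ⟨0, 0, 0, 0, 2 * x.m11, 0, 0, x.m13, 0⟩ * z12⁻¹ * (⟨0, 0, 0, 0, 2 * x.m11, 0, 0, x.m13, 0⟩ : P)⁻¹) *
        (z23 * ⟨0, 0, 0, 0, 0, 0, x.m12, 2 * x.m22, 0⟩ * z23⁻¹ * (⟨0, 0, 0, 0, 0, 0, x.m12, 2 * x.m22, 0⟩ : P)⁻¹) := by
      rw [comm_z12 _ huA, comm_z23 _ hvA]
      ext <;> simp [x1, x2, x3, x4, x5, two_two]
    rw [e, hh.mul hcu hcv, Mp.comm hh hz12 (hW5 hu), Mp.comm hh hz23 (hW5 hv)]
    exact mul_mem (comm_W5 _ _ (h5 _ hu)) (comm_W5 _ _ (h5 _ hv))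
  -- W2
  have h2 : ∀ x ∈ W2, h x ∈ W2 := by
    rintro x ⟨x1, x2, x3, x4, x5, x6, x7⟩
    have hu : (⟨0, 0, 0, 0, 2 * (x.m11 - x.m12), x.m12, 0, 0, 0⟩ : P) ∈ X4 := ⟨rfl, rfl, rfl, rfl, rfl⟩
    have huA : (⟨0, 0, 0, 0, 2 * (x.m11 - x.m12), x.m12, 0, 0, 0⟩ : P) ∈ A := ⟨rfl, rfl, rfl⟩
    have e : x = z12 * ⟨0, 0, 0, 0, 2 * (x.m11 - x.m12), x.m12, 0, 0, 0⟩ * z12⁻¹ *
        (⟨0, 0, 0, 0, 2 * (x.m11 - x.m12), x.m12, 0, 0, 0⟩ : P)⁻¹ := by
      rw [comm_z12 _ huA]
      ext <;> simp [x1, x2, x3, x4, x5, x6, x7, two_two]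
    rw [e, Mp.comm hh hz12 (hW5 (X4_le_W5 hu))]
    exact comm_X4 _ _ (h4 _ hu)
  intro i hi
  interval_cases i
  · intro x hx
    have : x = 1 := Subgroup.mem_bot.1 hx
    rw [this, hh.one]
    exact one_mem _
  · exact h1
  · exact h2
  · exact h3
  · exact h4
  · exact h5
  · exact h6
  · exact hQL
  · exact hm

end Cfsg.Agent.H20.Co1
end

-- part: H20/Co1/Auts
section
/-!
# The automorphisms of `R1`, `R2`, `R3` in a saturated system on the model (S5227, task C11a, helper20)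

The facts of section C5 (`A_unique`, `auts_R3_basic`) are hypotheses here.
-/

set_option autoImplicit false
set_option linter.style.longLine false

namespace Cfsg.Agent.H20.Co1

open Subgroup Cfsg Cfsg.Agent.H752 Cfsg.Agent.H776.Co P

/-- the statement `A_unique` (C5) -/
def AUnique : Prop := ∀ B : Subgroup P, Nat.card B = 3 ^ 6 → (∀ x ∈ B, x ^ 3 = 1) →
  (∀ x ∈ B, ∀ y ∈ B, x * y = y * x) → B = A

/-- the statement `auts_R3_basic` (C5) -/
def R3Basic : Prop := ∀ f : P → P, (∀ x ∈ R3, f x ∈ R3) → (∀ x ∈ R3, ∀ y ∈ R3, f (x * y) = f x * f y) →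
  (∀ x ∈ R3, ∀ y ∈ R3, f x = f y → x = y) →
  (∀ x ∈ W1, f x ∈ W1) ∧ (∀ x ∈ W3, f x ∈ W3) ∧ (∀ x ∈ R1 ⊓ R3, f x ∈ R1) ∧
    ((∀ x ∈ W5, f x ∈ W5) ∨ ∃ i, ∀ x ∈ W5, f x ∈ DD i)

/-! ### generalities -/

theorem mp_cancel {Ω : Type*} [Group Ω] {S Q : Subgroup Ω} {F : FusionSystem S} [Finite Q] {f g : Ω → Ω}
    (hg : Mp F Q g) (hgm : ∀ x ∈ Q, g x ∈ Q) (hfm : ∀ x ∈ Q, f x ∈ Q) (hgf : Mp F Q (fun x => g (f x))) :
    Mp F Q f := by
  obtain ⟨g2, hg2, h1, h2⟩ := hg.exists_symm (R := Q) le_rfl (T := Q) (fun y =>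
    ⟨fun hy => hg.surj hgm hy, fun ⟨x, hx, hxy⟩ => hxy ▸ hgm x hx⟩)
  exact (hgf.comp hg2 fun x hx => hgm _ (hfm x hx)).congr fun x hx => (h1 _ (hfm x hx)).symm

theorem mp_of_chain {F F' : FusionSystem (⊤ : Subgroup P)} (hF : F.IsSaturated 3)
    (htop : ∀ f, Mp F ⊤ f → Mp F' ⊤ f) {Q : Subgroup P} (hQn : ∀ s x : P, x ∈ Q → s * x * s⁻¹ ∈ Q) {n : ℕ}
    {C : ℕ → Subgroup P} (h0 : C 0 = ⊥) (hn : C n = Q) (hle : ∀ i < n, C i ≤ C (i + 1))
    (hC : ∀ i < n, ∀ s ∈ (⊤ : Subgroup P), ∀ x ∈ C (i + 1), s * x * s⁻¹ * x⁻¹ ∈ C i) {h : P → P} (hh : Mp F Q h)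
    (hhC : ∀ i ≤ n, ∀ x ∈ C i, h x ∈ C i) : Mp F' Q h := by
  have : Fact (Nat.Prime 3) := ⟨Nat.prime_three⟩
  have hfin : Finite ↥(⊤ : Subgroup P) := inferInstance
  obtain ⟨g, hg, hgh⟩ := extend_of_chain (S := (⊤ : Subgroup P)) (p := 3) (isPGroup_P.to_subgroup _) hF le_top
    (fun s _ x hx => hQn s x hx) h0 hn hle hC hh hhC
  exact ((htop g hg).res le_top).congr fun x hx => (hgh x hx).symm

theorem card_A : Nat.card A = 3 ^ 6 := by
  have e : A ≃ (Fin 6 → ZMod 3) :=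
    { toFun := fun x => crd x.1
      invFun := fun v => ⟨vec v, vec_mem v⟩
      left_inv := fun x => Subtype.ext (vec_crd x.2)
      right_inv := fun v => crd_vec v }
  rw [Nat.card_congr e]
  simp [Nat.card_eq_fintype_card]

theorem A_comm {x y : P} (hx : x ∈ A) (hy : y ∈ A) : x * y = y * x := by
  obtain ⟨x1, x2, x3⟩ := hx
  obtain ⟨y1, y2, y3⟩ := hy
  ext <;> simp [x1, x2, x3, y1, y2, y3, add_comm]

theorem A_pow {x : P} (hx : x ∈ A) : x ^ 3 = 1 := by
  obtain ⟨x1, x2, x3⟩ := hx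
  have h3 : ∀ t : ZMod 3, t + t + t = 0 := by decide
  rw [pow_succ, pow_two]
  ext <;> simp [x1, x2, x3, h3]

/-- automorphisms map `A` to `A` -/
theorem map_A (hU : AUnique) {F : FusionSystem (⊤ : Subgroup P)} {Q : Subgroup P} (hQ : A ≤ Q) {f : P → P}
    (hf : Mp F Q f) : ∀ x ∈ A, f x ∈ A := by
  obtain ⟨T, hT, -, hc⟩ := hf.exists_image hQ
  have h1 : T = A := by
    apply hU T (hc.trans card_A)
    · intro x hx
      obtain ⟨y, hy, rfl⟩ := (hT x).1 hx
      rw [← hf.pow (hQ hy), A_pow hy, hf.one]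
    · intro x hx y hy
      obtain ⟨x', hx', rfl⟩ := (hT x).1 hx
      obtain ⟨y', hy', rfl⟩ := (hT y).1 hy
      rw [← hf.mul (hQ hx') (hQ hy'), A_comm hx' hy', hf.mul (hQ hy') (hQ hx')]
  intro x hx
  rw [← h1]
  exact (hT _).2 ⟨x, hx, rfl⟩

theorem cases3 : ∀ c : ZMod 3, c = 0 ∨ c = 1 ∨ c = 2 := by decide

/-- a homomorphism mapping `A` and `x13` to `AZ` maps `AZ` to `AZ` -/
theorem map_AZ {F : FusionSystem (⊤ : Subgroup P)} {Q : Subgroup P} (hQ : AZ ≤ Q) {f : P → P}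
    (hf : Mp F Q f) (hA : ∀ x ∈ A, f x ∈ A) (hz : f z13 ∈ AZ) : ∀ x ∈ AZ, f x ∈ AZ := by
  have hAAZ : A ≤ AZ := fun _ ⟨h1, h2, _⟩ => ⟨h1, h2⟩
  intro x hx
  have hzi : z13⁻¹ ∈ AZ := inv_mem z13_mem
  rcases cases3 x.c with h | h | h
  · exact hAAZ (hA x ⟨hx.1, hx.2, h⟩)
  · have h1 : x * z13⁻¹ ∈ A := ⟨by simp [z13, hx.1], by simp [z13, hx.2], by simp [z13, hx.1, h]⟩
    have h2 : f x = f (x * z13⁻¹) * f z13 := by
      rw [← hf.mul (hQ (hAAZ h1)) (hQ z13_mem), inv_mul_cancel_right]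
    rw [h2]
    exact mul_mem (hAAZ (hA _ h1)) hz
  · have h1 : x * z13⁻¹ * z13⁻¹ ∈ A := ⟨by simp [z13, hx.1], by simp [z13, hx.2], by
      simp only [z13, hx.1, h, _root_.Cfsg.Agent.H776.Co.P.mul_c, _root_.Cfsg.Agent.H776.Co.P.inv_c, _root_.MulZeroClass.mul_zero, _root_.add_zero, _root_.Cfsg.Agent.H776.Co.P.inv_b, _root_.neg_zero, _root_.Cfsg.Agent.H776.Co.P.mul_a, _root_.Cfsg.Agent.H776.Co.P.inv_a]; decide⟩
    have h2 : f x = f (x * z13⁻¹ * z13⁻¹) * f z13 * f z13 := by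
      rw [← hf.mul (hQ (hAAZ h1)) (hQ z13_mem), inv_mul_cancel_right, ← hf.mul (hQ (mul_mem hx hzi)) (hQ z13_mem),
        inv_mul_cancel_right]
    rw [h2]
    exact mul_mem (mul_mem (hAAZ (hA _ h1)) hz) hz

/-- the common part for `R1`, `R2` -/
theorem auts_common {F F' : FusionSystem (⊤ : Subgroup P)} (hU : AUnique) (hF : F.IsSaturated 3)
    (htop : ∀ f, Mp F ⊤ f → Mp F' ⊤ f) {Q : Subgroup P} (hQ : AZ ≤ Q) (hQn : ∀ s x : P, x ∈ Q → s * x * s⁻¹ ∈ Q)
    {f : P → P} (hf : Mp F Q f) (hfm : ∀ x ∈ Q, f x ∈ Q) {g : P → P} (hg : Mp F Q g) (hg' : Mp F' Q g)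
    (hgm : ∀ x ∈ Q, g x ∈ Q) (hz : g (f z13) ∈ AZ) : Mp F' Q f := by
  have hAQ : A ≤ Q := fun _ ⟨h1, h2, _⟩ => hQ ⟨h1, h2⟩
  refine mp_cancel hg' hgm hfm ?_
  have hh : Mp F Q (fun x => g (f x)) := hf.comp hg hfm
  have hhm : ∀ x ∈ Q, g (f x) ∈ Q := fun x hx => hgm _ (hfm x hx)
  have hA := map_A hU hAQ hh
  have hAZ := map_AZ hQ hh hA hz
  exact mp_of_chain hF htop hQn (n := 8) (C := chA Q) rfl rfl (chA_le hQ) chA_comm hh (chA_pres hQ hh hhm hA hAZ)

theorem auts_R1' (hU : AUnique) {F F' : FusionSystem (⊤ : Subgroup P)} (hF : F.IsSaturated 3) (h3 : Mp F R1 w1)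
    (h3' : Mp F' R1 w1) (htop : ∀ f, Mp F ⊤ f → Mp F' ⊤ f) :
    ∀ f, Mp F R1 f → (∀ x ∈ R1, f x ∈ R1) → Mp F' R1 f := by
  intro f hf hfm
  have hn : ∀ s x : P, x ∈ R1 → s * x * s⁻¹ ∈ R1 := by
    intro s x (hx : x.a = 0)
    show (s * x * s⁻¹).a = 0
    simp [hx]
  have hQ : AZ ≤ R1 := fun _ h => h.1
  have hw : ∀ x ∈ R1, w1 x ∈ R1 := fun x hx => hx
  by_cases hb : (f z13).b = 0
  · exact auts_common hU hF htop hQ hn hf hfm (mp_id F le_top) (mp_id F' le_top) (fun x hx => hx)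
      ⟨hfm z13 rfl, hb⟩
  · set α : ZMod 3 := -(f z13).c * (f z13).b⁻¹ with hα
    have hgF := (mp_conj F (P := R1) le_top (s := xa α) (Subgroup.mem_top _)).comp h3 (fun x hx => hn _ x hx)
    have hgF' := (mp_conj F' (P := R1) le_top (s := xa α) (Subgroup.mem_top _)).comp h3' (fun x hx => hn _ x hx)
    refine auts_common hU hF htop hQ hn hf hfm hgF hgF' (fun x hx => hw _ (hn _ x hx)) ?_
    refine ⟨?_, ?_⟩
    · have h0 : (f z13).a = 0 := hfm z13 rfl
      simp only [w1, h0, _root_.Cfsg.Agent.H776.Co.P.mul_a, _root_.add_zero, _root_.Cfsg.Agent.H776.Co.P.inv_a, _root_.add_neg_cancel, _root_.Cfsg.Agent.H776.Co.P.mul_c, _root_.Cfsg.Agent.H776.Co.P.inv_c, _root_.Cfsg.Agent.H776.Co.P.inv_b, _root_.mul_neg, _root_.Cfsg.Agent.H776.Co.P.mul_b, _root_.add_neg_cancel_comm, _root_.Cfsg.Agent.H776.Co.P.mul_m22, _root_.Cfsg.Agent.H776.Co.P.inv_m22, _root_.neg_mul, _root_.even_two, _root_.Even.neg_pow, _root_.neg_add_rev, _root_.neg_neg,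 _root_.Cfsg.Agent.H776.Co.P.inv_m23, _root_.Cfsg.Agent.H776.Co.P.inv_m33, _root_.Cfsg.Agent.H776.Co.P.mul_m12, _root_.Cfsg.Agent.H776.Co.P.inv_m12, _root_.Cfsg.Agent.H776.Co.P.inv_m13, _root_.Cfsg.Agent.H776.Co.P.mul_m11, _root_.Cfsg.Agent.H776.Co.P.inv_m11, _root_.Cfsg.Agent.H776.Co.P.mul_m23, _root_.Cfsg.Agent.H776.Co.P.mul_m13, _root_.Cfsg.Agent.H776.Co.P.mul_m33]
    · have h0 : (f z13).a = 0 := hfm z13 rfl
      simp only [w1, mul_c, mul_b, inv_c, inv_b, inv_a, mul_a, xa, h0]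
      rw [hα]
      have : (f z13).c + -(f z13).c * (f z13).b⁻¹ * (f z13).b = 0 := by
        rw [inv_mul_cancel_right₀ hb]; ring
      linear_combination this

theorem auts_R2' (hU : AUnique) {F F' : FusionSystem (⊤ : Subgroup P)} (hF : F.IsSaturated 3) {k : ZMod 3}
    (h3 : Mp F R2 (w2 k)) (h3' : Mp F' R2 (w2 k)) (htop : ∀ f, Mp F ⊤ f → Mp F' ⊤ f) :
    ∀ f, Mp F R2 f → (∀ x ∈ R2, f x ∈ R2) → Mp F' R2 f := by
  intro f hf hfm
  have hn : ∀ s x : P, x ∈ R2 → s * x * s⁻¹ ∈ R2 := by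
    intro s x (hx : x.b = 0)
    show (s * x * s⁻¹).b = 0
    simp [hx]
  have hQ : AZ ≤ R2 := fun _ h => h.2
  have hw : ∀ x ∈ R2, w2 k x ∈ R2 := fun x hx => hx
  by_cases ha : (f z13).a = 0
  · exact auts_common hU hF htop hQ hn hf hfm (mp_id F le_top) (mp_id F' le_top) (fun x hx => hx)
      ⟨ha, hfm z13 rfl⟩
  · set β : ZMod 3 := (f z13).c * (f z13).a⁻¹ with hβ
    have hgF := (mp_conj F (P := R2) le_top (s := (⟨0, β, 0, 0, 0, 0, 0, 0, 0⟩ : P)) (Subgroup.mem_top _)).comp h3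
      (fun x hx => hn _ x hx)
    have hgF' := (mp_conj F' (P := R2) le_top (s := (⟨0, β, 0, 0, 0, 0, 0, 0, 0⟩ : P)) (Subgroup.mem_top _)).comp h3'
      (fun x hx => hn _ x hx)
    refine auts_common hU hF htop hQ hn hf hfm hgF hgF' (fun x hx => hw _ (hn _ x hx)) ?_
    have h0 : (f z13).b = 0 := hfm z13 rfl
    refine ⟨?_, ?_⟩
    · simp only [w2, mul_c, mul_b, inv_c, inv_b, inv_a, mul_a, h0]
      rw [hβ]
      have : (f z13).c - (f z13).a * ((f z13).c * (f z13).a⁻¹) = 0 := by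
        rw [mul_comm (f z13).a, inv_mul_cancel_right₀ ha]; ring
      linear_combination -this
    · simp only [w2, h0, _root_.Cfsg.Agent.H776.Co.P.mul_c, _root_.zero_add, _root_.MulZeroClass.mul_zero, _root_.add_zero, _root_.Cfsg.Agent.H776.Co.P.inv_c, _root_.neg_zero, _root_.MulZeroClass.zero_mul, _root_.Cfsg.Agent.H776.Co.P.mul_a, _root_.Cfsg.Agent.H776.Co.P.inv_b, _root_.mul_neg, _root_.neg_add_rev, _root_.neg_neg, _root_.Cfsg.Agent.H776.Co.P.mul_b, _root_.add_neg_cancel, _root_.Cfsg.Agent.H776.Co.P.inv_a, _root_.Cfsg.Agent.H776.Co.P.mul_m11, _root_.ne_eq, _root_.OfNat.ofNat_ne_zero, _root_.not_false_eq_true, _root_.zero_pow, _root_.Cfsg.Agent.H776.Co.P.inv_m11, _root_.Cfsg.Agent.H776.Co.P.inv_m12, _root_.Cfsg.Agent.H776.Co.P.inv_m13, _root_.Cfsg.Agent.H776.Co.P.inv_m22, _root_.even_two, _root_.Even.neg_pow, _root_.Cfsg.Agent.H776.Co.P.inv_m23, _root_.Cfsg.Agent.H776.Co.P.inv_m33, _root_.Cfsg.Agent.H776.Co.P.mul_m22, _root_.Cfsg.Agent.H776.Co.P.mul_m33,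 _root_.Cfsg.Agent.H776.Co.P.mul_m13, _root_.Cfsg.Agent.H776.Co.P.mul_m12, _root_.Cfsg.Agent.H776.Co.P.mul_m23]

theorem auts_R3' (hB : R3Basic) {F F' : FusionSystem (⊤ : Subgroup P)} (hF : F.IsSaturated 3) (h3 : Mp F R3 w3)
    (h3' : Mp F' R3 w3) (htop : ∀ f, Mp F ⊤ f → Mp F' ⊤ f) :
    ∀ f, Mp F R3 f → (∀ x ∈ R3, f x ∈ R3) → Mp F' R3 f := by
  intro f hf hfm
  have hn : ∀ s x : P, x ∈ R3 → s * x * s⁻¹ ∈ R3 := by
    intro s x (hx : x.m33 = 0)
    show (s * x * s⁻¹).m33 = 0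
    simp [hx]
  have hw : ∀ x ∈ R3, w3 x ∈ R3 := by
    intro x _
    show (w3 x).m33 = 0
    simp only [w3, w3Q, xa, _root_.Cfsg.Agent.H776.Co.P.mul_m23, _root_.Cfsg.Agent.H776.Co.P.inv_m23, _root_.neg_zero, _root_.MulZeroClass.mul_zero, _root_.add_zero, _root_.Cfsg.Agent.H776.Co.P.inv_b, _root_.MulZeroClass.zero_mul, _root_.zero_add, _root_.Cfsg.Agent.H776.Co.P.mul_m13, _root_.Cfsg.Agent.H776.Co.P.inv_m13, _root_.Cfsg.Agent.H776.Co.P.inv_a, _root_.neg_mul, _root_.Cfsg.Agent.H776.Co.P.inv_c, _root_.Cfsg.Agent.H776.Co.P.mul_m11, _root_.Cfsg.Agent.H776.Co.P.inv_m11, _root_.mul_neg, _root_.even_two, _root_.Even.neg_pow, _root_.ne_eq, _root_.OfNat.ofNat_ne_zero, _root_.not_false_eq_true, _root_.zero_pow, _root_.Cfsg.Agent.H776.Co.P.mul_c, _root_.Cfsg.Agent.H776.Co.P.mul_m12, _root_.Cfsg.Agent.H776.Co.P.inv_m12, _root_.Cfsg.Agent.H776.Co.P.mul_b, _root_.Cfsg.Agent.H776.Co.P.mul_m22, _root_.Cfsg.Agent.H776.Co.P.inv_m22, _root_.neg_add_rev,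 _root_.neg_neg, _root_.Cfsg.Agent.H776.Co.P.mul_m33]
  have common : ∀ g : P → P, Mp F R3 g → Mp F' R3 g → (∀ x ∈ R3, g x ∈ R3) → (∀ x ∈ W5, g (f x) ∈ W5) →
      Mp F' R3 f := by
    intro g hg hg' hgm h5
    refine mp_cancel hg' hgm hfm ?_
    have hh : Mp F R3 (fun x => g (f x)) := hf.comp hg hfm
    have hhm : ∀ x ∈ R3, g (f x) ∈ R3 := fun x hx => hgm _ (hfm x hx)
    obtain ⟨e1, e2, e3, -⟩ := hB _ hhm (fun x hx y hy => hh.mul hx hy) (fun x hx y hy => hh.inj hx hy)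
    exact mp_of_chain hF htop hn (n := 8) (C := ch3) rfl rfl ch3_le ch3_comm hh
      (ch3_pres hh hhm e1 e2 (fun x hx => ⟨e3 x ⟨hx.1, hx.2⟩, hhm x hx.2⟩) h5)
  obtain ⟨-, -, -, h5 | ⟨i, hi⟩⟩ := hB f hfm (fun x hx y hy => hf.mul hx hy) (fun x hx y hy => hf.inj hx hy)
  · exact common _ (mp_id F le_top) (mp_id F' le_top) (fun x hx => hx) h5
  · have hgF := (mp_conj F (P := R3) le_top (s := (⟨0, 0, 0, 0, 0, 0, 0, 0, i⟩ : P)) (Subgroup.mem_top _)).comp h3
      (fun x hx => hn _ x hx)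
    have hgF' := (mp_conj F' (P := R3) le_top (s := (⟨0, 0, 0, 0, 0, 0, 0, 0, i⟩ : P)) (Subgroup.mem_top _)).comp h3'
      (fun x hx => hn _ x hx)
    refine common _ hgF hgF' (fun x hx => hw _ (hn _ x hx)) ?_
    intro x hx
    obtain ⟨y1, y2, y3, y4⟩ := hi x hx
    set y := f x with hy
    refine ⟨?_, ?_, ?_, ?_⟩
    · simp only [w3, w3Q, xa, y1, _root_.Cfsg.Agent.H776.Co.P.mul_a, _root_.add_zero, _root_.Cfsg.Agent.H776.Co.P.inv_a, _root_.neg_zero, _root_.Cfsg.Agent.H776.Co.P.mul_m23, _root_.Cfsg.Agent.H776.Co.P.inv_m23, _root_.MulZeroClass.mul_zero, _root_.MulZeroClass.zero_mul, _root_.zero_add, _root_.Cfsg.Agent.H776.Co.P.mul_b, _root_.Cfsg.Agent.H776.Co.P.inv_m33, _root_.mul_neg, _root_.Cfsg.Agent.H776.Co.P.inv_b, _root_.Cfsg.Agent.H776.Co.P.mul_m33, _root_.add_neg_cancel_comm, _root_.Cfsg.Agent.H776.Co.P.mul_m13, _root_.Cfsg.Agent.H776.Co.P.inv_m13, _root_.Cfsg.Agent.H776.Co.P.mul_c, _root_.Cfsg.Agent.H776.Co.P.inv_c,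 _root_.Cfsg.Agent.H776.Co.P.mul_m11, _root_.Cfsg.Agent.H776.Co.P.inv_m11, _root_.ne_eq, _root_.OfNat.ofNat_ne_zero, _root_.not_false_eq_true, _root_.zero_pow, _root_.Cfsg.Agent.H776.Co.P.inv_m12, _root_.Cfsg.Agent.H776.Co.P.inv_m22, _root_.Cfsg.Agent.H776.Co.P.mul_m12, _root_.Cfsg.Agent.H776.Co.P.mul_m22]
    · simp only [w3, w3Q, xa, y1, y2, y4, _root_.Cfsg.Agent.H776.Co.P.mul_a, _root_.add_zero, _root_.Cfsg.Agent.H776.Co.P.inv_a, _root_.neg_zero, _root_.Cfsg.Agent.H776.Co.P.mul_m23, _root_.Cfsg.Agent.H776.Co.P.inv_m23, _root_.MulZeroClass.mul_zero, _root_.zero_add, _root_.MulZeroClass.zero_mul, _root_.Cfsg.Agent.H776.Co.P.mul_b, _root_.Cfsg.Agent.H776.Co.P.inv_m33, _root_.mul_neg, _root_.Cfsg.Agent.H776.Co.P.inv_b, _root_.Cfsg.Agent.H776.Co.P.mul_m33, _root_.add_neg_cancel, _root_.Cfsg.Agent.H776.Co.P.mul_m13, _root_.Cfsg.Agent.H776.Co.P.inv_m13, _root_.Cfsg.Agent.H776.Co.P.mul_c, _root_.Cfsg.Agent.H776.Co.P.inv_c, _root_.Cfsg.Agent.H776.Co.P.mul_m11,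 _root_.Cfsg.Agent.H776.Co.P.inv_m11, _root_.ne_eq, _root_.OfNat.ofNat_ne_zero, _root_.not_false_eq_true, _root_.zero_pow, _root_.Cfsg.Agent.H776.Co.P.inv_m12, _root_.Cfsg.Agent.H776.Co.P.inv_m22, _root_.Cfsg.Agent.H776.Co.P.mul_m12, _root_.Cfsg.Agent.H776.Co.P.mul_m22]; ring
    · simp only [w3, w3Q, xa, y1, y2, y3, _root_.Cfsg.Agent.H776.Co.P.mul_a, _root_.add_zero, _root_.Cfsg.Agent.H776.Co.P.inv_a, _root_.neg_zero, _root_.Cfsg.Agent.H776.Co.P.mul_m23, _root_.Cfsg.Agent.H776.Co.P.inv_m23, _root_.MulZeroClass.mul_zero, _root_.zero_add, _root_.MulZeroClass.zero_mul, _root_.Cfsg.Agent.H776.Co.P.mul_b, _root_.Cfsg.Agent.H776.Co.P.inv_m33, _root_.mul_neg, _root_.Cfsg.Agent.H776.Co.P.inv_b, _root_.Cfsg.Agent.H776.Co.P.mul_m33, _root_.add_neg_cancel, _root_.Cfsg.Agent.H776.Co.P.mul_m13, _root_.Cfsg.Agent.H776.Co.P.inv_m13, _root_.Cfsg.Agent.H776.Co.P.mul_c, _root_.Cfsg.Agent.H776.Co.P.inv_c, _root_.Cfsg.Agent.H776.Co.P.mul_m11,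 _root_.Cfsg.Agent.H776.Co.P.inv_m11, _root_.ne_eq, _root_.OfNat.ofNat_ne_zero, _root_.not_false_eq_true, _root_.zero_pow, _root_.Cfsg.Agent.H776.Co.P.inv_m12, _root_.Cfsg.Agent.H776.Co.P.inv_m22, _root_.Cfsg.Agent.H776.Co.P.mul_m12, _root_.Cfsg.Agent.H776.Co.P.mul_m22]; ring
    · simp only [w3, w3Q, xa, _root_.Cfsg.Agent.H776.Co.P.mul_a, _root_.zero_add, _root_.Cfsg.Agent.H776.Co.P.inv_a, _root_.neg_zero, _root_.add_zero, _root_.Cfsg.Agent.H776.Co.P.mul_m23, _root_.Cfsg.Agent.H776.Co.P.inv_m23, _root_.MulZeroClass.mul_zero, _root_.MulZeroClass.zero_mul, _root_.Cfsg.Agent.H776.Co.P.mul_b, _root_.Cfsg.Agent.H776.Co.P.inv_m33, _root_.mul_neg, _root_.Cfsg.Agent.H776.Co.P.inv_b, _root_.Cfsg.Agent.H776.Co.P.mul_m33, _root_.add_neg_cancel_comm, _root_.Cfsg.Agent.H776.Co.P.mul_m13, _root_.Cfsg.Agent.H776.Co.P.inv_m13, _root_.Cfsg.Agent.H776.Co.P.mul_c, _root_.neg_mul, _root_.Cfsg.Agent.H776.Co.P.inv_c, _root_.Cfsg.Agent.H776.Co.P.mul_m11,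 _root_.Cfsg.Agent.H776.Co.P.inv_m11, _root_.even_two, _root_.Even.neg_pow, _root_.ne_eq, _root_.OfNat.ofNat_ne_zero, _root_.not_false_eq_true, _root_.zero_pow, _root_.Cfsg.Agent.H776.Co.P.inv_m12, _root_.Cfsg.Agent.H776.Co.P.inv_m22, _root_.Cfsg.Agent.H776.Co.P.mul_m12, _root_.Cfsg.Agent.H776.Co.P.mul_m22, _root_.neg_add_rev, _root_.neg_neg]

end Cfsg.Agent.H20.Co1
end

-- part: H12/Co1/LocQuot
section
/-!
# S5227: `Loc.symm`, `Loc.quot` (helper12)
-/

set_option autoImplicit false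
set_option linter.style.longLine false

namespace Cfsg.Agent.H12.Co1

open Cfsg.Agent.H776.Co

variable {Γ : Type*} [Group Γ] {T U1 U2 : Subgroup Γ} {z : Γ} {Z : Subgroup Γ}

theorem finite (h : Loc T U1 U2 z Z) : Finite Γ := by
  refine Nat.finite_of_card_ne_zero fun h0 => ?_
  have h1 := h.ord
  rw [h0, zero_dvd_iff] at h1
  exact absurd h1 (by norm_num)

theorem Loc.symm (h : Loc T U1 U2 z Z) : Loc T U2 U1 z Z where
  card_T := h.card_T
  syl := h.syl
  exp := h.exp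
  le1 := h.le2
  le2 := h.le1
  card1 := h.card2
  card2 := h.card1
  inf := by rw [inf_comm]; exact h.inf
  z_ne := h.z_ne
  z_comm := h.z_comm
  center := h.center
  type g x hx hT := (h.type g x hx.symm hT).symm
  not_conj g := by
    by_contra hcon
    push Not at hcon
    have hfin := finite h
    have h1 : U2.map (MulAut.conj g).toMonoidHom ≤ U1 := by
      rintro _ ⟨x, hx, rfl⟩
      exact hcon x hx
    have h2 : Nat.card ↥(U2.map (MulAut.conj g).toMonoidHom) = Nat.card U1 := by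
      rw [Subgroup.card_map_of_injective (MulAut.conj g).injective, h.card1, h.card2]
    have h3 : U2.map (MulAut.conj g).toMonoidHom = U1 := Subgroup.eq_of_le_of_card_ge h1 h2.ge
    obtain ⟨x, hx, hx2⟩ := h.not_conj g⁻¹
    rw [← h3] at hx
    obtain ⟨y, hy, rfl⟩ := hx
    apply hx2
    have h4 : g⁻¹ * (MulAut.conj g).toMonoidHom y * g⁻¹⁻¹ = y := by
      change g⁻¹ * (g * y * g⁻¹) * g⁻¹⁻¹ = y
      group
    rw [h4]
    exact hy
  Z_le := h.Z_le
  Z_card := h.Z_card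
  sig := h.sig
  core := h.core
  tri x hx := h.tri x hx.symm
  reg x hx h1 h2 := h.reg x hx h2 h1
  reg_conj x hx h1 h2 y hy h3 h4 := h.reg_conj x hx h2 h1 y hy h4 h3
  ord := h.ord

section Quot

variable (h : Loc T U1 U2 z Z)

include h

theorem star {a b c : Γ} (hc : c ∈ Z) {k l : ℕ} (ha : a ^ 3 ^ k = 1) (hb : b ^ 3 ^ l = 1) (hab : a = b * c) :
    c = 1 := by
  have hcomm : Commute b c := (Subgroup.mem_center_iff.1 (h.Z_le hc) b)
  have h1 : c ^ 3 ^ (k + l) = 1 := by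
    have h2 : a ^ 3 ^ (k + l) = b ^ 3 ^ (k + l) * c ^ 3 ^ (k + l) := by rw [hab, hcomm.mul_pow]
    rw [pow_add 3 k l, pow_mul a, ha, one_pow, mul_comm (3 ^ k), pow_mul b, hb, one_pow, one_mul] at h2
    rw [pow_add, mul_comm]
    exact h2.symm
  have h2 : orderOf c ∣ 3 ^ (k + l) := orderOf_dvd_of_pow_eq_one h1
  have h3 : orderOf c ∣ Nat.card Z := by
    have := orderOf_dvd_natCard (⟨c, hc⟩ : Z)
    rwa [Subgroup.orderOf_mk] at this
  have h4 : (3 ^ (k + l)).Coprime (Nat.card Z) :=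
    Nat.Coprime.pow_left _ ((Nat.Prime.coprime_iff_not_dvd Nat.prime_three).2 h.Z_card)
  exact orderOf_eq_one_iff.1 (Nat.eq_one_of_dvd_coprimes h4 h2 h3)

theorem z_mem : z ∈ T := h.le1 (by
  have : z ∈ U1 ⊓ U2 := by rw [h.inf]; exact Subgroup.mem_zpowers z
  exact this.1)

theorem exp' {x : Γ} (hx : x ∈ T) : x ^ 3 ^ 1 = 1 := by rw [pow_one]; exact h.exp x hx

variable [Z.Normal]

local notation "π" => QuotientGroup.mk' Z

omit h in
theorem exists_of_eq {a b : Γ} (hab : π a = π b) : ∃ c ∈ Z, a = b * c := by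
  have h1 : b⁻¹ * a ∈ Z := QuotientGroup.eq.1 (show (QuotientGroup.mk b : Γ ⧸ Z) = QuotientGroup.mk a from hab.symm)
  exact ⟨b⁻¹ * a, h1, by group⟩

theorem eq_of_eq {a b : Γ} {k l : ℕ} (ha : a ^ 3 ^ k = 1) (hb : b ^ 3 ^ l = 1) (hab : π a = π b) : a = b := by
  obtain ⟨c, hc, e⟩ := exists_of_eq hab
  rw [e, star h hc ha hb e, mul_one]

theorem inj_T {a b : Γ} (ha : a ∈ T) (hb : b ∈ T) (hab : π a = π b) : a = b :=
  eq_of_eq h (exp' h ha) (exp' h hb) hab

theorem card_map {S : Subgroup Γ} (hS : S ≤ T) : Nat.card ↥(S.map π) = Nat.card S := by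
  refine (Nat.card_congr (Equiv.ofBijective (fun s : S => (⟨π s, ⟨s, s.2, rfl⟩⟩ : ↥(S.map π))) ⟨?_, ?_⟩)).symm
  · intro a b hab
    exact Subtype.ext (inj_T h (hS a.2) (hS b.2) (congrArg Subtype.val hab))
  · rintro ⟨_, ⟨s, hs, rfl⟩⟩
    exact ⟨⟨s, hs⟩, rfl⟩

theorem mem_map_iff {S : Subgroup Γ} (hS : S ≤ T) {x : Γ} {k : ℕ} (hx : x ^ 3 ^ k = 1) : π x ∈ S.map π ↔ x ∈ S := by
  constructor
  · rintro ⟨s, hs, e⟩
    rw [← eq_of_eq h (exp' h (hS hs)) hx e]
    exact hs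
  · intro hx
    exact ⟨x, hx, rfl⟩

omit h in
/-- 3-subgroups of the quotient lift. -/
theorem exists_lift [Finite Γ] {P : Subgroup (Γ ⧸ Z)} (hP : IsPGroup 3 P) :
    ∃ P' : Subgroup Γ, IsPGroup 3 P' ∧ P'.map π = P := by
  have h3 : Fact (Nat.Prime 3) := ⟨Nat.prime_three⟩
  let f : ↥(P.comap π) →* P := (π).subgroupComap P
  have hf : Function.Surjective f := by
    rintro ⟨y, hy⟩
    obtain ⟨x, rfl⟩ := QuotientGroup.mk'_surjective Z y
    exact ⟨⟨x, hy⟩, rfl⟩
  obtain ⟨Q⟩ : Nonempty (Sylow 3 ↥(P.comap π)) := inferInstance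
  have h1 : (Q.mapSurjective hf : Subgroup P) = ⊤ := by
    have h2 := (Q.mapSurjective hf).is_maximal' (Q := ⊤) (hP.of_equiv Subgroup.topEquiv.symm) le_top
    exact h2.symm
  refine ⟨(Q : Subgroup ↥(P.comap π)).map (P.comap π).subtype, Q.isPGroup'.map _, ?_⟩
  ext y
  constructor
  · rintro ⟨_, ⟨x, _, rfl⟩, rfl⟩
    exact x.2
  · intro hy
    have h2 : (⟨y, hy⟩ : P) ∈ (Q.mapSurjective hf : Subgroup P) := by rw [h1]; trivial
    obtain ⟨x, hx, e⟩ := h2
    exact ⟨x, ⟨x, hx, rfl⟩, congrArg Subtype.val e⟩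

omit h in
theorem exists_pow_of_isPGroup {P : Subgroup Γ} (hP : IsPGroup 3 P) {x : Γ} (hx : x ∈ P) : ∃ k : ℕ, x ^ 3 ^ k = 1 := by
  obtain ⟨k, hk⟩ := hP ⟨x, hx⟩
  exact ⟨k, congrArg Subtype.val hk⟩

/-- elements centralising `π x` centralise `x` -/
theorem comm_of_comm {x g : Γ} {k : ℕ} (hx : x ^ 3 ^ k = 1) (hg : π g * π x = π x * π g) : g * x = x * g := by
  have h1 : π (g * x * g⁻¹) = π x := by
    rw [map_mul, map_mul, map_inv, hg, mul_inv_cancel_right]
  have h2 : (g * x * g⁻¹) ^ 3 ^ k = 1 := by rw [conj_pow, hx, mul_one, mul_inv_cancel]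
  have h3 := eq_of_eq h h2 hx h1
  exact mul_inv_eq_iff_eq_mul.1 h3

theorem card_syl {x : Γ} (hx : x ∈ T) : Nat.card (Sylow 3 (Subgroup.centralizer ({π x} : Set (Γ ⧸ Z)))) =
    Nat.card (Sylow 3 (Subgroup.centralizer ({x} : Set Γ))) := by
  have h3 : Fact (Nat.Prime 3) := ⟨Nat.prime_three⟩
  have hfin := finite h
  let f : Subgroup.centralizer ({x} : Set Γ) →* Subgroup.centralizer ({π x} : Set (Γ ⧸ Z)) :=
    { toFun := fun g => ⟨π g, Subgroup.mem_centralizer_singleton_iff.2 (by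
        rw [← map_mul, ← map_mul, Subgroup.mem_centralizer_singleton_iff.1 g.2])⟩
      map_one' := rfl
      map_mul' := fun _ _ => rfl }
  have hf : Function.Surjective f := by
    rintro ⟨y, hy⟩
    obtain ⟨g, rfl⟩ := QuotientGroup.mk'_surjective Z y
    exact ⟨⟨g, Subgroup.mem_centralizer_singleton_iff.2
      (comm_of_comm h (exp' h hx) (Subgroup.mem_centralizer_singleton_iff.1 hy))⟩, rfl⟩
  refine (Nat.card_congr (Equiv.ofBijective (Sylow.mapSurjective hf) ⟨?_, Sylow.mapSurjective_surjective hf 3⟩)).symm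
  have key : ∀ P Q : Sylow 3 (Subgroup.centralizer ({x} : Set Γ)),
      P.mapSurjective hf = Q.mapSurjective hf → (P : Subgroup ↥(Subgroup.centralizer ({x} : Set Γ))) ≤
        (Q : Subgroup ↥(Subgroup.centralizer ({x} : Set Γ))) := by
    intro P Q hPQ p hp
    have h1 : f p ∈ (Q.mapSurjective hf : Subgroup _) := by rw [← hPQ]; exact ⟨p, hp, rfl⟩
    obtain ⟨q, hq, e⟩ := h1
    obtain ⟨k, hk⟩ := P.isPGroup' ⟨p, hp⟩
    obtain ⟨l, hl⟩ := Q.isPGroup' ⟨q, hq⟩
    have hk' : (p : Γ) ^ 3 ^ k = 1 := congrArg Subtype.val (congrArg Subtype.val hk)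
    have hl' : (q : Γ) ^ 3 ^ l = 1 := congrArg Subtype.val (congrArg Subtype.val hl)
    have h2 : (p : Γ) = q := eq_of_eq h hk' hl' (congrArg Subtype.val e).symm
    rw [Subtype.ext h2]
    exact hq
  intro P Q hPQ
  exact Sylow.ext (le_antisymm (key P Q hPQ) (key Q P hPQ.symm))

end Quot

theorem Loc.quot (h : Loc T U1 U2 z Z) [Z.Normal] : Loc (T.map (QuotientGroup.mk' Z)) (U1.map (QuotientGroup.mk' Z))
    (U2.map (QuotientGroup.mk' Z)) (QuotientGroup.mk' Z z) ⊥ := by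
  have hfin := finite h
  have h3 : Fact (Nat.Prime 3) := ⟨Nat.prime_three⟩
  have hsurj := QuotientGroup.mk'_surjective Z
  refine
    { card_T := by rw [card_map h le_rfl, h.card_T]
      syl := fun hd => h.syl (hd.trans (Subgroup.index_map_dvd T hsurj))
      exp := ?_
      le1 := Subgroup.map_mono h.le1
      le2 := Subgroup.map_mono h.le2
      card1 := by rw [card_map h h.le1, h.card1]
      card2 := by rw [card_map h h.le2, h.card2]
      inf := ?_
      z_ne := ?_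
      z_comm := ?_
      center := ?_
      type := ?_
      not_conj := ?_
      Z_le := bot_le
      Z_card := by rw [Subgroup.card_bot]; norm_num
      sig := ?_
      core := ?_
      tri := ?_
      reg := ?_
      reg_conj := ?_
      ord := (Subgroup.card_quotient_dvd_card Z).trans h.ord }
  · rintro _ ⟨x, hx, rfl⟩
    rw [← map_pow, h.exp x hx, map_one]
  · apply le_antisymm
    · rintro _ ⟨⟨x, hx, rfl⟩, hx2⟩
      have h1 : x ∈ U2 := (mem_map_iff h h.le2 (exp' h (h.le1 hx))).1 hx2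
      have h2 : x ∈ Subgroup.zpowers z := by rw [← h.inf]; exact ⟨hx, h1⟩
      obtain ⟨n, rfl⟩ := h2
      exact ⟨n, (map_zpow _ _ _).symm⟩
    · rw [Subgroup.zpowers_le]
      have h1 : z ∈ U1 ⊓ U2 := by rw [h.inf]; exact Subgroup.mem_zpowers z
      exact ⟨⟨z, h1.1, rfl⟩, ⟨z, h1.2, rfl⟩⟩
  · intro h1
    exact h.z_ne (inj_T h (z_mem h) T.one_mem (by rw [h1, map_one]))
  · rintro _ ⟨x, hx, rfl⟩
    rw [← map_mul, ← map_mul, h.z_comm x hx]
  · rintro _ ⟨x, hx, rfl⟩ hc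
    have h1 : x ∈ Subgroup.zpowers z := by
      refine h.center x hx fun y hy => ?_
      refine comm_of_comm h (exp' h hy) (hc _ ⟨y, hy, rfl⟩)
    obtain ⟨n, rfl⟩ := h1
    exact ⟨n, (map_zpow _ _ _).symm⟩
  · intro g x hx hT
    obtain ⟨g, rfl⟩ := hsurj g
    obtain ⟨u, hu, hu2, rfl⟩ : ∃ u, (u ∈ U1 ∨ u ∈ U2) ∧ u ^ 3 ^ 1 = 1 ∧ QuotientGroup.mk' Z u = x := by
      rcases hx with ⟨u, hu, rfl⟩ | ⟨u, hu, rfl⟩
      · exact ⟨u, Or.inl hu, exp' h (h.le1 hu), rfl⟩
      · exact ⟨u, Or.inr hu, exp' h (h.le2 hu), rfl⟩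
    rw [← map_inv, ← map_mul, ← map_mul] at hT ⊢
    have h1 : (g * u * g⁻¹) ^ 3 ^ 1 = 1 := by rw [conj_pow, hu2, mul_one, mul_inv_cancel]
    rw [mem_map_iff h le_rfl h1] at hT
    rw [mem_map_iff h h.le1 h1, mem_map_iff h h.le2 h1]
    exact h.type g u hu hT
  · intro g
    obtain ⟨g, rfl⟩ := hsurj g
    obtain ⟨u, hu, hu2⟩ := h.not_conj g
    refine ⟨_, ⟨u, hu, rfl⟩, ?_⟩
    rw [← map_inv, ← map_mul, ← map_mul, mem_map_iff h h.le2 (k := 1)]
    · exact hu2
    · rw [conj_pow, exp' h (h.le1 hu), mul_one, mul_inv_cancel]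
  · intro R hR h3R
    have h1 : R.comap (QuotientGroup.mk' Z) ≤ Z := by
      refine h.sig _ (fun t ht r hr => ?_) ?_
      · rw [Subgroup.mem_comap, map_mul, map_mul, map_inv]
        exact hR _ ⟨t, ht, rfl⟩ _ hr
      · have hcard : Nat.card ↥(R.comap (QuotientGroup.mk' Z)) = Nat.card Z * Nat.card R :=
          QuotientGroup.card_preimage_mk Z (R : Set (Γ ⧸ Z))
        rw [hcard]
        intro hd
        rcases (Nat.Prime.dvd_mul Nat.prime_three).1 hd with hd | hd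
        · exact h.Z_card hd
        · exact h3R hd
    intro y hy
    obtain ⟨x, rfl⟩ := hsurj y
    rw [Subgroup.mem_bot]
    exact (QuotientGroup.eq_one_iff x).2 (h1 hy)
  · intro N hN h3N
    obtain ⟨P, hP, rfl⟩ := exists_lift h3N
    have h1 : P = ⊥ := by
      refine h.core P ⟨fun p hp g => ?_⟩ hP
      have h2 : QuotientGroup.mk' Z (g * p * g⁻¹) ∈ P.map (QuotientGroup.mk' Z) := by
        rw [map_mul, map_mul, map_inv]
        exact hN.conj_mem _ ⟨p, hp, rfl⟩ _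
      obtain ⟨p', hp', e⟩ := h2
      obtain ⟨k, hk⟩ := exists_pow_of_isPGroup hP hp
      obtain ⟨l, hl⟩ := exists_pow_of_isPGroup hP hp'
      rw [← eq_of_eq h hl (by rw [conj_pow, hk, mul_one, mul_inv_cancel]) e]
      exact hp'
    rw [h1, Subgroup.map_bot]
  · intro x hx hx1 P Q hP hQ hPx hQx
    obtain ⟨u, hu, hu2, rfl⟩ : ∃ u, (u ∈ U1 ∨ u ∈ U2) ∧ u ^ 3 ^ 1 = 1 ∧ QuotientGroup.mk' Z u = x := by
      rcases hx with ⟨u, hu, rfl⟩ | ⟨u, hu, rfl⟩
      · exact ⟨u, Or.inl hu, exp' h (h.le1 hu), rfl⟩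
      · exact ⟨u, Or.inr hu, exp' h (h.le2 hu), rfl⟩
    obtain ⟨P, hP', rfl⟩ := exists_lift hP
    obtain ⟨Q, hQ', rfl⟩ := exists_lift hQ
    rw [← Subgroup.map_sup]
    refine (h.tri u hu ?_ P Q hP' hQ' (fun p hp => ?_) (fun q hq => ?_)).map _
    · rintro rfl
      exact hx1 (map_one _)
    · exact Subgroup.mem_centralizer_singleton_iff.2 (comm_of_comm h hu2
        (Subgroup.mem_centralizer_singleton_iff.1 (hPx ⟨p, hp, rfl⟩)))
    · exact Subgroup.mem_centralizer_singleton_iff.2 (comm_of_comm h hu2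
        (Subgroup.mem_centralizer_singleton_iff.1 (hQx ⟨q, hq, rfl⟩)))
  · rintro _ ⟨x, hx, rfl⟩ h1 h2
    rw [card_syl h hx]
    exact h.reg x hx (fun h4 => h1 ⟨x, h4, rfl⟩) (fun h4 => h2 ⟨x, h4, rfl⟩)
  · rintro _ ⟨x, hx, rfl⟩ h1 h2 _ ⟨y, hy, rfl⟩ h4 h5
    obtain ⟨g, hg⟩ := h.reg_conj x hx (fun h6 => h1 ⟨x, h6, rfl⟩) (fun h6 => h2 ⟨x, h6, rfl⟩) y hy
      (fun h6 => h4 ⟨y, h6, rfl⟩) (fun h6 => h5 ⟨y, h6, rfl⟩)
    refine ⟨QuotientGroup.mk' Z g, ?_⟩
    rw [← map_inv, ← map_mul, ← map_mul, ← map_inv]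
    rcases hg with hg | hg
    · exact Or.inl (by rw [hg])
    · exact Or.inr (by rw [hg])

end Cfsg.Agent.H12.Co1
end

private theorem dce_b7fa755a5d96 : _root_.True := by
  try have : _root_.True := by simp only [_root_.Cfsg.Agent.H20.Co1.z13.eq_1]
  try have : _root_.True := by simp only [_root_.Cfsg.Agent.H20.Co1.z23.eq_1]
  try have : _root_.True := by simp only [_root_.Cfsg.Agent.H20.Co1.z12.eq_1]
  try have : _root_.True := by simp only [_root_.Cfsg.Agent.H776.Co.Lin.sf.eq_1]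
  exact _root_.True.intro
end

-- part: H776/Co/Neg
section
set_option linter.all false
open scoped Cfsg.Agent.FastGrp

/-! A word in `T`, `w1f`, `w2f 2` equal to `-1`. -/

set_option autoImplicit false
set_option linter.style.longLine false

namespace Cfsg.Agent.H776.Co.Lin

private def w1l : V →ₗ[ZMod 3] V where
  toFun := w1f
  map_add' u v := funext fun i => by
    fin_cases i
    exacts [rfl, neg_add _ _, rfl, neg_add _ _, rfl, rfl]
  map_smul' r v := funext fun i => by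
    fin_cases i
    exacts [rfl, (mul_neg _ _).symm, rfl, (mul_neg _ _).symm, rfl, rfl]

private def w2l : V →ₗ[ZMod 3] V where
  toFun := w2f 2
  map_add' u v := funext fun i => by
    fin_cases i
    exacts [(by ring : u 0 + v 0 + 2 * (u 2 + v 2 - (u 5 + v 5)) = u 0 + 2 * (u 2 - u 5) + (v 0 + 2 * (v 2 - v 5))),
      neg_add _ _, rfl, rfl, neg_add _ _, rfl]
  map_smul' r v := funext fun i => by
    fin_cases i
    exacts [(by ring : r * v 0 + 2 * (r * v 2 - r * v 5) = r * (v 0 + 2 * (v 2 - v 5))),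
      (mul_neg _ _).symm, rfl, rfl, (mul_neg _ _).symm, rfl]

set_option maxRecDepth 100000 in
private theorem word_basis : ∀ (i : Fin 6) (x : ZMod 3), w1f (w2f 2 (w1f (w2f 2 (tf 0 1 0 (w2f 2 (w1f (w2f 2 (w1f (w2f 2 (w1f (tf 0 1 0
    (w2f 2 (w1f (w2f 2 (w1f (tf 1 0 0 (Pi.single i x))))))))))))))))) = -Pi.single i x := by
  decide +kernel

set_option maxRecDepth 100000 in
private theorem word_all (v : V) : w1f (w2f 2 (w1f (w2f 2 (tf 0 1 0 (w2f 2 (w1f (w2f 2 (w1f (w2f 2 (w1f (tf 0 1 0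
    (w2f 2 (w1f (w2f 2 (w1f (tf 1 0 0 v)))))))))))))))) = -v := by
  have e1 : ∀ v, w1l v = w1f v := fun _ => rfl
  have e2 : ∀ v, w2l v = w2f 2 v := fun _ => rfl
  have e3 : ∀ a b c v, (tl a b c).toLinearMap v = tf a b c v := fun _ _ _ _ => rfl
  have h := LinearMap.congr_fun (LinearMap.pi_ext (f := w1l ∘ₗ w2l ∘ₗ w1l ∘ₗ w2l ∘ₗ (tl 0 1 0).toLinearMap ∘ₗ w2l ∘ₗ w1l ∘ₗ w2l ∘ₗ w1l ∘ₗ
    w2l ∘ₗ w1l ∘ₗ (tl 0 1 0).toLinearMap ∘ₗ w2l ∘ₗ w1l ∘ₗ w2l ∘ₗ w1l ∘ₗ (tl 1 0 0).toLinearMap) (g := -LinearMap.id) fun i x => by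
      simp only [LinearMap.comp_apply, e1, e2, e3, LinearMap.neg_apply, LinearMap.id_apply]
      exact word_basis i x) v
  simp only [LinearMap.comp_apply, e1, e2, e3, LinearMap.neg_apply, LinearMap.id_apply] at h
  exact h

theorem word_neg0 : ∀ b c d e f : ZMod 3, w1f (w2f 2 (w1f (w2f 2 (tf 0 1 0 (w2f 2 (w1f (w2f 2 (w1f (w2f 2 (w1f (tf 0 1 0
    (w2f 2 (w1f (w2f 2 (w1f (tf 1 0 0 ![0, b, c, d, e, f])))))))))))))))) = -![0, b, c, d, e, f] :=
  fun _ _ _ _ _ => word_all _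

theorem word_neg1 : ∀ b c d e f : ZMod 3, w1f (w2f 2 (w1f (w2f 2 (tf 0 1 0 (w2f 2 (w1f (w2f 2 (w1f (w2f 2 (w1f (tf 0 1 0
    (w2f 2 (w1f (w2f 2 (w1f (tf 1 0 0 ![1, b, c, d, e, f])))))))))))))))) = -![1, b, c, d, e, f] :=
  fun _ _ _ _ _ => word_all _

theorem word_neg2 : ∀ b c d e f : ZMod 3, w1f (w2f 2 (w1f (w2f 2 (tf 0 1 0 (w2f 2 (w1f (w2f 2 (w1f (w2f 2 (w1f (tf 0 1 0
    (w2f 2 (w1f (w2f 2 (w1f (tf 1 0 0 ![2, b, c, d, e, f])))))))))))))))) = -![2, b, c, d, e, f] :=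
  fun _ _ _ _ _ => word_all _

theorem word_neg : ∀ a b c d e f : ZMod 3, w1f (w2f 2 (w1f (w2f 2 (tf 0 1 0 (w2f 2 (w1f (w2f 2 (w1f (w2f 2 (w1f (tf 0 1 0
    (w2f 2 (w1f (w2f 2 (w1f (tf 1 0 0 ![a, b, c, d, e, f])))))))))))))))) = -![a, b, c, d, e, f] := by
  intro a
  have h : a = 0 ∨ a = 1 ∨ a = 2 := by revert a; decide
  rcases h with rfl | rfl | rfl
  · exact word_neg0
  · exact word_neg1
  · exact word_neg2

theorem tl_mem_T (a b c : ZMod 3) : tl a b c ∈ T := ⟨a, b, c, rfl⟩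

theorem neg_mem {G : Subgroup L} (hT : T ≤ G) (h1 : ∃ g ∈ G, ∀ v, g v = w1f v) (h2 : ∃ g ∈ G, ∀ v, g v = w2f 2 v) :
    ∃ g ∈ G, ∀ v, g v = -v := by
  obtain ⟨x, hx, h1⟩ := h1
  obtain ⟨y, hy, h2⟩ := h2
  have ha : tl 1 0 0 ∈ G := hT (tl_mem_T _ _ _)
  have hb : tl 0 1 0 ∈ G := hT (tl_mem_T _ _ _)
  refine ⟨x * y * x * y * tl 0 1 0 * y * x * y * x * y * x * tl 0 1 0 * y * x * y * x * tl 1 0 0, ?_, fun v => ?_⟩
  · exact mul_mem (mul_mem (mul_mem (mul_mem (mul_mem (mul_mem (mul_mem (mul_mem (mul_mem (mul_mem (mul_mem (mul_mem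
      (mul_mem (mul_mem (mul_mem (mul_mem hx hy) hx) hy) hb) hy) hx) hy) hx) hy) hx) hb) hy) hx) hy) hx) ha
  · have h3 := word_neg (v 0) (v 1) (v 2) (v 3) (v 4) (v 5)
    have h4 : ![v 0, v 1, v 2, v 3, v 4, v 5] = v := by
      funext i
      fin_cases i <;> rfl
    rw [h4] at h3
    simp only [LinearEquiv.mul_apply, h1, h2, tl_apply]
    exact h3

end Cfsg.Agent.H776.Co.Lin
end

-- part: H776/Co/Grp
section
set_option linter.all false
open scoped Cfsg.Agent.FastGrp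

/-!
Elementary facts on the model group.
-/

set_option autoImplicit false
set_option linter.style.longLine false

namespace Cfsg.Agent.H776.Co

open Subgroup P

theorem A_comm {x y : P} (hx : x ∈ A) (hy : y ∈ A) : x * y = y * x := by
  obtain ⟨h1, h2, h3⟩ := hx
  obtain ⟨h4, h5, h6⟩ := hy
  ext <;> simp [h1, h2, h3, h4, h5, h6, add_comm]

theorem conj_a (g x : P) : (g * x * g⁻¹).a = x.a := by simp

theorem conj_b (g x : P) : (g * x * g⁻¹).b = x.b := by simp

theorem A_conj {x : P} (hx : x ∈ A) (g : P) : g * x * g⁻¹ ∈ A := by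
  obtain ⟨h1, h2, h3⟩ := hx
  refine ⟨by rw [conj_a, h1], by rw [conj_b, h2], ?_⟩
  simp [h1, h2, h3]

theorem A_cube {x : P} (hx : x ∈ A) : x ^ 3 = 1 := by
  obtain ⟨h1, h2, h3⟩ := hx
  have h : ∀ y : ZMod 3, y + y + y = 0 := by decide
  rw [pow_succ, pow_two]
  ext <;> simp [h1, h2, h3, h]

theorem W5_le_A : W5 ≤ A := fun _ hx => ⟨hx.1, hx.2.1, hx.2.2.1⟩
theorem W3_le_W5 : W3 ≤ W5 := fun _ hx => ⟨hx.1, hx.2.1, hx.2.2.1, hx.2.2.2.2.2⟩
theorem W1_le_W3 : W1 ≤ W3 := fun _ hx => ⟨hx.1, hx.2.1, hx.2.2.1, hx.2.2.2.2.2.1, hx.2.2.2.2.2.2.1, hx.2.2.2.2.2.2.2⟩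
theorem W3_le_A : W3 ≤ A := W3_le_W5.trans W5_le_A
theorem W1_le_A : W1 ≤ A := W1_le_W3.trans W3_le_A
theorem xa_mul (a b : ZMod 3) : xa a * xa b = xa (a + b) := by
  ext <;> simp [xa]

theorem xa_zero : xa 0 = 1 := rfl

theorem xa_mem {Q : Subgroup P} (h : xa 1 ∈ Q) (a : ZMod 3) : xa a ∈ Q := by
  have h2 : xa 2 ∈ Q := by
    have := mul_mem h h
    rw [xa_mul] at this
    exact this
  have : ∀ a : ZMod 3, a = 0 ∨ a = 1 ∨ a = 2 := by decide
  rcases this a with rfl | rfl | rfl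
  · rw [xa_zero]; exact one_mem Q
  · exact h
  · exact h2

/-- `Q_L = W5 · DD i` -/
theorem mem_of_QL {Q : Subgroup P} {i : ZMod 3} (h1 : W5 ≤ Q) (h2 : DD i ≤ Q) {x : P} (ha : x.a = 0) (hm : x.m33 = 0) : x ∈ Q := by
  have h3 : (⟨0, x.b, x.c, 0, 0, 0, i * x.c, i * x.b, 0⟩ : P) ∈ Q := h2 ⟨rfl, rfl, rfl, rfl⟩
  have h4 : x * (⟨0, x.b, x.c, 0, 0, 0, i * x.c, i * x.b, 0⟩ : P)⁻¹ ∈ Q := by
    apply h1
    refine ⟨by simp [ha], by simp, by simp [ha], by simp [hm]⟩
  simpa using mul_mem h4 h3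

/-- subgroups containing `Q_L` are normal -/
theorem normal_of_QL {Q : Subgroup P} (h : ∀ x : P, x.a = 0 → x.m33 = 0 → x ∈ Q) (n : P) {q : P} (hq : q ∈ Q) : n * q * n⁻¹ ∈ Q := by
  have h1 : n * q * n⁻¹ * q⁻¹ ∈ Q := h _ (by simp) (by simp)
  simpa using mul_mem h1 hq

theorem DD_xa {i : ZMod 3} {x : P} (hx : x ∈ DD i) : xa 1 * x * (xa 1)⁻¹ ∈ DD i := by
  obtain ⟨h1, h2, h3, h4⟩ := hx
  refine ⟨by simp [h1], by simp [h2], ?_, ?_⟩
  · simp [xa, h1, h2, h3, h4]; ring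
  · simp [xa, h2, h4]

theorem R3_le {Q : Subgroup P} (h : ∀ x : P, x.a = 0 → x.m33 = 0 → x ∈ Q) (hx : xa 1 ∈ Q) : R3 ≤ Q := by
  intro x hx3
  have h3 : x.m33 = 0 := hx3
  have h1 : (xa x.a)⁻¹ * x ∈ Q := h _ (by simp [xa]) (by simp [xa, h3])
  have := mul_mem (xa_mem hx x.a) h1
  simpa using this

theorem m33_mul_inv (x y : P) : (x * y⁻¹).m33 = x.m33 - y.m33 := by simp [sub_eq_add_neg]

/-- `R3` is a maximal subgroup not containing `A` -/
theorem eq_R3 {Q : Subgroup P} (h : R3 ≤ Q) (hA : ¬ A ≤ Q) : Q = R3 := by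
  apply le_antisymm _ h
  intro y hy
  by_contra hc
  have hy3 : y.m33 ≠ 0 := hc
  apply hA
  intro x _
  have h1 : ∀ u v : ZMod 3, v ≠ 0 → u = 0 ∨ u - v = 0 ∨ u + v = 0 := by decide
  rcases h1 x.m33 y.m33 hy3 with h2 | h2 | h2
  · exact h h2
  · have h3 : x * y⁻¹ ∈ Q := h (by show (x * y⁻¹).m33 = 0; rw [m33_mul_inv, h2])
    simpa using mul_mem h3 hy
  · have h3 : x * y ∈ Q := h (by show (x * y).m33 = 0; rw [mul_m33, h2])
    have := mul_mem h3 (inv_mem hy)
    simpa using this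

end Cfsg.Agent.H776.Co
end
end
end
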